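import Mathlib
import Cfsg.Prelude.Def_Characters
import Cfsg.Prelude.Def_Blocks

/-!
# S4931: the `p'`-degree characters of a Sylow normalizer extend iff it has a normal complement

`P` a Sylow `p`-subgroup of the finite group `G`, `N = N_G(P)`.  Every `θ ∈ Irr(N)` of degree prime
to `p` is the restriction of some `χ ∈ Irr(G)` iff there is `K ⊴ G` with `K N = G`, `K ∩ N = 1`.

(⇐) [CONV] inflation through `G/K ≅ N`.

(⇒) For a normal subgroup `D` of `N` let `S(D)` be the intersection of the kernels of all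
`χ ∈ Irr(G)` whose restriction to `N` is an irreducible character trivial on `D` [KERN].  If
`P' ≤ D ≤ P` then every `θ ∈ Irr(N/D)` has degree prime to `p` [DEGP], hence extends, and the
characters of `N/D` separate `D` from the rest [SEP]: `S(D) ∩ N = D`.  Put `M = S(P)`, `R = S(P')`:
`R ≤ M` normal in `G`, `M ∩ N = P`, `R ∩ N = P'`.  [LEMB]: in `G/R` the Sylow subgroup `PR/R` is
abelian and equal to its normalizer in `M/R` [NORMQ], so `M/R` has a normal `p`-complement `Q/R`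
(Burnside's transfer theorem, [BURN]); `Q ⊴ G`, `Q ∩ P = P' ≤ Φ(P)`, so `Q` has a normal
`p`-complement `K ⊴ G` (Tate's theorem = landed S0081, [TATEK]).  `G = M N` (Frattini)
`= Q P N = Q N = K N` and `K ∩ N ≤ K ∩ M ∩ N = K ∩ P = 1`.
-/

set_option autoImplicit false

namespace Cfsg.Agent.Lib.Helper79.SNStmt

open Cfsg

universe u

/-- [KERN] the common kernel of a set of irreducible characters is a normal subgroup.
(Kernel of a character = `{g | χ g = χ 1}` is a normal subgroup: see `Cfsg.Agent.Lib.CT.Kernel`;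
take the `sInf`/`iInf`, or build the subgroup by hand from `rep_char_eq_iff`: `χ g = χ 1 ↔ σ g = 1`.) -/
def Kern : Prop := ∀ (G : Type u) [Group G] [Finite G] (Θ : Set (IrrCharacter G)),
  ∃ S : Subgroup G, S.Normal ∧ ∀ g : G, g ∈ S ↔ ∀ χ ∈ Θ, (χ : G → ℂ) g = (χ : G → ℂ) 1

/-- [SEP] the irreducible characters of `H/D` separate `D` from its complement.
(`x ∉ D`: `x̄ ≠ 1` in `H ⧸ D`; some `ψ ∈ Irr(H ⧸ D)` has `ψ x̄ ≠ ψ 1` (otherwise column
orthogonality / the regular character gives `0 = Σ ψ(1) ψ(x̄) = Σ ψ(1)² = |H/D|`); inflate: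
`Cfsg.Agent.Lib.CT.Kernel.isIrrCharacter_inflation`, `Helper3.TDBasic.infl`.) -/
def Sep : Prop := ∀ (H : Type u) [Group H] [Finite H] (D : Subgroup H), D.Normal → ∀ x : H, x ∉ D →
  ∃ θ : IrrCharacter H, (∀ d ∈ D, (θ : H → ℂ) d = (θ : H → ℂ) 1) ∧
    (θ : H → ℂ) x ≠ (θ : H → ℂ) 1

/-- [DEGP] `A ⊴ H` of index prime to `p`, `θ ∈ Irr(H)` trivial on the commutators of `A`: then
`p ∤ θ(1)`.  (Take an irreducible constituent `μ` of `θ` restricted to `A`; it is trivial on the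
commutators of `A` (`Helper3.MGroup.constituent_apply_eq`), hence linear
(`Helper3.MGroup.apply_one_eq_one_of_comm`); `θ(1) = θ(1)/μ(1)` divides `A.index`
(`Helper3.TDBasic.deg_of_constituent`, i.e. landed S0887).) -/
def DegP : Prop := ∀ (H : Type u) [Group H] [Finite H] (p : ℕ), p.Prime → ∀ A : Subgroup H,
  A.Normal → ¬ p ∣ A.index → ∀ θ : IrrCharacter H,
    (∀ a ∈ A, ∀ b ∈ A, (θ : H → ℂ) (a * b * a⁻¹ * b⁻¹) = (θ : H → ℂ) 1) →
    ¬ p ∣ charDegree (θ : H → ℂ)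

/-- [CONV] a subgroup with a normal complement: every irreducible character extends.
(`H → G ⧸ K` is bijective; transport `θ` to `G ⧸ K` along the inverse isomorphism and inflate:
`χ g = θ (e.symm (g : G ⧸ K))`; irreducibility is preserved by composing with a `MulEquiv` and
by inflation, `Cfsg.Agent.Lib.CT.Kernel.isIrrCharacter_inflation`.) -/
def Conv : Prop := ∀ (G : Type u) [Group G] [Finite G] (H K : Subgroup G), K.Normal →
  K ⊔ H = ⊤ → K ⊓ H = ⊥ →
  ∀ θ : IrrCharacter ↥H, ∃ χ : IrrCharacter G, ∀ x : ↥H, (χ : G → ℂ) x = (θ : ↥H → ℂ) x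

/-- [NORMQ] (pure group theory) the normalizer of a Sylow subgroup modulo a normal subgroup `R`:
if `g P g⁻¹ ≤ P R` then `g ∈ N_G(P) R`.  (`P` and `g P g⁻¹` are Sylow `p`-subgroups of the
subgroup `P ⊔ R`, hence conjugate by some `y ∈ P ⊔ R`: `y⁻¹ g ∈ N_G(P)` and
`g = y (y⁻¹ g) ∈ (P ⊔ R) N_G(P) ⊆ N_G(P) ⊔ R`.) -/
def NormQ : Prop := ∀ (G : Type u) [Group G] [Finite G] (p : ℕ) [Fact p.Prime] (P : Sylow p G)
  (R : Subgroup G), R.Normal →
  ∀ g : G, (∀ x ∈ (P : Subgroup G), g * x * g⁻¹ ∈ (P : Subgroup G) ⊔ R) →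
    g ∈ Subgroup.normalizer ((P : Subgroup G) : Set G) ⊔ R

/-- [BURN] (pure group theory) Burnside's transfer theorem inside a normal subgroup `M`: an abelian
Sylow `p`-subgroup `P ≤ M` which is its own normalizer in `M` has a complement `Q` in `M` that is
normal in the whole group.  (Mathlib `MonoidHom.ker_transferSylow_isComplement'` applied in `↥M`
to `P.subtype _ : Sylow p ↥M` gives a normal complement `Q₀` of `P` in `↥M`; `Q := Q₀.map M.subtype`
consists exactly of the elements of `M` of order prime to `p` (landed `Cfsg.Agent.S0086.result` in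
`↥M`), a set stable under conjugation in `X`.) -/
def Burn : Prop := ∀ (X : Type u) [Group X] [Finite X] (p : ℕ) [Fact p.Prime] (P : Sylow p X)
  (M : Subgroup X), M.Normal → (P : Subgroup X) ≤ M →
  (∀ a ∈ (P : Subgroup X), ∀ b ∈ (P : Subgroup X), a * b = b * a) →
  M ⊓ Subgroup.normalizer ((P : Subgroup X) : Set X) ≤ (P : Subgroup X) →
  ∃ Q : Subgroup X, Q.Normal ∧ Q ≤ M ∧ Q ⊓ (P : Subgroup X) = ⊥ ∧ Q ⊔ (P : Subgroup X) = M

/-- [TATEK] (pure group theory) Tate's theorem in the form needed: `Q ⊴ G` with `Q ∩ P ≤ P'` has a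
normal `p`-complement `K`, which is normal in `G`.  (`P' ≤ Φ(P)`: landed `Cfsg.Agent.S0012.result`
with `(commutator ↥P).map P.subtype = ⁅P, P⁆` (`Helper79.TC3EAB2C.map_commutator_subtype`); landed
`Cfsg.Agent.S0081.result P Q h : HasNormalPComplement p ↥Q` gives `K₀ ⊴ ↥Q` complementing a Sylow
`p`-subgroup of `↥Q`; `K := K₀.map Q.subtype` = the elements of `Q` of order prime to `p`
(`Cfsg.Agent.S0086.result`), so `K ⊴ G` and `K ⊓ P = ⊥`; `Q ⊓ P` is a Sylow `p`-subgroup of `Q`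
(`Q` normal), so `|K| |Q ⊓ P| = |Q|` and `Q = K (Q ⊓ P) ≤ K ⊔ P`.) -/
def TateK : Prop := ∀ (G : Type u) [Group G] [Finite G] (p : ℕ) [Fact p.Prime] (P : Sylow p G)
  (Q : Subgroup G), Q.Normal →
  Q ⊓ (P : Subgroup G) ≤ ⁅(P : Subgroup G), (P : Subgroup G)⁆ →
  ∃ K : Subgroup G, K.Normal ∧ K ≤ Q ∧ K ⊓ (P : Subgroup G) = ⊥ ∧ Q ≤ K ⊔ (P : Subgroup G)

/-- [LEMB] (pure group theory; uses NORMQ, BURN, TATEK; assembled by the author in `SNAsm`).
`X := G ⧸ R`, `π := QuotientGroup.mk' R`, `P̄ := P.mapSurjective π`, `M̄ := M.map π`.  `P̄` is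
abelian (`P' ≤ R`); if `π m` (`m ∈ M`) normalizes `P̄` then `m P m⁻¹ ≤ P ⊔ R`, so `m = n r`
(NORMQ) with `n ∈ M ⊓ N ≤ P`: `π m ∈ P̄`.  BURN: `Q̄`; `Q := Q̄.comap π`; `Q ⊓ P ≤ R ⊓ P ≤ P'`;
TATEK: `K`.  Frattini (`Sylow.normalizer_sup_eq_top`): `M ⊔ N = ⊤`; `M = Q ⊔ P`, `Q ≤ K ⊔ P`,
`P ≤ N`: `K ⊔ N = ⊤`.  `K ⊓ N ≤ K ⊓ (M ⊓ N) ≤ K ⊓ P = ⊥`. -/
def LemB : Prop := ∀ (G : Type u) [Group G] [Finite G] (p : ℕ) [Fact p.Prime] (P : Sylow p G)
  (M R : Subgroup G), M.Normal → R.Normal → R ≤ M → (P : Subgroup G) ≤ M →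
  M ⊓ Subgroup.normalizer ((P : Subgroup G) : Set G) ≤ (P : Subgroup G) →
  ⁅(P : Subgroup G), (P : Subgroup G)⁆ ≤ R →
  R ⊓ (P : Subgroup G) ≤ ⁅(P : Subgroup G), (P : Subgroup G)⁆ →
  ∃ K : Subgroup G, K.Normal ∧ K ⊔ Subgroup.normalizer ((P : Subgroup G) : Set G) = ⊤ ∧
    K ⊓ Subgroup.normalizer ((P : Subgroup G) : Set G) = ⊥

/-- the forward direction (uses KERN, SEP, DEGP, LEMB; assembled by the author in `SNAsm`). -/
def Fwd : Prop := ∀ (G : Type u) [Group G] [Finite G] (p : ℕ) [Fact p.Prime] (P : Sylow p G),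
  (∀ θ : IrrCharacter ↥(Subgroup.normalizer ((P : Subgroup G) : Set G)),
      ¬ p ∣ charDegree (θ : ↥(Subgroup.normalizer ((P : Subgroup G) : Set G)) → ℂ) →
      ∃ χ : IrrCharacter G, ∀ x : ↥(Subgroup.normalizer ((P : Subgroup G) : Set G)),
        (χ : G → ℂ) x = (θ : ↥(Subgroup.normalizer ((P : Subgroup G) : Set G)) → ℂ) x) →
  ∃ K : Subgroup G, K.Normal ∧ K ⊔ Subgroup.normalizer ((P : Subgroup G) : Set G) = ⊤ ∧
    K ⊓ Subgroup.normalizer ((P : Subgroup G) : Set G) = ⊥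

end Cfsg.Agent.Lib.Helper79.SNStmt
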