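import Mathlib
import Cfsg.Prelude.Def_Blocks
import Cfsg.Agent.Lib.Helper74.McKayDefs
import Cfsg.Agent.Lib.Helper16.RootConj
import Cfsg.Agent.Lib.Helper16.SylowBlocks
import Cfsg.Agent.Lib.Helper16.Brauer
import Cfsg.Agent.Lib.Helper80.DefOneLoc
import Cfsg.Agent.Lib.CT.DefectZeroBlock
import Cfsg.Agent.S0968

/-!
# McKay for a Sylow subgroup of order `p`: existence of the induced block and of a root
-/

set_option autoImplicit false

namespace Cfsg.Agent.Lib.Helper79.McKayCD

open Cfsg Cfsg.Agent.Lib.Helper74.McKayDefs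

universe u
variable {G : Type u} [Group G]

theorem exists_induced [Finite G] (p : ℕ) [Fact p.Prime] (M : Ideal AlgInt) (hM : IsPModular p M)
    (P : Sylow p G) (hP : Nat.card P = p)
    (θ : IrrCharacter ↥(Subgroup.centralizer ((P : Subgroup G) : Set G))) :
    ∃ B : Set (IrrCharacter G),
      IsInducedBlock M (Subgroup.centralizer ((P : Subgroup G) : Set G))
        (blockOf M (θ : ↥(Subgroup.centralizer ((P : Subgroup G) : Set G)) → ℂ)) B ∧
      IsDefectGroup p M B (P : Subgroup G) := by
  classical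
  have hPC : (P : Subgroup G) ≤ Subgroup.centralizer ((P : Subgroup G) : Set G) :=
    Cfsg.Agent.Lib.Helper80.DefOneLoc.le_centralizer P hP
  have hCN : Subgroup.centralizer ((P : Subgroup G) : Set G) ≤
      Subgroup.normalizer ((P : Subgroup G) : Set G) := Subgroup.centralizer_le_normalizer _
  have hb : IsPBlock M (blockOf M (θ : ↥(Subgroup.centralizer ((P : Subgroup G) : Set G)) → ℂ)) :=
    ⟨θ, rfl⟩
  obtain ⟨B, hind⟩ := Cfsg.Agent.Lib.Helper16.Brauer.inducedBlockDefined_of_local hM
    (P : Subgroup G) (Subgroup.centralizer ((P : Subgroup G) : Set G)) P.isPGroup' hPC le_rfl hCN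
    _ hb
  refine ⟨B, hind, ?_⟩
  have hnorm : ((P : Subgroup G).subgroupOf
      (Subgroup.centralizer ((P : Subgroup G) : Set G))).Normal :=
    (Subgroup.normal_subgroupOf_iff_le_normalizer hPC).mpr hCN
  have hPp : IsPGroup p ((P : Subgroup G).subgroupOf
      (Subgroup.centralizer ((P : Subgroup G) : Set G))) :=
    Cfsg.Agent.Lib.Helper16.ExtFirst.isPGroup_subgroupOf (P : Subgroup G) _ P.isPGroup'
  have hidx : ¬ p ∣ ((P : Subgroup G).subgroupOf
      (Subgroup.centralizer ((P : Subgroup G) : Set G))).index := by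
    intro hdvd
    have h1 : (P : Subgroup G).relIndex (Subgroup.centralizer ((P : Subgroup G) : Set G)) ∣
        (P : Subgroup G).index := Dvd.intro _ (Subgroup.relIndex_mul_index hPC)
    exact P.not_dvd_index (hdvd.trans h1)
  have hdef := Cfsg.Agent.Lib.Helper16.SylowBlocks.isDefectGroup_of_normal_sylow p hM
    ((P : Subgroup G).subgroupOf (Subgroup.centralizer ((P : Subgroup G) : Set G))) hPp hidx _ hb
  obtain ⟨E, hE, hle⟩ := Cfsg.Agent.Lib.Helper16.IndBlock.defectGroup_le_of_induced hM _ _ B hind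
    _ hdef
  rw [Subgroup.map_subgroupOf_eq_of_le hPC] at hle
  have hEp : IsPGroup p E := by
    obtain ⟨g, -, hg⟩ := Cfsg.Agent.Lib.Helper16.MinMax.isDefectGroup_iff.mp hE
    exact hg.2.1
  have hEP : E = (P : Subgroup G) := P.is_maximal' hEp hle
  rw [← hEP]
  exact hE

theorem exists_root [Finite G] (p : ℕ) [Fact p.Prime] (M : Ideal AlgInt) (hM : IsPModular p M)
    (P : Sylow p G) (hP : Nat.card P = p) (B : Set (IrrCharacter G)) (hB : IsPBlock M B)
    (hBP : IsDefectGroup p M B (P : Subgroup G)) :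
    ∃ θ : IrrCharacter ↥(Subgroup.centralizer ((P : Subgroup G) : Set G)),
      TrivOn (P : Subgroup G) (θ : ↥(Subgroup.centralizer ((P : Subgroup G) : Set G)) → ℂ) ∧
      IsInducedBlock M (Subgroup.centralizer ((P : Subgroup G) : Set G))
        (blockOf M (θ : ↥(Subgroup.centralizer ((P : Subgroup G) : Set G)) → ℂ)) B := by
  classical
  have hMp := Cfsg.Agent.Lib.Helper77.LocalRing.isPrime_of_isPModular hM
  have hPC : (P : Subgroup G) ≤ Subgroup.centralizer ((P : Subgroup G) : Set G) :=
    Cfsg.Agent.Lib.Helper80.DefOneLoc.le_centralizer P hP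
  have hCN : Subgroup.centralizer ((P : Subgroup G) : Set G) ≤
      Subgroup.normalizer ((P : Subgroup G) : Set G) := Subgroup.centralizer_le_normalizer _
  have hn : ((Subgroup.centralizer ((P : Subgroup G) : Set G)).subgroupOf
      (Subgroup.normalizer ((P : Subgroup G) : Set G))).Normal :=
    Cfsg.Agent.Lib.Helper16.RootConj.centralizer_normal_in_normalizer (P : Subgroup G)
  obtain ⟨b, hdef, hind⟩ := Cfsg.Agent.Lib.Helper16.ExtFirst.exists_block_centralizer p hM
    (P : Subgroup G) (Subgroup.centralizer ((P : Subgroup G) : Set G)) hPC le_rfl hCN B hB hBP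
  have hPp : IsPGroup p ((P : Subgroup G).subgroupOf
      (Subgroup.centralizer ((P : Subgroup G) : Set G))) :=
    Cfsg.Agent.Lib.Helper16.ExtFirst.isPGroup_subgroupOf (P : Subgroup G) _ P.isPGroup'
  have htop : (P : Subgroup G).subgroupOf (Subgroup.centralizer ((P : Subgroup G) : Set G)) ⊔
      Subgroup.centralizer (((P : Subgroup G).subgroupOf
        (Subgroup.centralizer ((P : Subgroup G) : Set G)) :
          Subgroup (Subgroup.centralizer ((P : Subgroup G) : Set G))) :
            Set (Subgroup.centralizer ((P : Subgroup G) : Set G))) = ⊤ := by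
    rw [eq_top_iff]
    intro c _
    apply Subgroup.mem_sup_right
    rw [Subgroup.mem_centralizer_iff]
    intro x hx
    rw [SetLike.mem_coe, Subgroup.mem_subgroupOf] at hx
    have hc : (c : G) ∈ Subgroup.centralizer ((P : Subgroup G) : Set G) := c.2
    rw [Subgroup.mem_centralizer_iff] at hc
    apply Subtype.ext
    simp only [Subgroup.coe_mul]
    exact hc _ hx
  obtain ⟨θ, ⟨hθb, hθP⟩, -⟩ := (Cfsg.Agent.S0968.result p M hM _ hPp htop b hind.1 hdef).1
  refine ⟨θ, fun x hx => hθP x (Subgroup.mem_subgroupOf.mpr hx), ?_⟩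
  have hbeq := Cfsg.Agent.Lib.CT.DefectZeroBlock.eq_blockOf_of_mem hMp hind.1 hθb
  rw [← hbeq]
  exact hind

end Cfsg.Agent.Lib.Helper79.McKayCD
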