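import Mathlib
import Cfsg.Agent.Lib.Helper32.D8Stmt
import Cfsg.Agent.Lib.Helper26.GenChar
import Cfsg.Agent.Lib.Helper3.Irr
import Cfsg.Agent.Lib.CT.Ops

/-! S3716 piece MULT4 (second seat): multiplicities of a norm-4 generalized character
vanishing at 1 are in `{0, 1, -1}`.  Also the Parseval formula `parseval` for two generalized
characters, reused by COMMONNEG. -/

set_option autoImplicit false
set_option linter.style.haveILetI false

namespace Cfsg.Agent.Lib.Helper79.D8MULT4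

open Cfsg Cfsg.Agent.Lib.CT Cfsg.Agent.Lib.CT.Wedderburn Cfsg.Agent.Lib.Helper26.GenChar
open Cfsg.Agent.Lib.Helper32 Cfsg.Agent.Lib.Helper3.Irr
open scoped ComplexConjugate

universe u

/-- Parseval for two families of integer multiplicities. -/
theorem parseval {G : Type u} [Group G] [Fintype G] [Fintype (IrrCharacter G)] {θ η : G → ℂ}
    (c d : IrrCharacter G → ℤ) (hc : ∀ ψ : IrrCharacter G, classInner θ (ψ : G → ℂ) = c ψ)
    (he' : η = ∑ ψ : IrrCharacter G, (d ψ : ℂ) • (ψ : G → ℂ)) :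
    classInner θ η = ((∑ ψ : IrrCharacter G, c ψ * d ψ : ℤ) : ℂ) := by
  conv_lhs => rw [he']
  rw [classInner_sum_right]
  push_cast
  refine Finset.sum_congr rfl fun ψ _ => ?_
  rw [Cfsg.Agent.Lib.Helper26.GenChar.classInner_smul_right, hc ψ, map_intCast]
  ring

theorem main : D8Stmt.MULT4.{u} := by
  intro G _ _ Ψ χ hΨ h1 hnorm hχ
  classical
  haveI := finite_irrCharacter G
  haveI := Fintype.ofFinite (IrrCharacter G)
  obtain ⟨c, hc, he⟩ := exists_int_mult hΨ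
  have hsq := classInner_self_eq_sum_sq c hc he
  rw [hnorm] at hsq
  have hsq' : ∑ ψ : IrrCharacter G, c ψ * c ψ = 4 := by exact_mod_cast hsq.symm
  obtain ⟨ψ₀, hψ₀⟩ : ∃ ψ₀ : IrrCharacter G, (ψ₀ : G → ℂ) = χ := ⟨⟨χ, hχ⟩, rfl⟩
  have hcχ : classInner Ψ χ = c ψ₀ := by rw [← hψ₀]; exact hc ψ₀
  have hsplit := Finset.add_sum_erase Finset.univ (fun ψ => c ψ * c ψ) (Finset.mem_univ ψ₀)
  rw [hsq'] at hsplit
  have hnn : 0 ≤ ∑ ψ ∈ Finset.univ.erase ψ₀, c ψ * c ψ :=
    Finset.sum_nonneg (fun ψ _ => mul_self_nonneg _)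
  have hle : c ψ₀ * c ψ₀ ≤ 4 := by linarith
  have hb1 : -2 ≤ c ψ₀ := by nlinarith
  have hb2 : c ψ₀ ≤ 2 := by nlinarith
  have key : c ψ₀ * c ψ₀ = 4 → False := by
    intro h4
    have hz : ∑ ψ ∈ Finset.univ.erase ψ₀, c ψ * c ψ = 0 := by linarith
    have hz' := (Finset.sum_eq_zero_iff_of_nonneg (fun ψ _ => mul_self_nonneg (c ψ))).mp hz
    have hΨ1 : Ψ 1 = (c ψ₀ : ℂ) * χ 1 := by
      have h2 := congrFun he 1
      rw [Finset.sum_apply] at h2
      rw [h2, ← Finset.add_sum_erase _ _ (Finset.mem_univ ψ₀), Finset.sum_eq_zero, add_zero]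
      · simp only [Pi.smul_apply, smul_eq_mul, hψ₀]
      · intro ψ hψ
        have h3 := hz' ψ hψ
        have h4' : c ψ = 0 := mul_self_eq_zero.mp h3
        rw [h4']
        simp
    obtain ⟨n, hn, hχ1⟩ := IsIrrCharacter.exists_apply_one_pos hχ
    rw [h1, hχ1] at hΨ1
    have h5 : (0 : ℤ) = c ψ₀ * n := by exact_mod_cast hΨ1
    have h6 : c ψ₀ = 0 := by
      rcases mul_eq_zero.mp h5.symm with h | h
      · exact h
      · exfalso; omega
    rw [h6] at h4
    norm_num at h4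
  rw [hcχ]
  have hcases : c ψ₀ = -2 ∨ c ψ₀ = -1 ∨ c ψ₀ = 0 ∨ c ψ₀ = 1 ∨ c ψ₀ = 2 := by omega
  rcases hcases with h | h | h | h | h
  · exfalso; apply key; rw [h]; norm_num
  · right; right; rw [h]; norm_num
  · left; rw [h]; norm_num
  · right; left; rw [h]; norm_num
  · exfalso; apply key; rw [h]; norm_num

end Cfsg.Agent.Lib.Helper79.D8MULT4
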