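import Mathlib
import Cfsg.Agent.Lib.Helper32.D8Stmt
import Cfsg.Agent.Lib.Helper26.GenChar
import Cfsg.Agent.Lib.Helper3.Irr
import Cfsg.Agent.Lib.CT.Ops
import Cfsg.Agent.Lib.Helper79.D8MULT4

/-! S3716 pieces COMMONNEG and COMMON (second seat): common nontrivial constituent of two
norm-4 generalized characters vanishing at 1, with opposite / equal signs. -/

set_option autoImplicit false
set_option linter.style.haveILetI false

namespace Cfsg.Agent.Lib.Helper79.D8COMMONNEG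

open Cfsg Cfsg.Agent.Lib.CT Cfsg.Agent.Lib.CT.Wedderburn Cfsg.Agent.Lib.Helper26.GenChar
open Cfsg.Agent.Lib.Helper32 Cfsg.Agent.Lib.Helper3.Irr
open scoped ComplexConjugate

universe u

/-- Integer form of MULT4. -/
theorem mult_cases {G : Type u} [Group G] [Fintype G] (Ψ : G → ℂ)
    (hΨ : IsGeneralizedCharacter G Ψ) (h1 : Ψ 1 = 0) (hn : classInner Ψ Ψ = 4)
    (c : IrrCharacter G → ℤ) (hc : ∀ ψ : IrrCharacter G, classInner Ψ (ψ : G → ℂ) = c ψ)
    (ψ : IrrCharacter G) : c ψ = 0 ∨ c ψ = 1 ∨ c ψ = -1 := by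
  have hcm := Cfsg.Agent.Lib.Helper79.D8MULT4.main Ψ (ψ : G → ℂ) hΨ h1 hn ψ.2
  rw [hc ψ] at hcm
  rcases hcm with h | h | h
  · left; exact_mod_cast h
  · right; left; exact_mod_cast h
  · right; right; exact_mod_cast h

theorem main : D8Stmt.COMMONNEG.{u} := by
  intro G _ _ Ψ Ψ' hΨ hΨ' h1 h1' hn hn' ht ht' hinner
  classical
  haveI := finite_irrCharacter G
  haveI := Fintype.ofFinite (IrrCharacter G)
  obtain ⟨c, hc, he⟩ := exists_int_mult hΨ
  obtain ⟨d, hd, he'⟩ := exists_int_mult hΨ'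
  have hP := Cfsg.Agent.Lib.Helper79.D8MULT4.parseval c d hc he'
  rw [hinner] at hP
  have hP' : ∑ ψ : IrrCharacter G, c ψ * d ψ = -2 := by exact_mod_cast hP.symm
  obtain ⟨t₀, ht₀⟩ : ∃ t₀ : IrrCharacter G, (t₀ : G → ℂ) = D8Stmt.triv G :=
    ⟨⟨fun _ => (1 : ℂ), Ops.isIrrCharacter_one⟩, rfl⟩
  have hct : c t₀ = 1 := by
    have h2 := hc t₀
    rw [ht₀, ht] at h2
    exact_mod_cast h2.symm
  have hdt : d t₀ = -1 := by
    have h2 := hd t₀
    rw [ht₀, ht'] at h2
    exact_mod_cast h2.symm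
  have hrest : ∑ ψ ∈ Finset.univ.erase t₀, c ψ * d ψ = -1 := by
    have e1 := Finset.add_sum_erase Finset.univ (fun ψ => c ψ * d ψ) (Finset.mem_univ t₀)
    simp only [hP', hct, hdt] at e1
    linarith
  obtain ⟨ψ, hψ, hneg⟩ : ∃ ψ ∈ Finset.univ.erase t₀, c ψ * d ψ < 0 := by
    by_contra hcon
    push_neg at hcon
    have := Finset.sum_nonneg hcon
    linarith
  have hcm := mult_cases Ψ hΨ h1 hn c hc ψ
  have hdm := mult_cases Ψ' hΨ' h1' hn' d hd ψ
  refine ⟨ψ, ψ.2, ?_, ?_⟩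
  · intro h
    exact Finset.ne_of_mem_erase hψ (Subtype.ext (h.trans ht₀.symm))
  · rw [hc ψ, hd ψ]
    rcases hcm with h | h | h <;> rcases hdm with h' | h' | h' <;> rw [h, h'] at hneg <;>
      first
        | (exfalso; revert hneg; norm_num; done)
        | (left; rw [h, h']; norm_num; done)
        | (right; rw [h, h']; norm_num; done)

theorem common : D8Stmt.COMMON.{u} := by
  intro G _ _ Ψ Ψ' hΨ hΨ' h1 h1' hn hn' ht ht' hinner
  classical
  haveI := finite_irrCharacter G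
  haveI := Fintype.ofFinite (IrrCharacter G)
  obtain ⟨c, hc, he⟩ := exists_int_mult hΨ
  obtain ⟨d, hd, he'⟩ := exists_int_mult hΨ'
  have hP := Cfsg.Agent.Lib.Helper79.D8MULT4.parseval c d hc he'
  rw [hinner] at hP
  have hP' : ∑ ψ : IrrCharacter G, c ψ * d ψ = 2 := by exact_mod_cast hP.symm
  obtain ⟨t₀, ht₀⟩ : ∃ t₀ : IrrCharacter G, (t₀ : G → ℂ) = D8Stmt.triv G :=
    ⟨⟨fun _ => (1 : ℂ), Ops.isIrrCharacter_one⟩, rfl⟩
  have hct : c t₀ = 1 := by
    have h2 := hc t₀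
    rw [ht₀, ht] at h2
    exact_mod_cast h2.symm
  have hdt : d t₀ = 1 := by
    have h2 := hd t₀
    rw [ht₀, ht'] at h2
    exact_mod_cast h2.symm
  have hrest : ∑ ψ ∈ Finset.univ.erase t₀, c ψ * d ψ = 1 := by
    have e1 := Finset.add_sum_erase Finset.univ (fun ψ => c ψ * d ψ) (Finset.mem_univ t₀)
    simp only [hP', hct, hdt] at e1
    linarith
  obtain ⟨ψ, hψ, hpos⟩ : ∃ ψ ∈ Finset.univ.erase t₀, 0 < c ψ * d ψ := by
    by_contra hcon
    push_neg at hcon
    have := Finset.sum_nonpos hcon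
    linarith
  have hcm := mult_cases Ψ hΨ h1 hn c hc ψ
  have hdm := mult_cases Ψ' hΨ' h1' hn' d hd ψ
  refine ⟨ψ, ψ.2, ?_, ?_⟩
  · intro h
    exact Finset.ne_of_mem_erase hψ (Subtype.ext (h.trans ht₀.symm))
  · rw [hc ψ, hd ψ]
    rcases hcm with h | h | h <;> rcases hdm with h' | h' | h' <;> rw [h, h'] at hpos <;>
      first
        | (exfalso; revert hpos; norm_num; done)
        | (left; rw [h, h']; norm_num; done)
        | (right; rw [h, h']; norm_num; done)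

end Cfsg.Agent.Lib.Helper79.D8COMMONNEG
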