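import Mathlib
import Cfsg.Agent.Lib.Helper44.GAStmt
import Cfsg.Agent.Lib.Helper44.GFFin
import Cfsg.Agent.Lib.Helper48.OFldA4
import Cfsg.Agent.Lib.Helper14.OFldA6
import Cfsg.Agent.S2724
import Cfsg.Agent.S2725

set_option autoImplicit false

/-! S2718 piece [LB]: outside the exceptional case a similarity-induced graph automorphism
does not centralise `Inndiag / Inn`. -/

namespace Cfsg.Agent.Lib.Helper79.GALB

open Matrix Module QuadraticMap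
open Cfsg.Agent.Lib.Helper43.OPlAut Cfsg.Agent.Lib.Helper45.OmegaAut
open Cfsg.Agent.Lib.Helper44.OFld0 Cfsg.Agent.Lib.Helper44.OFld1
  Cfsg.Agent.Lib.Helper44.OFldStmt Cfsg.Agent.Lib.Helper44.GFStmt
  Cfsg.Agent.Lib.Helper44.GAStmt Cfsg.Agent.Lib.Helper44.GFFin

universe u

/-- a group all of whose elements are `a` or `a * c` with `a` in a commuting family that
commutes with `c` is commutative -/
theorem comm_of_cover {H : Type*} [Group H] (S : Set H) (c : H)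
    (hS : ∀ a ∈ S, ∀ b ∈ S, a * b = b * a) (hc : ∀ a ∈ S, a * c = c * a)
    (hcov : ∀ x : H, x ∈ S ∨ x * c⁻¹ ∈ S) (x y : H) : x * y = y * x := by
  have key : ∀ x : H, ∃ a ∈ S, x = a ∨ x = a * c := by
    intro x
    rcases hcov x with h | h
    · exact ⟨x, h, Or.inl rfl⟩
    · exact ⟨x * c⁻¹, h, Or.inr (by group)⟩
  obtain ⟨a, ha, hx⟩ := key x
  obtain ⟨b, hb, hy⟩ := key y
  have hab := hS a ha b hb
  have hac := hc a ha
  have hbc := hc b hb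
  rcases hx with rfl | rfl <;> rcases hy with rfl | rfl
  · exact hab
  · calc x * (b * c) = (x * b) * c := by group
      _ = (b * x) * c := by rw [hab]
      _ = b * (x * c) := by group
      _ = b * (c * x) := by rw [hac]
      _ = b * c * x := by group
  · calc a * c * y = a * (c * y) := by group
      _ = a * (y * c) := by rw [hbc]
      _ = (a * y) * c := by group
      _ = (y * a) * c := by rw [hab]
      _ = y * (a * c) := by group
  · calc a * c * (b * c) = a * (c * b) * c := by group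
      _ = a * (b * c) * c := by rw [hbc]
      _ = (a * b) * c * c := by group
      _ = (b * a) * c * c := by rw [hab]
      _ = b * (a * c) * c := by group
      _ = b * (c * a) * c := by rw [hac]
      _ = b * c * (a * c) := by group

theorem comm_mem {G T : Type*} [Group G] [CommGroup T] (D I : Subgroup G) (ψ : ↥D →* T)
    (hk : ψ.ker = I.subgroupOf D) (d1 d2 : G) (h1 : d1 ∈ D) (h2 : d2 ∈ D) :
    d1 * d2 * (d2 * d1)⁻¹ ∈ I := by
  have hmem : ((⟨d1, h1⟩ : ↥D) * ⟨d2, h2⟩ * (⟨d2, h2⟩ * ⟨d1, h1⟩)⁻¹ : ↥D) ∈ ψ.ker := by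
    rw [MonoidHom.mem_ker, map_mul, map_inv, map_mul, map_mul, mul_comm (ψ ⟨d2, h2⟩),
      mul_inv_cancel]
  rw [hk, Subgroup.mem_subgroupOf] at hmem
  exact hmem

theorem dihedral_not_comm : ¬ ∀ x y : DihedralGroup 4, x * y = y * x := by
  intro h
  have := h (DihedralGroup.r 1) (DihedralGroup.sr 0)
  revert this
  decide

/-- the abstract core: `A / I` dihedral of order 8, `D / I` abelian, `A = D ∪ Dγ` -/
theorem abstract_lb {G : Type*} [Group G] (A D I : Subgroup G) (γ : G) (hIn : I.Normal)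
    (hDA : D ≤ A) (hIA : I ≤ A) (hγA : γ ∈ A)
    (hdich : ∀ y ∈ A, y ∈ D ∨ y * γ⁻¹ ∈ D)
    (hcommI : ∀ d1 ∈ D, ∀ d2 ∈ D, d1 * d2 * (d2 * d1)⁻¹ ∈ I)
    (φ : ↥A →* DihedralGroup 4) (hφs : Function.Surjective φ)
    (hφk : φ.ker = I.subgroupOf A) :
    ¬ (D ≤ I ⊔ (D ⊓ Subgroup.centralizer {γ})) := by
  intro hle
  -- the images of D commute with the image of γ
  have hcomγ : ∀ d (hd : d ∈ D),
      φ ⟨d, hDA hd⟩ * φ ⟨γ, hγA⟩ = φ ⟨γ, hγA⟩ * φ ⟨d, hDA hd⟩ := by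
    intro d hd
    have hmem : d ∈ ((I ⊔ (D ⊓ Subgroup.centralizer {γ}) : Subgroup G) : Set G) := hle hd
    rw [Subgroup.normal_mul] at hmem
    obtain ⟨t, ht, c, hc, rfl⟩ := Set.mem_mul.mp hmem
    have htA := hIA ht
    have hcA := hDA hc.1
    have h1 : φ ⟨t, htA⟩ = 1 := by
      rw [← MonoidHom.mem_ker, hφk, Subgroup.mem_subgroupOf]
      exact ht
    have h2 : (⟨t * c, hDA hd⟩ : ↥A) = ⟨t, htA⟩ * ⟨c, hcA⟩ := rfl
    rw [h2, map_mul, h1, one_mul, ← map_mul, ← map_mul]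
    congr 1
    apply Subtype.ext
    show c * γ = γ * c
    have := Subgroup.mem_centralizer_iff.mp hc.2 γ (Set.mem_singleton γ)
    exact this.symm
  -- the images of D commute with each other
  have hcomD : ∀ d1 (h1 : d1 ∈ D) d2 (h2 : d2 ∈ D),
      φ ⟨d1, hDA h1⟩ * φ ⟨d2, hDA h2⟩ = φ ⟨d2, hDA h2⟩ * φ ⟨d1, hDA h1⟩ := by
    intro d1 h1 d2 h2
    have hI1 := hcommI d1 h1 d2 h2
    have hk : (⟨d1 * d2 * (d2 * d1)⁻¹, hIA hI1⟩ : ↥A) ∈ φ.ker := by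
      rw [hφk, Subgroup.mem_subgroupOf]
      exact hI1
    have h3 : (⟨d1 * d2 * (d2 * d1)⁻¹, hIA hI1⟩ : ↥A) =
        ⟨d1, hDA h1⟩ * ⟨d2, hDA h2⟩ * (⟨d2, hDA h2⟩ * ⟨d1, hDA h1⟩)⁻¹ := rfl
    rw [MonoidHom.mem_ker, h3, map_mul, map_inv, mul_inv_eq_one, map_mul, map_mul] at hk
    exact hk
  -- conclusion
  apply dihedral_not_comm
  apply comm_of_cover {x | ∃ d, ∃ hd : d ∈ D, φ ⟨d, hDA hd⟩ = x} (φ ⟨γ, hγA⟩)
  · rintro _ ⟨d1, h1, rfl⟩ _ ⟨d2, h2, rfl⟩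
    exact hcomD d1 h1 d2 h2
  · rintro _ ⟨d, hd, rfl⟩
    exact hcomγ d hd
  · intro x
    obtain ⟨⟨y, hy⟩, rfl⟩ := hφs x
    rcases hdich y hy with h | h
    · left
      exact ⟨y, h, rfl⟩
    · right
      refine ⟨y * γ⁻¹, h, ?_⟩
      rw [← map_inv, ← map_mul]
      rfl

theorem main : Cfsg.Agent.Lib.Helper44.GAStmt.LowerBound.{u} := by
  intro F _ _ m hm hodd hne γ hγ
  obtain ⟨ε, hε⟩ := Cfsg.Agent.Lib.Helper48.OFldA4.main F m (by omega)
  have hD := Cfsg.Agent.Lib.Helper14.OFldA6.inndiagEq F m ε hε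
  have hA := pgo_eq (F := F) (Cfsg.quadFormPlus m F)
  have hI := inn_eq (F := F) (Cfsg.quadFormPlus m F)
  obtain ⟨g, hg, hnp, hind⟩ := hγ
  have hγ' : γ = Phi (Cfsg.quadFormPlus m F) ⟨g, hg⟩ :=
    (induced_iff (Cfsg.quadFormPlus m F) g hg γ).mp hind
  have hεg : ε (⟨g, hg⟩ : GO m F) ≠ 1 := fun h => hnp ((hε.pres (⟨g, hg⟩ : GO m F)).mp h)
  obtain ⟨φ, hφs, hφk⟩ := (Cfsg.Agent.S2724.result hodd hm).2 hne
  have hKn : (Cfsg.Inn (Cfsg.POmega F (Cfsg.quadFormPlus m F))).Normal :=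
    ⟨fun d hd c => (inn_conj_iff c d).1 hd⟩
  refine abstract_lb (Cfsg.pgoAut F (Cfsg.quadFormPlus m F)) (Cfsg.inndiagPOmegaPlus m F)
    (Cfsg.Inn (Cfsg.POmega F (Cfsg.quadFormPlus m F))) γ hKn ?_ ?_ ?_ ?_ ?_ φ hφs hφk
  · rw [hD, hA]
    rintro _ ⟨h, -, rfl⟩
    exact ⟨h, rfl⟩
  · rw [hI, hA]
    rintro _ ⟨s, rfl⟩
    exact ⟨_, rfl⟩
  · rw [hA, hγ']; exact ⟨_, rfl⟩
  · intro y hy
    rw [hA] at hy
    obtain ⟨h, rfl⟩ := hy
    by_cases hh : ε h = 1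
    · left
      rw [hD]
      exact ⟨h, hh, rfl⟩
    · right
      rw [hD, hγ']
      refine ⟨h * (⟨g, hg⟩ : GO m F)⁻¹, ?_, by rw [map_mul, map_inv]⟩
      show ε (h * (⟨g, hg⟩ : GO m F)⁻¹) = 1
      rw [map_mul, map_inv]
      exact mul_inv_eq_one.mpr (zmod2_eq _ _ hh hεg)
  · intro d1 h1 d2 h2
    obtain ⟨-, hB, hC⟩ := Cfsg.Agent.S2725.result hodd hm
    rcases Nat.even_or_odd m with hev | hod
    · obtain ⟨ψ, -, hk⟩ := hC hev
      exact comm_mem _ _ ψ hk d1 d2 h1 h2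
    · have hq1 : Fintype.card F % 4 = 1 := by
        have h3 : Fintype.card F % 4 ≠ 3 := fun h => hne ⟨hod, h⟩
        obtain ⟨k, hk⟩ := hodd
        omega
      obtain ⟨ψ, -, hk⟩ := hB ⟨hod, hq1⟩
      exact comm_mem _ _ ψ hk d1 d2 h1 h2

end Cfsg.Agent.Lib.Helper79.GALB
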