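import Mathlib
import Cfsg.Agent.Lib.Helper25.ACStmt

set_option autoImplicit false
set_option linter.unusedVariables false

/-!
# S3912, piece P2CENT (helper79)
-/

namespace Cfsg.Agent.Lib.Helper79.ACP2CENT

open Cfsg.Agent.Lib.Helper25.ACStmt

universe u

variable {P : Type u} [Group P]

/-- a nontrivial element of a 2-group has an involution among its powers -/
theorem exists_invol (w : P) (hw : w ≠ 1) (k : ℕ) (hk : w ^ 2 ^ k = 1) :
    ∃ t : P, t ≠ 1 ∧ t ^ 2 = 1 := by
  induction k generalizing w with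
  | zero => exact absurd (by simpa using hk) hw
  | succ k ih =>
    by_cases h2 : w ^ 2 = 1
    · exact ⟨w, hw, h2⟩
    · apply ih (w ^ 2) h2
      rw [← pow_mul, ← pow_succ']
      exact hk

theorem main (hC : CycChain.{u}) : P2Cent.{u} := by
  intro P _ _ hP z hz huniq hcomm
  have h2f : Fact (Nat.Prime 2) := ⟨Nat.prime_two⟩
  -- z is an involution
  have hz2 : z ^ 2 = 1 := by
    obtain ⟨k, hk⟩ := hP z
    obtain ⟨t, ht1, ht2⟩ := exists_invol z hz k hk
    rcases huniq t ht2 with h | h
    · exact absurd h ht1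
    · rw [← h]; exact ht2
  have hzz : z * z = 1 := by rw [← pow_two]; exact hz2
  -- z is central
  have hzc : ∀ a : P, a * z = z * a := by
    intro a
    have h1 : (a * z * a⁻¹) ^ 2 = 1 := by
      rw [pow_two]
      have : a * z * a⁻¹ * (a * z * a⁻¹) = a * (z * z) * a⁻¹ := by group
      rw [this, hzz]; group
    rcases huniq _ h1 with h | h
    · exact absurd (conj_eq_one_iff.mp h) hz
    · exact eq_mul_of_mul_inv_eq h
  -- the key facts for a non-commuting pair
  have key : ∀ x y : P, x * y ≠ y * x →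
      (x * y = z * y * x) ∧ (x ^ 2 * y = y * x ^ 2) ∧
        ∀ c : P, c * x = x * c → c * y = y * c → c ∈ Subgroup.zpowers (x ^ 2) := by
    intro x y hne
    have hxy : x * y = z * y * x := by
      rcases hcomm x y with h | h
      · exfalso; apply hne
        have : x * y = x * y * x⁻¹ * y⁻¹ * (y * x) := by group
        rw [this, h, one_mul]
      · have : x * y = x * y * x⁻¹ * y⁻¹ * (y * x) := by group
        rw [this, h]; group
    have hzx : x * z = z * x := hzc x
    have hx2 : x ^ 2 * y = y * x ^ 2 := by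
      calc x ^ 2 * y = x * (x * y) := by rw [pow_two, mul_assoc]
        _ = x * (z * y * x) := by rw [hxy]
        _ = (x * z) * y * x := by group
        _ = z * (x * y) * x := by rw [hzx]; group
        _ = z * (z * y * x) * x := by rw [hxy]
        _ = (z * z) * y * (x * x) := by group
        _ = y * x ^ 2 := by rw [hzz, one_mul, pow_two]
    refine ⟨hxy, hx2, ?_⟩
    intro c hcx hcy
    rcases hC P hP z hz huniq c x hcx with h | h
    · obtain ⟨a, ha⟩ := Subgroup.mem_zpowers_iff.mp h
      rcases Int.even_or_odd a with ⟨t, ht⟩ | ⟨t, ht⟩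
      · refine Subgroup.mem_zpowers_iff.mpr ⟨t, ?_⟩
        rw [← ha, ht, ← zpow_natCast x 2, ← zpow_mul]
        congr 1
        push_cast; ring
      · exfalso; apply hne
        have h1 : Commute (x ^ 2) y := hx2
        have h2 : Commute ((x ^ 2) ^ t) y := h1.zpow_left t
        have h3 : Commute c y := hcy
        have hx : x = ((x ^ 2) ^ t)⁻¹ * c := by
          rw [← ha, ht, zpow_add, zpow_one, ← zpow_natCast x 2, ← zpow_mul]
          have : ((2 : ℕ) : ℤ) * t = 2 * t := by push_cast; ring
          rw [this]; group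
        have h4 : Commute x y := by
          rw [hx]; exact h2.inv_left.mul_left h3
        exact h4
    · exfalso; apply hne
      obtain ⟨a, ha⟩ := Subgroup.mem_zpowers_iff.mp h
      have h3 : Commute c y := hcy
      have h4 : Commute (c ^ a) y := h3.zpow_left a
      rw [ha] at h4
      exact h4
  intro x y hne c hcx hcy
  have hne' : y * x ≠ x * y := fun h => hne h.symm
  have hne'' : x * y * y ≠ y * (x * y) := by
    intro h
    apply hne
    have : x * y = (x * y * y) * y⁻¹ := by group
    rw [this, h]; group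
  obtain ⟨hxy, hx2y, hA⟩ := key x y hne
  obtain ⟨hyx, hy2x, hB⟩ := key y x hne'
  obtain ⟨-, -, hD⟩ := key (x * y) y hne''
  have hzx : x * z = z * x := hzc x
  -- v = z * g * u
  have hv : (x * y) ^ 2 = z * x ^ 2 * y ^ 2 := by
    calc (x * y) ^ 2 = x * (y * x) * y := by rw [pow_two]; group
      _ = x * (z * x * y) * y := by rw [hyx]
      _ = (x * z) * x * y * y := by group
      _ = z * x * x * y * y := by rw [hzx]
      _ = z * x ^ 2 * y ^ 2 := by rw [pow_two, pow_two]; group
  -- commutation facts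
  have cgx : Commute (x ^ 2) x := (Commute.refl x).pow_left 2
  have cgy : Commute (x ^ 2) y := hx2y
  have cux : Commute (y ^ 2) x := hy2x
  have cuy : Commute (y ^ 2) y := (Commute.refl y).pow_left 2
  have cgu : Commute (x ^ 2) (y ^ 2) := cgy.pow_right 2
  have czg : Commute z (x ^ 2) := (hzc (x ^ 2)).symm
  have czu : Commute z (y ^ 2) := (hzc (y ^ 2)).symm
  -- memberships
  have hug : y ^ 2 ∈ Subgroup.zpowers (x ^ 2) := hA _ cux cuy
  have hgu : x ^ 2 ∈ Subgroup.zpowers (y ^ 2) := hB _ cgy cgx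
  have cgxy : Commute (x ^ 2) (x * y) := cgx.mul_right cgy
  have hgv : x ^ 2 ∈ Subgroup.zpowers ((x * y) ^ 2) := hD _ cgxy cgy
  have hvg : (x * y) ^ 2 ∈ Subgroup.zpowers (x ^ 2) := by
    rw [hv]
    refine (Subgroup.zpowers (x ^ 2)).mul_mem ((Subgroup.zpowers (x ^ 2)).mul_mem ?_ ?_) hug
    · exact hA z (hzc x).symm (hzc y).symm
    · exact Subgroup.mem_zpowers _
  have hcg : c ∈ Subgroup.zpowers (x ^ 2) := hA c hcx hcy
  by_cases hg2 : (x ^ 2) ^ 2 = 1
  · obtain ⟨t, ht⟩ := Subgroup.mem_zpowers_iff.mp hcg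
    rcases huniq _ hg2 with h | h
    · left; rw [← ht, h, one_zpow]
    · rw [h] at ht
      rcases Int.even_or_odd t with ⟨s, hs⟩ | ⟨s, hs⟩
      · left
        rw [← ht, hs, zpow_add, ← (Commute.refl z).mul_zpow, hzz, one_zpow]
      · right
        rw [← ht, hs, zpow_add, zpow_one, zpow_mul, zpow_ofNat, hz2, one_zpow, one_mul]
  · exfalso
    have ou : orderOf (y ^ 2) = orderOf (x ^ 2) :=
      Nat.dvd_antisymm (orderOf_dvd_of_mem_zpowers hug) (orderOf_dvd_of_mem_zpowers hgu)
    have ov : orderOf ((x * y) ^ 2) = orderOf (x ^ 2) :=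
      Nat.dvd_antisymm (orderOf_dvd_of_mem_zpowers hvg) (orderOf_dvd_of_mem_zpowers hgv)
    obtain ⟨e, he⟩ := (IsPGroup.iff_orderOf.mp hP) (x ^ 2)
    have he2 : 2 ≤ e := by
      by_contra hcon
      push_neg at hcon
      apply hg2
      apply orderOf_dvd_iff_pow_eq_one.mp
      rw [he]
      exact pow_dvd_pow 2 (by omega : e ≤ 1)
    obtain ⟨e', rfl⟩ : ∃ e', e = e' + 2 := ⟨e - 2, by omega⟩
    have claimK : ∀ h : P, orderOf h = 2 ^ (e' + 2) → h ^ 2 ^ (e' + 1) = z := by
      intro h ho
      have h1 : (h ^ 2 ^ (e' + 1)) ^ 2 = 1 := by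
        rw [← pow_mul, ← pow_succ, ← ho]; exact pow_orderOf_eq_one h
      have h2 : h ^ 2 ^ (e' + 1) ≠ 1 := by
        apply pow_ne_one_of_lt_orderOf (by positivity)
        rw [ho]
        exact Nat.pow_lt_pow_right (by norm_num) (by omega)
      rcases huniq _ h1 with h3 | h3
      · exact absurd h3 h2
      · exact h3
    have kg := claimK (x ^ 2) he
    have ku := claimK (y ^ 2) (by rw [ou, he])
    have kv := claimK ((x * y) ^ 2) (by rw [ov, he])
    have kz : z ^ 2 ^ (e' + 1) = 1 := by
      rw [pow_succ', pow_mul, hz2, one_pow]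
    rw [hv, (czu.mul_left cgu).mul_pow, czg.mul_pow, kz, kg, ku, one_mul, hzz] at kv
    exact hz kv.symm

end Cfsg.Agent.Lib.Helper79.ACP2CENT
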