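import Mathlib
import Cfsg.Agent.Lib.Helper80.DefOneFull
import Cfsg.Agent.Lib.Helper74.DefOneRow1
import Cfsg.Agent.Lib.Helper17.BqRow

/-!
# Blocks of defect one: multiplicities of the restriction to `C_G(P)`

`P` a Sylow `p`-subgroup of order `p`, `π : C_G(P) →* P` the projection. For a function `θ` on
`C_G(P)`, a linear character `ψ` of `P` and a function `χ` on `G`:

* `tw P π θ ψ = (ψ ∘ π) θ`,
* `mm P π θ ψ χ = ⟨χ|_C, (ψ ∘ π) θ⟩`.

Fourier analysis on `P` (`orth`, `fourier`, `plancherel`), `col = mm - mm 1`, the expression of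
`mm` by section coefficients, the Fourier coefficients of `χ|_P` (`sumP`), conjugation of the
columns (`col_conj`) and the norm of `χ|_C` (`norm_eq`).
-/

set_option autoImplicit false
set_option linter.unusedSectionVars false
set_option linter.style.haveILetI false
set_option maxHeartbeats 1000000

namespace Cfsg.Agent.Lib.Helper79.BrT1A

open Cfsg Cfsg.Agent.Lib.CT Cfsg.Agent.Lib.CT.Wedderburn Cfsg.Agent.Lib.Helper17.BrGrp
  Cfsg.Agent.Lib.Helper80.DefOneLoc Cfsg.Agent.Lib.Helper80.DefOneCol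
  Cfsg.Agent.Lib.Helper80.DefOneGram Cfsg.Agent.Lib.Helper80.DefOneRow
  Cfsg.Agent.Lib.Helper80.AbSylowCh
open scoped ComplexConjugate

universe u
variable {G : Type u} [Group G] {p : ℕ} [Fact p.Prime] [Fintype G] (P : Sylow p G)
  (hP : Nat.card P = p)

local notation "𝐂" => Subgroup.centralizer ((P : Subgroup G) : Set G)
local notation "𝐍" => Subgroup.normalizer ((P : Subgroup G) : Set G)

section Fourier

variable [Fintype ↥(P : Subgroup G)] [Fintype (↥(P : Subgroup G) →* ℂˣ)]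

open Classical in
include hP in
theorem orth (z w : ↥(P : Subgroup G)) :
    ∑ ψ : ↥(P : Subgroup G) →* ℂˣ, conj ((ψ z : ℂˣ) : ℂ) * ((ψ w : ℂˣ) : ℂ) =
      if z = w then (p : ℂ) else 0 := by
  have hPab : ∀ a ∈ (P : Subgroup G), ∀ b ∈ (P : Subgroup G), a * b = b * a :=
    fun a ha b hb => comm_of_mem P hP ha hb
  have e : ∀ ψ : ↥(P : Subgroup G) →* ℂˣ, conj ((ψ z : ℂˣ) : ℂ) * ((ψ w : ℂˣ) : ℂ) =
      ((ψ (z⁻¹ * w) : ℂˣ) : ℂ) := by
    intro ψ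
    rw [conj_hom, map_mul, map_inv, Units.val_mul, Units.val_inv_eq_inv_val]
  rw [Finset.sum_congr rfl (fun ψ _ => e ψ),
    Cfsg.Agent.Lib.Helper25.CyclicTI.sum_hom_sub (P : Subgroup G) hPab]
  by_cases h : z = w
  · subst h
    rw [if_pos (inv_mul_cancel z), if_pos rfl, show Nat.card ↥(P : Subgroup G) = p from hP]
  · have h' : ¬ (z⁻¹ * w = 1) := by
      intro h1
      apply h
      rw [inv_mul_eq_one] at h1
      exact h1
    rw [if_neg h, if_neg h']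

include hP in
/-- Fourier inversion on `P`. -/
theorem fourier (F : ↥(P : Subgroup G) → ℂ) (x : ↥(P : Subgroup G)) :
    ∑ ψ : ↥(P : Subgroup G) →* ℂˣ,
      (∑ u : ↥(P : Subgroup G), F u * conj ((ψ u : ℂˣ) : ℂ)) * ((ψ x : ℂˣ) : ℂ) =
        (p : ℂ) * F x := by
  classical
  simp_rw [Finset.sum_mul]
  rw [Finset.sum_comm]
  have e : ∀ u : ↥(P : Subgroup G), ∑ ψ : ↥(P : Subgroup G) →* ℂˣ,
      F u * conj ((ψ u : ℂˣ) : ℂ) * ((ψ x : ℂˣ) : ℂ) = if u = x then F x * (p : ℂ) else 0 := by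
    intro u
    have e1 : ∀ ψ : ↥(P : Subgroup G) →* ℂˣ, F u * conj ((ψ u : ℂˣ) : ℂ) * ((ψ x : ℂˣ) : ℂ) =
        F u * (conj ((ψ u : ℂˣ) : ℂ) * ((ψ x : ℂˣ) : ℂ)) := fun ψ => by ring
    rw [Finset.sum_congr rfl (fun ψ _ => e1 ψ), ← Finset.mul_sum, orth P hP u x]
    by_cases h : u = x
    · subst h
      rw [if_pos rfl, if_pos rfl]
    · rw [if_neg h, if_neg h, mul_zero]
  rw [Finset.sum_congr rfl (fun u _ => e u), Finset.sum_ite_eq' Finset.univ x,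
    if_pos (Finset.mem_univ _), mul_comm]

include hP in
/-- Plancherel on `P`. -/
theorem plancherel (s : ↥(P : Subgroup G) → ℂ) :
    ∑ ψ : ↥(P : Subgroup G) →* ℂˣ,
      (∑ z : ↥(P : Subgroup G), conj ((ψ z : ℂˣ) : ℂ) * s z) *
        conj (∑ z : ↥(P : Subgroup G), conj ((ψ z : ℂˣ) : ℂ) * s z) =
      (p : ℂ) * ∑ z : ↥(P : Subgroup G), s z * conj (s z) := by
  classical
  have e0 : ∀ ψ : ↥(P : Subgroup G) →* ℂˣ,
      (∑ z : ↥(P : Subgroup G), conj ((ψ z : ℂˣ) : ℂ) * s z) *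
        conj (∑ z : ↥(P : Subgroup G), conj ((ψ z : ℂˣ) : ℂ) * s z) =
      ∑ z : ↥(P : Subgroup G), ∑ w : ↥(P : Subgroup G),
        s z * conj (s w) * (conj ((ψ z : ℂˣ) : ℂ) * ((ψ w : ℂˣ) : ℂ)) := by
    intro ψ
    rw [map_sum, Finset.sum_mul_sum]
    refine Finset.sum_congr rfl fun z _ => Finset.sum_congr rfl fun w _ => ?_
    rw [map_mul, Complex.conj_conj]
    ring
  rw [Finset.sum_congr rfl (fun ψ _ => e0 ψ), Finset.sum_comm, Finset.mul_sum]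
  refine Finset.sum_congr rfl fun z _ => ?_
  rw [Finset.sum_comm]
  have e1 : ∀ w : ↥(P : Subgroup G), ∑ ψ : ↥(P : Subgroup G) →* ℂˣ,
      s z * conj (s w) * (conj ((ψ z : ℂˣ) : ℂ) * ((ψ w : ℂˣ) : ℂ)) =
      if z = w then s z * conj (s z) * (p : ℂ) else 0 := by
    intro w
    rw [← Finset.mul_sum, orth P hP z w]
    by_cases h : z = w
    · subst h
      rw [if_pos rfl, if_pos rfl]
    · rw [if_neg h, if_neg h, mul_zero]
  rw [Finset.sum_congr rfl (fun w _ => e1 w), Finset.sum_ite_eq Finset.univ z,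
    if_pos (Finset.mem_univ _), mul_comm]

end Fourier

section Mult

variable [Fintype ↥(Subgroup.centralizer ((P : Subgroup G) : Set G))] [Fintype ↥(P : Subgroup G)]
  (π : ↥(Subgroup.centralizer ((P : Subgroup G) : Set G)) →* ↥(P : Subgroup G))
  (hπP : ∀ c : ↥(Subgroup.centralizer ((P : Subgroup G) : Set G)),
    (c : G) ∈ (P : Subgroup G) → ((π c : ↥(P : Subgroup G)) : G) = (c : G))
  (hπreg : ∀ c : ↥(Subgroup.centralizer ((P : Subgroup G) : Set G)), π c = 1 ↔ ¬ p ∣ orderOf c)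

/-- The function `(ψ ∘ π) θ` on `C_G(P)`. -/
noncomputable def tw (θ : ↥𝐂 → ℂ) (ψ : ↥(P : Subgroup G) →* ℂˣ) : ↥𝐂 → ℂ :=
  fun c => ((ψ (π c) : ℂˣ) : ℂ) * θ c

/-- The multiplicity `⟨χ|_C, (ψ ∘ π) θ⟩`. -/
noncomputable def mm (θ : ↥𝐂 → ℂ) (ψ : ↥(P : Subgroup G) →* ℂˣ) (χ : G → ℂ) : ℂ :=
  classInner (fun c : ↥𝐂 => χ (c : G)) (tw P π θ ψ)

theorem tw_irr {θ : ↥𝐂 → ℂ} (hθ : IsIrrCharacter ↥𝐂 θ) (ψ : ↥(P : Subgroup G) →* ℂˣ) :
    IsIrrCharacter ↥𝐂 (tw P π θ ψ) := by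
  have hlin : IsCharacter ↥𝐂 (fun c : ↥𝐂 => ((ψ (π c) : ℂˣ) : ℂ)) :=
    LinChar.isCharacter_of_hom (ψ.comp π)
  exact LinChar.isIrrCharacter_linear_mul hlin (by simp) hθ

theorem mm_nat {θ : ↥𝐂 → ℂ} (hθ : IsIrrCharacter ↥𝐂 θ) (ψ : ↥(P : Subgroup G) →* ℂˣ)
    {χ : G → ℂ} (hχ : IsCharacter G χ) : ∃ k : ℕ, mm P π θ ψ χ = k := by
  have hres : IsCharacter ↥𝐂 (fun c : ↥𝐂 => χ (c : G)) := Ops.isCharacter_restrict _ hχ
  exact Clifford.classInner_char_nat hres (isCharacter_of_irr (tw_irr P π hθ ψ))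

theorem col_eq_mm (θ : ↥𝐂 → ℂ) (ψ : ↥(P : Subgroup G) →* ℂˣ) (χ : G → ℂ) :
    col P π θ ψ χ = mm P π θ ψ χ - mm P π θ 1 χ := by
  unfold col Cfsg.Agent.Lib.Helper80.DefOneCol.alpha mm tw classInner
  rw [← mul_sub, ← Finset.sum_sub_distrib]
  congr 1
  refine Finset.sum_congr rfl fun c _ => ?_
  show χ (c : G) * conj (((ψ (π c) : ℂˣ) : ℂ) * θ c - θ c) =
    χ (c : G) * conj (((ψ (π c) : ℂˣ) : ℂ) * θ c) -
      χ (c : G) * conj ((((1 : ↥(P : Subgroup G) →* ℂˣ) (π c) : ℂˣ) : ℂ) * θ c)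
  rw [map_sub, MonoidHom.one_apply, Units.val_one, one_mul]
  ring

include hP hπP hπreg in
/-- The multiplicities in terms of the section coefficients. -/
theorem mm_eq_sec {θ : ↥𝐂 → ℂ} (hθ : IsCharacter ↥𝐂 θ)
    (hθP : ∀ x : ↥𝐂, (x : G) ∈ (P : Subgroup G) → θ x = θ 1)
    (ψ : ↥(P : Subgroup G) →* ℂˣ) (χ : G → ℂ) :
    mm P π θ ψ χ = ∑ z : ↥(P : Subgroup G), conj ((ψ z : ℂˣ) : ℂ) * sec P θ χ (z : G) := by
  unfold mm sec classInner
  rw [sum_decomp P hP π hπP hπreg (fun c => χ (c : G) * conj (tw P π θ ψ c)), Finset.mul_sum]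
  refine Finset.sum_congr rfl fun z _ => ?_
  have key : ∀ r : ↥𝐂, (if p ∣ orderOf r then (0 : ℂ) else
      χ ((inc P hP z * r : ↥𝐂) : G) * conj (tw P π θ ψ (inc P hP z * r))) =
      conj ((ψ z : ℂˣ) : ℂ) *
        (if p ∣ orderOf r then 0 else χ ((z : G) * (r : G)) * conj (θ r)) := by
    intro r
    by_cases hr : p ∣ orderOf r
    · rw [if_pos hr, if_pos hr, mul_zero]
    · rw [if_neg hr, if_neg hr]
      have h1 : π (inc P hP z * r) = z := by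
        rw [map_mul, proj_inc P hP π hπP, (hπreg r).mpr hr, mul_one]
      have h2 : θ (inc P hP z * r) = θ r := Kernel.apply_mul_of_eq hθ (hθP _ z.2) r
      have h3 : ((inc P hP z * r : ↥𝐂) : G) = (z : G) * (r : G) := rfl
      unfold tw
      rw [h1, h2, h3, map_mul]
      ring
  refine Eq.trans (congrArg (fun t => (Nat.card ↥𝐂 : ℂ)⁻¹ * t)
    (Finset.sum_congr rfl fun r _ => key r)) ?_
  rw [← Finset.mul_sum]
  ring

open Classical in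
include hP hπP hπreg in
/-- The Fourier coefficients of `χ|_P` in terms of the multiplicities. -/
theorem sumP [Fintype (IrrCharacter ↥𝐂)] (χ : G → ℂ) (hχ : IsClassFunction G χ)
    (ψ : ↥(P : Subgroup G) →* ℂˣ) :
    ∑ u : ↥(P : Subgroup G), χ (u : G) * conj ((ψ u : ℂˣ) : ℂ) =
      (p : ℂ) * ∑ ξ : IrrCharacter ↥𝐂,
        (if (∀ x : ↥𝐂, (x : G) ∈ (P : Subgroup G) → (ξ : ↥𝐂 → ℂ) x = (ξ : ↥𝐂 → ℂ) 1)
         then mm P π (ξ : ↥𝐂 → ℂ) ψ χ * (ξ : ↥𝐂 → ℂ) 1 else 0) := by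
  have e : ∀ u : ↥(P : Subgroup G), χ (u : G) * conj ((ψ u : ℂˣ) : ℂ) =
      ∑ ξ : IrrCharacter ↥𝐂,
        (if (∀ x : ↥𝐂, (x : G) ∈ (P : Subgroup G) → (ξ : ↥𝐂 → ℂ) x = (ξ : ↥𝐂 → ℂ) 1)
         then (p : ℂ) * (ξ : ↥𝐂 → ℂ) 1 *
           (conj ((ψ u : ℂˣ) : ℂ) * sec P (ξ : ↥𝐂 → ℂ) χ (u : G)) else 0) := by
    intro u
    rw [Cfsg.Agent.Lib.Helper74.DefOneRow1.value_eq_sum P hP π hπP hπreg χ hχ (u : G) u.2,
      Finset.sum_mul]
    refine Finset.sum_congr rfl fun ξ _ => ?_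
    split_ifs
    · ring
    · rw [zero_mul]
  rw [Finset.sum_congr rfl (fun u _ => e u), Finset.sum_comm, Finset.mul_sum]
  refine Finset.sum_congr rfl fun ξ _ => ?_
  by_cases h : ∀ x : ↥𝐂, (x : G) ∈ (P : Subgroup G) → (ξ : ↥𝐂 → ℂ) x = (ξ : ↥𝐂 → ℂ) 1
  · simp only [if_pos h]
    rw [mm_eq_sec P hP π hπP hπreg (isCharacter_of_irr ξ.2) h ψ χ, ← Finset.mul_sum]
    ring
  · simp only [if_neg h]
    simp

include hP hπP hπreg in
/-- The columns of a conjugate of `θ`. -/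
theorem col_conj {θ : ↥𝐂 → ℂ} (hθ : IsIrrCharacter ↥𝐂 θ)
    (hθP : ∀ x : ↥𝐂, (x : G) ∈ (P : Subgroup G) → θ x = θ 1)
    {χ : G → ℂ} (hχ : IsClassFunction G χ) (n : ↥𝐍) (ψ : ↥(P : Subgroup G) →* ℂˣ) :
    col P π (conjTh P θ n) ψ χ =
      col P π θ (ψ.comp (cj (P : Subgroup G) ((n⁻¹ : ↥𝐍) : G) (n⁻¹).2)) χ := by
  rw [col_eq P hP π hπP hπreg (isCharacter_of_irr (conjTh_irr P hθ n)) (conjTh_triv P hθP n) ψ,
    col_eq P hP π hπP hπreg (isCharacter_of_irr hθ) hθP]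
  let E : ↥(P : Subgroup G) ≃ ↥(P : Subgroup G) :=
    { toFun := cj (P : Subgroup G) (n : G) n.2
      invFun := cj (P : Subgroup G) ((n⁻¹ : ↥𝐍) : G) (n⁻¹).2
      left_inv := fun w => Subtype.ext (by simp only [cj_coe, Subgroup.coe_inv]; group)
      right_inv := fun w => Subtype.ext (by simp only [cj_coe, Subgroup.coe_inv]; group) }
  refine Fintype.sum_equiv E _ _ fun z => ?_
  rw [sec_conjTh P θ hχ n (z : G)]
  show _ = (conj ((ψ (cj (P : Subgroup G) ((n⁻¹ : ↥𝐍) : G) (n⁻¹).2 (E z)) : ℂˣ) : ℂ) - 1) *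
    sec P θ χ ((E z : ↥(P : Subgroup G)) : G)
  have e1 : cj (P : Subgroup G) ((n⁻¹ : ↥𝐍) : G) (n⁻¹).2 (E z) = z := E.left_inv z
  have e2 : ((E z : ↥(P : Subgroup G)) : G) = (n : G) * z * (n : G)⁻¹ := rfl
  rw [e1, e2]

open Classical in
include hP hπP hπreg in
/-- The norm of `χ|_C` in terms of the multiplicities. -/
theorem norm_eq [Fintype (IrrCharacter ↥𝐂)] [Fintype (↥(P : Subgroup G) →* ℂˣ)] (χ : G → ℂ)
    (hχ : IsClassFunction G χ) :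
    ∑ c : ↥𝐂, χ (c : G) * conj (χ (c : G)) =
      (Nat.card ↥𝐂 : ℂ) * ∑ ξ : IrrCharacter ↥𝐂,
        (if (∀ x : ↥𝐂, (x : G) ∈ (P : Subgroup G) → (ξ : ↥𝐂 → ℂ) x = (ξ : ↥𝐂 → ℂ) 1)
         then ∑ ψ : ↥(P : Subgroup G) →* ℂˣ,
           mm P π (ξ : ↥𝐂 → ℂ) ψ χ * conj (mm P π (ξ : ↥𝐂 → ℂ) ψ χ) else 0) := by
  have hCne : (Nat.card ↥𝐂 : ℂ) ≠ 0 := Nat.cast_ne_zero.mpr Nat.card_pos.ne'
  rw [sum_decomp P hP π hπP hπreg (fun c => χ (c : G) * conj (χ (c : G)))]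
  have hz : ∀ z : ↥(P : Subgroup G), ∑ r : ↥𝐂, (if p ∣ orderOf r then (0 : ℂ) else
        χ ((inc P hP z * r : ↥𝐂) : G) * conj (χ ((inc P hP z * r : ↥𝐂) : G))) =
      ∑ ξ : IrrCharacter ↥𝐂,
        (if (∀ x : ↥𝐂, (x : G) ∈ (P : Subgroup G) → (ξ : ↥𝐂 → ℂ) x = (ξ : ↥𝐂 → ℂ) 1)
         then (p : ℂ) * (Nat.card ↥𝐂 : ℂ) *
           (sec P (ξ : ↥𝐂 → ℂ) χ (z : G) * conj (sec P (ξ : ↥𝐂 → ℂ) χ (z : G))) else 0) := by
    intro z
    have e : ∀ r : ↥𝐂, (if p ∣ orderOf r then (0 : ℂ) else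
        χ ((inc P hP z * r : ↥𝐂) : G) * conj (χ ((inc P hP z * r : ↥𝐂) : G))) =
        ∑ ξ : IrrCharacter ↥𝐂,
          (if (∀ x : ↥𝐂, (x : G) ∈ (P : Subgroup G) → (ξ : ↥𝐂 → ℂ) x = (ξ : ↥𝐂 → ℂ) 1)
           then (p : ℂ) * sec P (ξ : ↥𝐂 → ℂ) χ (z : G) *
             (if p ∣ orderOf r then 0 else
               (ξ : ↥𝐂 → ℂ) r * conj (χ ((z : G) * (r : G)))) else 0) := by
      intro r
      by_cases hr : p ∣ orderOf r
      · rw [if_pos hr]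
        symm
        apply Finset.sum_eq_zero
        intro ξ _
        rw [if_pos hr, mul_zero, ite_self]
      · rw [if_neg hr]
        have h3 : ((inc P hP z * r : ↥𝐂) : G) = (z : G) * (r : G) := rfl
        rw [h3]
        have hv := Cfsg.Agent.Lib.Helper17.BqRow.value_eq_sum_mul P hP π hπP hπreg χ hχ (z : G)
          z.2 r hr
        rw [show χ ((z : G) * (r : G)) * conj (χ ((z : G) * (r : G))) =
          (∑ ξ : IrrCharacter ↥𝐂,
            (if (∀ x : ↥𝐂, (x : G) ∈ (P : Subgroup G) → (ξ : ↥𝐂 → ℂ) x = (ξ : ↥𝐂 → ℂ) 1)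
             then (p : ℂ) * sec P (ξ : ↥𝐂 → ℂ) χ (z : G) * (ξ : ↥𝐂 → ℂ) r else 0)) *
            conj (χ ((z : G) * (r : G))) from
          congrArg (fun t => t * conj (χ ((z : G) * (r : G)))) hv, Finset.sum_mul]
        refine Finset.sum_congr rfl fun ξ _ => ?_
        rw [if_neg hr]
        split_ifs
        · ring
        · rw [zero_mul]
    rw [Finset.sum_congr rfl (fun r _ => e r), Finset.sum_comm]
    refine Finset.sum_congr rfl fun ξ _ => ?_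
    by_cases h : ∀ x : ↥𝐂, (x : G) ∈ (P : Subgroup G) → (ξ : ↥𝐂 → ℂ) x = (ξ : ↥𝐂 → ℂ) 1
    · simp only [if_pos h]
      rw [← Finset.mul_sum]
      have hs : ∑ r : ↥𝐂, (if p ∣ orderOf r then (0 : ℂ) else
          (ξ : ↥𝐂 → ℂ) r * conj (χ ((z : G) * (r : G)))) =
          (Nat.card ↥𝐂 : ℂ) * conj (sec P (ξ : ↥𝐂 → ℂ) χ (z : G)) := by
        unfold sec
        rw [map_mul, map_inv₀, Complex.conj_natCast, ← mul_assoc, mul_inv_cancel₀ hCne, one_mul,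
          map_sum]
        refine Finset.sum_congr rfl fun r _ => ?_
        split_ifs
        · rw [map_zero]
        · rw [map_mul, Complex.conj_conj]
          ring
      rw [hs]
      ring
    · simp only [if_neg h]
      simp
  rw [Finset.sum_congr rfl (fun z _ => hz z), Finset.sum_comm, Finset.mul_sum]
  refine Finset.sum_congr rfl fun ξ _ => ?_
  by_cases h : ∀ x : ↥𝐂, (x : G) ∈ (P : Subgroup G) → (ξ : ↥𝐂 → ℂ) x = (ξ : ↥𝐂 → ℂ) 1
  · simp only [if_pos h]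
    have hpl := plancherel P hP (fun z : ↥(P : Subgroup G) => sec P (ξ : ↥𝐂 → ℂ) χ (z : G))
    have hmm : ∑ ψ : ↥(P : Subgroup G) →* ℂˣ,
        mm P π (ξ : ↥𝐂 → ℂ) ψ χ * conj (mm P π (ξ : ↥𝐂 → ℂ) ψ χ) =
        ∑ ψ : ↥(P : Subgroup G) →* ℂˣ,
          (∑ z : ↥(P : Subgroup G), conj ((ψ z : ℂˣ) : ℂ) * sec P (ξ : ↥𝐂 → ℂ) χ (z : G)) *
            conj (∑ z : ↥(P : Subgroup G),
              conj ((ψ z : ℂˣ) : ℂ) * sec P (ξ : ↥𝐂 → ℂ) χ (z : G)) := by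
      refine Finset.sum_congr rfl fun ψ _ => ?_
      rw [mm_eq_sec P hP π hπP hπreg (isCharacter_of_irr ξ.2) h ψ χ]
    rw [hmm, hpl, ← Finset.mul_sum]
    ring
  · simp only [if_neg h]
    simp

end Mult

end Cfsg.Agent.Lib.Helper79.BrT1A
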