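import Mathlib
import Cfsg.Agent.Lib.Helper79.BrT1A

/-!
# Blocks of defect one: characters of small degree, counting lemmas

`ξ` an irreducible character of `G` with `2 ξ(1) + 1 < p`, `Mn θ ψ = ⟨ξ|_C, (ψ ∘ π) θ⟩`.
-/

set_option autoImplicit false
set_option linter.unusedSectionVars false
set_option linter.style.haveILetI false
set_option maxHeartbeats 1000000

namespace Cfsg.Agent.Lib.Helper79.BrT1B

open Cfsg Cfsg.Agent.Lib.CT Cfsg.Agent.Lib.CT.Wedderburn Cfsg.Agent.Lib.Helper17.BrGrp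
  Cfsg.Agent.Lib.Helper80.DefOneLoc Cfsg.Agent.Lib.Helper80.DefOneCol
  Cfsg.Agent.Lib.Helper80.DefOneGram Cfsg.Agent.Lib.Helper80.DefOneRow
  Cfsg.Agent.Lib.Helper80.AbSylowCh Cfsg.Agent.Lib.Helper79.BrT1A
open scoped ComplexConjugate

universe u

/-- The fibres of the exceptional map are the classes of the Gram relation. -/
theorem fiber_of_gram {ι Ψ : Type*} [Fintype ι] [DecidableEq ι] (D : Ψ → ι → ℤ) (b : ι → ℤ)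
    (δ γ : ℤ) (ζ : Ψ → ι) (hδ : δ = 1 ∨ δ = -1) (S : Set Ψ)
    (hform : ∀ ψ ∈ S, ∀ χ, D ψ χ = b χ + δ * (if χ = ζ ψ then 1 else 0))
    (hb : ∀ ψ ∈ S, b (ζ ψ) = γ) (R : Ψ → Ψ → Prop) (e : ℤ)
    (hR1 : ∀ ψ ∈ S, ∀ ψ' ∈ S, R ψ ψ' → ∑ χ, D ψ χ * D ψ' χ = e + 1)
    (hR0 : ∀ ψ ∈ S, ∀ ψ' ∈ S, ¬ R ψ ψ' → ∑ χ, D ψ χ * D ψ' χ = e)
    (hrefl : ∀ ψ, R ψ ψ) : ∀ ψ ∈ S, ∀ ψ' ∈ S, (ζ ψ = ζ ψ' ↔ R ψ ψ') := by
  have hδ2 : δ * δ = 1 := by rcases hδ with h | h <;> rw [h] <;> norm_num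
  have key : ∀ ψ ∈ S, ∀ ψ' ∈ S, ∑ χ, D ψ χ * D ψ' χ =
      ∑ χ, b χ * b χ + 2 * δ * γ + (if ζ ψ = ζ ψ' then 1 else 0) := by
    intro ψ hψ ψ' hψ'
    have e1 : ∀ χ, D ψ χ * D ψ' χ = b χ * b χ + δ * (if χ = ζ ψ' then b χ else 0) +
        δ * (if χ = ζ ψ then b χ else 0) +
        δ * δ * (if χ = ζ ψ then (if χ = ζ ψ' then 1 else 0) else 0) := by
      intro χ
      rw [hform ψ hψ χ, hform ψ' hψ' χ]
      split_ifs <;> ring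
    rw [Finset.sum_congr rfl (fun χ _ => e1 χ), Finset.sum_add_distrib, Finset.sum_add_distrib,
      Finset.sum_add_distrib, ← Finset.mul_sum, ← Finset.mul_sum, ← Finset.mul_sum,
      Finset.sum_ite_eq' Finset.univ (ζ ψ'), Finset.sum_ite_eq' Finset.univ (ζ ψ),
      Finset.sum_ite_eq' Finset.univ (ζ ψ), if_pos (Finset.mem_univ _),
      if_pos (Finset.mem_univ _), if_pos (Finset.mem_univ _), hb ψ hψ, hb ψ' hψ', hδ2]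
    ring
  intro ψ hψ ψ' hψ'
  have h0 := key ψ hψ ψ hψ
  rw [if_pos rfl, hR1 ψ hψ ψ hψ (hrefl ψ)] at h0
  have h1 := key ψ hψ ψ' hψ'
  constructor
  · intro h
    by_contra hR
    rw [if_pos h, hR0 ψ hψ ψ' hψ' hR] at h1
    linarith
  · intro hR
    by_contra h
    rw [if_neg h, hR1 ψ hψ ψ' hψ' hR] at h1
    linarith

variable {G : Type u} [Group G] {p : ℕ} [Fact p.Prime] [Fintype G] (P : Sylow p G)
  (hP : Nat.card P = p)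

local notation "𝐂" => Subgroup.centralizer ((P : Subgroup G) : Set G)
local notation "𝐍" => Subgroup.normalizer ((P : Subgroup G) : Set G)

variable [Fintype ↥(Subgroup.centralizer ((P : Subgroup G) : Set G))] [Fintype ↥(P : Subgroup G)]
  [Fintype (IrrCharacter ↥(Subgroup.centralizer ((P : Subgroup G) : Set G)))]
  [Fintype (↥(P : Subgroup G) →* ℂˣ)]
  (π : ↥(Subgroup.centralizer ((P : Subgroup G) : Set G)) →* ↥(P : Subgroup G))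
  (hπP : ∀ c : ↥(Subgroup.centralizer ((P : Subgroup G) : Set G)),
    (c : G) ∈ (P : Subgroup G) → ((π c : ↥(P : Subgroup G)) : G) = (c : G))
  (hπreg : ∀ c : ↥(Subgroup.centralizer ((P : Subgroup G) : Set G)), π c = 1 ↔ ¬ p ∣ orderOf c)

open Classical in
include hP hπP hπreg in
/-- The degree of `ξ` as the sum of the degrees of the constituents of `ξ|_C`. -/
theorem degsum (ξ : IrrCharacter G) (Mn : IrrCharacter ↥𝐂 → (↥(P : Subgroup G) →* ℂˣ) → ℕ)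
    (hMn : ∀ (θ' : IrrCharacter ↥𝐂) (ψ : ↥(P : Subgroup G) →* ℂˣ),
      mm P π (θ' : ↥𝐂 → ℂ) ψ (ξ : G → ℂ) = Mn θ' ψ) :
    charDegree (ξ : G → ℂ) = ∑ ψ : ↥(P : Subgroup G) →* ℂˣ, ∑ θ' : IrrCharacter ↥𝐂,
      (if (∀ x : ↥𝐂, (x : G) ∈ (P : Subgroup G) → (θ' : ↥𝐂 → ℂ) x = (θ' : ↥𝐂 → ℂ) 1)
       then Mn θ' ψ * charDegree (θ' : ↥𝐂 → ℂ) else 0) := by
  have hp : p.Prime := Fact.out
  have hpC : (p : ℂ) ≠ 0 := Nat.cast_ne_zero.mpr hp.ne_zero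
  have h1 := fourier P hP (fun u : ↥(P : Subgroup G) => (ξ : G → ℂ) (u : G)) 1
  have e : ∀ ψ : ↥(P : Subgroup G) →* ℂˣ,
      (∑ u : ↥(P : Subgroup G), (ξ : G → ℂ) (u : G) * conj ((ψ u : ℂˣ) : ℂ)) *
        ((ψ 1 : ℂˣ) : ℂ) = (p : ℂ) * ((∑ θ' : IrrCharacter ↥𝐂,
      (if (∀ x : ↥𝐂, (x : G) ∈ (P : Subgroup G) → (θ' : ↥𝐂 → ℂ) x = (θ' : ↥𝐂 → ℂ) 1)
       then Mn θ' ψ * charDegree (θ' : ↥𝐂 → ℂ) else 0 : ℕ) : ℂ)) := by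
    intro ψ
    rw [map_one, Units.val_one, mul_one,
      sumP P hP π hπP hπreg (ξ : G → ℂ) (Orth.irr_isClassFunction ξ) ψ]
    congr 1
    refine Finset.sum_congr rfl fun θ' _ => ?_
    by_cases h : ∀ x : ↥𝐂, (x : G) ∈ (P : Subgroup G) → (θ' : ↥𝐂 → ℂ) x = (θ' : ↥𝐂 → ℂ) 1
    · rw [if_pos h, if_pos h, hMn, Nat.cast_mul, char_natCast_charDegree (isCharacter_of_irr θ'.2)]
    · rw [if_neg h, if_neg h, Nat.cast_zero]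
  rw [Finset.sum_congr rfl (fun ψ _ => e ψ), ← Finset.mul_sum] at h1
  have h2 := mul_left_cancel₀ hpC h1
  rw [Subgroup.coe_one, ← char_natCast_charDegree (isCharacter_of_irr ξ.2)] at h2
  exact_mod_cast h2.symm

open Classical in
include hP hπP hπreg in
/-- A constituent family of `ξ|_C` has at most `ξ(1)` members. -/
theorem card_le (ξ : IrrCharacter G) (Mn : IrrCharacter ↥𝐂 → (↥(P : Subgroup G) →* ℂˣ) → ℕ)
    (hMn : ∀ (θ' : IrrCharacter ↥𝐂) (ψ : ↥(P : Subgroup G) →* ℂˣ),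
      mm P π (θ' : ↥𝐂 → ℂ) ψ (ξ : G → ℂ) = Mn θ' ψ)
    (θ' : IrrCharacter ↥𝐂)
    (hθ' : ∀ x : ↥𝐂, (x : G) ∈ (P : Subgroup G) → (θ' : ↥𝐂 → ℂ) x = (θ' : ↥𝐂 → ℂ) 1)
    (S : Finset (↥(P : Subgroup G) →* ℂˣ)) (hS : ∀ ψ ∈ S, 1 ≤ Mn θ' ψ) :
    S.card ≤ charDegree (ξ : G → ℂ) := by
  rw [degsum P hP π hπP hπreg ξ Mn hMn]
  have h1 : ∀ ψ : ↥(P : Subgroup G) →* ℂˣ, Mn θ' ψ ≤ ∑ θ'' : IrrCharacter ↥𝐂,
      (if (∀ x : ↥𝐂, (x : G) ∈ (P : Subgroup G) → (θ'' : ↥𝐂 → ℂ) x = (θ'' : ↥𝐂 → ℂ) 1)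
       then Mn θ'' ψ * charDegree (θ'' : ↥𝐂 → ℂ) else 0) := by
    intro ψ
    have h2 := Finset.single_le_sum (f := fun θ'' : IrrCharacter ↥𝐂 =>
      (if (∀ x : ↥𝐂, (x : G) ∈ (P : Subgroup G) → (θ'' : ↥𝐂 → ℂ) x = (θ'' : ↥𝐂 → ℂ) 1)
       then Mn θ'' ψ * charDegree (θ'' : ↥𝐂 → ℂ) else 0)) (fun _ _ => Nat.zero_le _)
      (Finset.mem_univ θ')
    refine le_trans ?_ h2
    show Mn θ' ψ ≤ (if (∀ x : ↥𝐂, (x : G) ∈ (P : Subgroup G) →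
      (θ' : ↥𝐂 → ℂ) x = (θ' : ↥𝐂 → ℂ) 1) then Mn θ' ψ * charDegree (θ' : ↥𝐂 → ℂ) else 0)
    rw [if_pos hθ']
    exact Nat.le_mul_of_pos_right _ (irr_charDegree_pos θ'.2)
  calc S.card = ∑ ψ ∈ S, 1 := by rw [Finset.sum_const, smul_eq_mul, mul_one]
    _ ≤ ∑ ψ ∈ S, Mn θ' ψ := Finset.sum_le_sum hS
    _ ≤ ∑ ψ ∈ S, ∑ θ'' : IrrCharacter ↥𝐂,
      (if (∀ x : ↥𝐂, (x : G) ∈ (P : Subgroup G) → (θ'' : ↥𝐂 → ℂ) x = (θ'' : ↥𝐂 → ℂ) 1)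
       then Mn θ'' ψ * charDegree (θ'' : ↥𝐂 → ℂ) else 0) := Finset.sum_le_sum fun ψ _ => h1 ψ
    _ ≤ _ := Finset.sum_le_sum_of_subset (Finset.subset_univ S)

open Classical in
include hP hπP hπreg in
/-- If no constituent of `ξ|_C` is non-trivial on `P`, then `P` is in the kernel of `ξ`. -/
theorem trivial_of_zero (ξ : IrrCharacter G)
    (Mn : IrrCharacter ↥𝐂 → (↥(P : Subgroup G) →* ℂˣ) → ℕ)
    (hMn : ∀ (θ' : IrrCharacter ↥𝐂) (ψ : ↥(P : Subgroup G) →* ℂˣ),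
      mm P π (θ' : ↥𝐂 → ℂ) ψ (ξ : G → ℂ) = Mn θ' ψ)
    (h0 : ∀ θ' : IrrCharacter ↥𝐂,
      (∀ x : ↥𝐂, (x : G) ∈ (P : Subgroup G) → (θ' : ↥𝐂 → ℂ) x = (θ' : ↥𝐂 → ℂ) 1) →
      ∀ ψ : ↥(P : Subgroup G) →* ℂˣ, ψ ≠ 1 → Mn θ' ψ = 0)
    (x : G) (hx : x ∈ (P : Subgroup G)) : (ξ : G → ℂ) x = (ξ : G → ℂ) 1 := by
  have hp : p.Prime := Fact.out
  have hpC : (p : ℂ) ≠ 0 := Nat.cast_ne_zero.mpr hp.ne_zero
  have key : ∀ y : ↥(P : Subgroup G), (p : ℂ) * (ξ : G → ℂ) (y : G) =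
      ∑ u : ↥(P : Subgroup G), (ξ : G → ℂ) (u : G) := by
    intro y
    rw [← fourier P hP (fun u : ↥(P : Subgroup G) => (ξ : G → ℂ) (u : G)) y]
    rw [Finset.sum_eq_single (1 : ↥(P : Subgroup G) →* ℂˣ)]
    · rw [MonoidHom.one_apply, Units.val_one, mul_one]
      refine Finset.sum_congr rfl fun u _ => ?_
      rw [MonoidHom.one_apply, Units.val_one, map_one, mul_one]
    · intro ψ _ hψ
      rw [sumP P hP π hπP hπreg (ξ : G → ℂ) (Orth.irr_isClassFunction ξ) ψ]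
      rw [Finset.sum_eq_zero, mul_zero, zero_mul]
      intro θ' _
      split_ifs with h
      · rw [hMn, h0 θ' h ψ hψ, Nat.cast_zero, zero_mul]
      · rfl
    · intro h
      exact absurd (Finset.mem_univ _) h
  have h1 := key ⟨x, hx⟩
  have h2 := key 1
  rw [← h2] at h1
  have h3 := mul_left_cancel₀ hpC h1
  rw [Subgroup.coe_one] at h3
  exact h3

end Cfsg.Agent.Lib.Helper79.BrT1B
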