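import Mathlib
import Cfsg.Agent.Lib.Helper79.BrT1B
import Cfsg.Agent.Lib.Helper74.McKayAB
import Cfsg.Agent.Lib.Helper79.McKayCD
import Cfsg.Agent.Lib.Helper17.BqTop2
import Cfsg.Agent.Lib.CT.Knorr

/-!
# Blocks of defect one: irreducible characters of degree less than `(p - 1) / 2`

`small_degree_type`: let `P` be a Sylow `p`-subgroup of order `p` of `G`, `C = C_G(P)`,
`N = N_G(P)` and `ξ` an irreducible character with `2 ξ(1) + 1 < p`. Then either `P` is in the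
kernel of `ξ`, or `|N : C| ≤ ξ(1)`, `⟨ξ|_C, ξ|_C⟩ = |N : C|` and the constituents of `ξ|_P` form
a single `N`-orbit of non-principal linear characters.
-/

set_option autoImplicit false
set_option linter.unusedSectionVars false
set_option linter.style.haveILetI false
set_option maxHeartbeats 4000000

namespace Cfsg.Agent.Lib.Helper79.BrT1

open Cfsg Cfsg.Agent.Lib.CT Cfsg.Agent.Lib.CT.Wedderburn Cfsg.Agent.Lib.Helper17.BrGrp
  Cfsg.Agent.Lib.Helper80.DefOneLoc Cfsg.Agent.Lib.Helper80.DefOneCol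
  Cfsg.Agent.Lib.Helper80.DefOneGram Cfsg.Agent.Lib.Helper80.DefOneRow
  Cfsg.Agent.Lib.Helper80.AbSylowCh Cfsg.Agent.Lib.Helper79.BrT1A
  Cfsg.Agent.Lib.Helper79.BrT1B
open scoped ComplexConjugate

universe u
variable {G : Type u} [Group G] {p : ℕ} [Fact p.Prime] [Fintype G] (P : Sylow p G)
  (hP : Nat.card P = p)

local notation "𝐂" => Subgroup.centralizer ((P : Subgroup G) : Set G)
local notation "𝐍" => Subgroup.normalizer ((P : Subgroup G) : Set G)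

/-- The conjugate of `θ` as an irreducible character. -/
noncomputable def thc (θ : IrrCharacter ↥𝐂) (n : ↥𝐍) : IrrCharacter ↥𝐂 :=
  ⟨conjTh P (θ : ↥𝐂 → ℂ) n, conjTh_irr P θ.2 n⟩

/-- `ψ ↦ ψ ∘ (conjugation by n⁻¹)`. -/
noncomputable def tau (n : ↥𝐍) (ψ : ↥(P : Subgroup G) →* ℂˣ) : ↥(P : Subgroup G) →* ℂˣ :=
  ψ.comp (cj (P : Subgroup G) ((n⁻¹ : ↥𝐍) : G) (n⁻¹).2)

/-- `ψ ↦ ψ ∘ (conjugation by n)`. -/
noncomputable def tau' (n : ↥𝐍) (ψ : ↥(P : Subgroup G) →* ℂˣ) : ↥(P : Subgroup G) →* ℂˣ :=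
  ψ.comp (cj (P : Subgroup G) (n : G) n.2)

theorem cj_inv_cj (n : ↥𝐍) (w : ↥(P : Subgroup G)) :
    cj (P : Subgroup G) ((n⁻¹ : ↥𝐍) : G) (n⁻¹).2 (cj (P : Subgroup G) (n : G) n.2 w) = w :=
  Subtype.ext (by simp only [cj_coe, Subgroup.coe_inv]; group)

theorem cj_cj_inv (n : ↥𝐍) (w : ↥(P : Subgroup G)) :
    cj (P : Subgroup G) (n : G) n.2 (cj (P : Subgroup G) ((n⁻¹ : ↥𝐍) : G) (n⁻¹).2 w) = w :=
  Subtype.ext (by simp only [cj_coe, Subgroup.coe_inv]; group)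

theorem tau_tau' (n : ↥𝐍) (ψ : ↥(P : Subgroup G) →* ℂˣ) : tau P n (tau' P n ψ) = ψ := by
  refine MonoidHom.ext fun w => ?_
  show ψ (cj (P : Subgroup G) (n : G) n.2 (cj (P : Subgroup G) ((n⁻¹ : ↥𝐍) : G) (n⁻¹).2 w)) = ψ w
  rw [cj_cj_inv]

theorem tau'_tau (n : ↥𝐍) (ψ : ↥(P : Subgroup G) →* ℂˣ) : tau' P n (tau P n ψ) = ψ := by
  refine MonoidHom.ext fun w => ?_
  show ψ (cj (P : Subgroup G) ((n⁻¹ : ↥𝐍) : G) (n⁻¹).2 (cj (P : Subgroup G) (n : G) n.2 w)) = ψ w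
  rw [cj_inv_cj]

/-- `tau n` as a permutation of the linear characters of `P`. -/
noncomputable def tauEquiv (n : ↥𝐍) :
    (↥(P : Subgroup G) →* ℂˣ) ≃ (↥(P : Subgroup G) →* ℂˣ) where
  toFun := tau P n
  invFun := tau' P n
  left_inv := tau'_tau P n
  right_inv := tau_tau' P n

theorem tau_one (n : ↥𝐍) : tau P n 1 = 1 := MonoidHom.one_comp _

theorem tau_ne_one (n : ↥𝐍) (ψ : ↥(P : Subgroup G) →* ℂˣ) (hψ : ψ ≠ 1) : tau P n ψ ≠ 1 := by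
  intro h
  apply hψ
  rw [← tau'_tau P n ψ, h]
  exact MonoidHom.one_comp _

theorem tau_id (ψ : ↥(P : Subgroup G) →* ℂˣ) : tau P 1 ψ = ψ := by
  refine MonoidHom.ext fun w => ?_
  show ψ (cj (P : Subgroup G) (((1 : ↥𝐍)⁻¹ : ↥𝐍) : G) ((1 : ↥𝐍)⁻¹).2 w) = ψ w
  congr 1
  apply Subtype.ext
  rw [cj_coe]
  simp

theorem thc_degree (θ : IrrCharacter ↥𝐂) (n : ↥𝐍) :
    charDegree ((thc P θ n : IrrCharacter ↥𝐂) : ↥𝐂 → ℂ) = charDegree (θ : ↥𝐂 → ℂ) := by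
  unfold charDegree
  show ⌊(conjTh P (θ : ↥𝐂 → ℂ) n 1).re⌋₊ = _
  unfold conjTh
  rw [map_one]

variable [Fintype ↥(Subgroup.centralizer ((P : Subgroup G) : Set G))] [Fintype ↥(P : Subgroup G)]
  [Fintype (IrrCharacter ↥(Subgroup.centralizer ((P : Subgroup G) : Set G)))]
  [Fintype (↥(P : Subgroup G) →* ℂˣ)]
  (π : ↥(Subgroup.centralizer ((P : Subgroup G) : Set G)) →* ↥(P : Subgroup G))
  (hπP : ∀ c : ↥(Subgroup.centralizer ((P : Subgroup G) : Set G)),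
    (c : G) ∈ (P : Subgroup G) → ((π c : ↥(P : Subgroup G)) : G) = (c : G))
  (hπreg : ∀ c : ↥(Subgroup.centralizer ((P : Subgroup G) : Set G)), π c = 1 ↔ ¬ p ∣ orderOf c)

open Classical in
include hP hπP hπreg in
/-- The structure of `ξ|_C` for a character of small degree in a block with defect group `P`
(sums over the subtypes). -/
theorem core (M : Ideal AlgInt) (hM : IsPModular p M)
    [Fintype ↥𝐍] [Fintype (IrrCharacter G)]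
    (B : Set (IrrCharacter G)) (hB : IsPBlock M B) (hBP : IsDefectGroup p M B P)
    (b : Set (IrrCharacter ↥𝐂)) (hind : IsInducedBlock M 𝐂 b B)
    (θ : IrrCharacter ↥𝐂) (hθ : θ ∈ b)
    (hθP : ∀ x : ↥𝐂, (x : G) ∈ (P : Subgroup G) → (θ : ↥𝐂 → ℂ) x = (θ : ↥𝐂 → ℂ) 1)
    (T : Subgroup G)
    (hT : ∀ g : G, g ∈ T ↔ (g ∈ 𝐍 ∧ ∀ c c' : ↥𝐂, (c' : G) = g * c * g⁻¹ →
      (θ : ↥𝐂 → ℂ) c' = (θ : ↥𝐂 → ℂ) c))
    (e : ℕ) (he : (Subgroup.centralizer ((P : Subgroup G) : Set G)).relIndex T = e)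
    (hlow : e + (p - 1) / e ≤ Nat.card B)
    (ξ : IrrCharacter G) (hξ : ξ ∈ B) (hdeg : 2 * charDegree (ξ : G → ℂ) + 1 < p) :
    (∀ x : G, x ∈ (P : Subgroup G) → (ξ : G → ℂ) x = (ξ : G → ℂ) 1) ∨
    ((Subgroup.centralizer ((P : Subgroup G) : Set G)).relIndex
        (Subgroup.normalizer ((P : Subgroup G) : Set G)) ≤ charDegree (ξ : G → ℂ) ∧
      ∑ c : ↥𝐂, (ξ : G → ℂ) (c : G) * conj ((ξ : G → ℂ) (c : G)) =
        (((Subgroup.centralizer ((P : Subgroup G) : Set G)).relIndex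
          (Subgroup.normalizer ((P : Subgroup G) : Set G)) : ℕ) : ℂ) * (Nat.card ↥𝐂 : ℂ) ∧
      ∃ ψ₀ : ↥(P : Subgroup G) →* ℂˣ, ψ₀ ≠ 1 ∧ ∀ ψ : ↥(P : Subgroup G) →* ℂˣ,
        ∑ u : ↥(P : Subgroup G), (ξ : G → ℂ) (u : G) * conj ((ψ u : ℂˣ) : ℂ) ≠ 0 →
        ∃ n : G, n ∈ 𝐍 ∧ ∀ (u u' : ↥(P : Subgroup G)), (u' : G) = n * (u : G) * n⁻¹ →
          ψ u = ψ₀ u') := by
  have hp : p.Prime := Fact.out
  have hPab : ∀ a ∈ (P : Subgroup G), ∀ b ∈ (P : Subgroup G), a * b = b * a :=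
    fun a ha b hb => comm_of_mem P hP ha hb
  have hcardΨ : Fintype.card (↥(P : Subgroup G) →* ℂˣ) = p := by
    rw [← Nat.card_eq_fintype_card, Cfsg.Agent.S1507.card_hom_sub (P : Subgroup G) hPab]
    exact hP
  have hexp : ∀ (χ : IrrCharacter G) (u : G), u ∈ (P : Subgroup G) →
      (χ : G → ℂ) u = ∑ ξ' : IrrCharacter ↥𝐂,
        (if (∀ x : ↥𝐂, (x : G) ∈ (P : Subgroup G) → (ξ' : ↥𝐂 → ℂ) x = (ξ' : ↥𝐂 → ℂ) 1)
        then (p : ℂ) * sec P (ξ' : ↥𝐂 → ℂ) (χ : G → ℂ) u * (ξ' : ↥𝐂 → ℂ) 1 else 0) :=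
    fun χ u hu => Cfsg.Agent.Lib.Helper74.DefOneRow1.value_eq_sum P hP π hπP hπreg (χ : G → ℂ)
      (Orth.irr_isClassFunction χ) u hu
  obtain ⟨D, X, Y, Γ, δs, hD, hD0, hnv, hedvd, hcardB, hBXY, hdisj, hXc, hYc, hXΓ, hcase, -, -,
    hagree⟩ := Cfsg.Agent.Lib.Helper80.DefOneFull.structure_full P hP M hM π hπP hπreg B hB hBP
      b hind θ hθ hθP T hT e he hlow hexp
  have hXY : ∀ χ, χ ∈ X → χ ∉ Y := fun χ hx hy => Set.disjoint_left.mp hdisj hx hy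
  -- the multiplicities
  have hMn0 : ∀ (θ' : IrrCharacter ↥𝐂) (ψ : ↥(P : Subgroup G) →* ℂˣ),
      ∃ k : ℕ, mm P π (θ' : ↥𝐂 → ℂ) ψ (ξ : G → ℂ) = k :=
    fun θ' ψ => mm_nat P π θ'.2 ψ (isCharacter_of_irr ξ.2)
  choose Mn hMn using hMn0
  have hBL := card_le P hP π hπP hπreg ξ Mn hMn
  have hcolM : ∀ (θ' : IrrCharacter ↥𝐂) (ψ : ↥(P : Subgroup G) →* ℂˣ),
      col P π (θ' : ↥𝐂 → ℂ) ψ (ξ : G → ℂ) = (Mn θ' ψ : ℂ) - (Mn θ' 1 : ℂ) :=
    fun θ' ψ => by rw [col_eq_mm, hMn, hMn]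
  -- characters of `C` outside the orbit of `θ`
  have hK3 : ∀ θ' : IrrCharacter ↥𝐂,
      (∀ x : ↥𝐂, (x : G) ∈ (P : Subgroup G) → (θ' : ↥𝐂 → ℂ) x = (θ' : ↥𝐂 → ℂ) 1) →
      (¬ ∃ n : ↥𝐍, conjTh P (θ : ↥𝐂 → ℂ) n = (θ' : ↥𝐂 → ℂ)) →
      ∀ ψ : ↥(P : Subgroup G) →* ℂˣ, Mn θ' ψ = Mn θ' 1 := by
    intro θ' hθ' hno ψ
    have h1 : col P π (θ' : ↥𝐂 → ℂ) ψ (ξ : G → ℂ) = 0 := by
      rw [col_eq P hP π hπP hπreg (isCharacter_of_irr θ'.2) hθ' ψ]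
      refine Finset.sum_eq_zero fun z _ => ?_
      by_cases hz : z = 1
      · subst hz
        simp
      · have hz1 : (z : G) ≠ 1 := fun h => hz (Subtype.ext h)
        rw [sec_eq_zero_of_not_orb P hP M hM B hB hBP b hind θ hθ hθP ξ hξ θ' hθ' hno z.2 hz1,
          mul_zero]
    rw [hcolM] at h1
    have h2 : (Mn θ' ψ : ℂ) = (Mn θ' 1 : ℂ) := sub_eq_zero.mp h1
    exact_mod_cast h2
  -- characters of `C` in the orbit of `θ`
  have hK4 : ∀ (n : ↥𝐍) (ψ : ↥(P : Subgroup G) →* ℂˣ),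
      ((Mn (thc P θ n) ψ : ℕ) : ℤ) = (Mn (thc P θ n) 1 : ℤ) + D (tau P n ψ) ξ := by
    intro n ψ
    have h1 := col_conj P hP π hπP hπreg θ.2 hθP (Orth.irr_isClassFunction ξ) n ψ
    have h2 := hcolM (thc P θ n) ψ
    have h3 : (Mn (thc P θ n) ψ : ℂ) - (Mn (thc P θ n) 1 : ℂ) = (D (tau P n ψ) ξ : ℂ) := by
      rw [← h2, ← hD]
      exact h1
    have h4 : (((Mn (thc P θ n) ψ : ℤ) - (Mn (thc P θ n) 1 : ℤ) : ℤ) : ℂ) =
        ((D (tau P n ψ) ξ : ℤ) : ℂ) := by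
      push_cast
      exact h3
    have h5 := Int.cast_injective h4
    linarith
  have horb_eq : ∀ (θ' : IrrCharacter ↥𝐂) (n : ↥𝐍),
      conjTh P (θ : ↥𝐂 → ℂ) n = (θ' : ↥𝐂 → ℂ) → θ' = thc P θ n :=
    fun θ' n hn => Subtype.ext hn.symm
  -- a constant column forces `P` into the kernel
  have hconst : (∃ c : ℤ, ∀ ψ : ↥(P : Subgroup G) →* ℂˣ, ψ ≠ 1 → D ψ ξ = c) →
      ∀ x : G, x ∈ (P : Subgroup G) → (ξ : G → ℂ) x = (ξ : G → ℂ) 1 := by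
    rintro ⟨c, hc⟩
    apply trivial_of_zero P hP π hπP hπreg ξ Mn hMn
    intro θ' hθ' ψ₁ hψ₁
    by_contra hne
    have hpos : 1 ≤ Mn θ' ψ₁ := Nat.one_le_iff_ne_zero.mpr hne
    have hall : ∀ ψ : ↥(P : Subgroup G) →* ℂˣ, ψ ≠ 1 → Mn θ' ψ = Mn θ' ψ₁ := by
      intro ψ hψ
      by_cases horb : ∃ n : ↥𝐍, conjTh P (θ : ↥𝐂 → ℂ) n = (θ' : ↥𝐂 → ℂ)
      · obtain ⟨n, hn⟩ := horb
        rw [horb_eq θ' n hn]
        have h1 := hK4 n ψ
        have h2 := hK4 n ψ₁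
        rw [hc _ (tau_ne_one P n ψ hψ)] at h1
        rw [hc _ (tau_ne_one P n ψ₁ hψ₁)] at h2
        have h3 : ((Mn (thc P θ n) ψ : ℕ) : ℤ) = (Mn (thc P θ n) ψ₁ : ℤ) := by rw [h1, h2]
        exact_mod_cast h3
      · rw [hK3 θ' hθ' horb ψ, hK3 θ' hθ' horb ψ₁]
    have hS := hBL θ' hθ' (Finset.univ.filter (fun ψ : ↥(P : Subgroup G) →* ℂˣ => ψ ≠ 1))
      (fun ψ hψ => by rw [hall ψ (Finset.mem_filter.mp hψ).2]; exact hpos)
    rw [Finset.filter_ne', Finset.card_erase_of_mem (Finset.mem_univ _), Finset.card_univ,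
      hcardΨ] at hS
    omega
  have hξXY : ξ ∈ X ∪ Y := hBXY ▸ hξ
  rcases hξXY with hξX | hξY
  · left
    exact hconst ⟨Γ ξ, (hXΓ ξ hξX).2⟩
  rcases hcase with ⟨δ, γ, ζ, hδ, hε, hζY, hYζ, hform⟩ | ⟨he1, η₀, hYη, hΓη, hconstη⟩
  swap
  · left
    have hξη : ξ = η₀ := by
      rw [hYη] at hξY
      exact hξY
    exact hconst ⟨Γ η₀, hξη ▸ hconstη⟩
  by_cases hall : ∀ ψ : ↥(P : Subgroup G) →* ℂˣ, ψ ≠ 1 → ζ ψ = ξ
  · left
    refine hconst ⟨γ + δ, fun ψ hψ => ?_⟩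
    rw [hform ψ hψ ξ, Set.indicator_of_notMem (fun h => hXY ξ h hξY), Set.indicator_of_mem hξY,
      if_pos (hall ψ hψ).symm]
    ring
  right
  push Not at hall
  obtain ⟨ψ₁, hψ₁, hζψ₁⟩ := hall
  obtain ⟨ψ₀, hψ₀, hζψ₀⟩ := hYζ ξ hξY
  -- the fibres of `ζ` are the classes of `RelS`
  have hG : ∀ ψ ψ' : ↥(P : Subgroup G) →* ℂˣ, ψ ≠ 1 → ψ' ≠ 1 →
      ((∑ χ, D ψ χ * D ψ' χ : ℤ) : ℂ) =
        (e : ℂ) + (if RelS P (θ : ↥𝐂 → ℂ) ψ ψ' then 1 else 0) := by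
    intro ψ ψ' hψ hψ'
    have h := gram_T P hP π hπP hπreg θ.2 hθP T hT ψ ψ' hψ hψ'
    rw [he] at h
    rw [← h]
    push_cast
    refine Finset.sum_congr rfl fun χ _ => ?_
    rw [hD, hD]
  have hG1 : ∀ ψ ψ' : ↥(P : Subgroup G) →* ℂˣ, ψ ≠ 1 → ψ' ≠ 1 →
      RelS P (θ : ↥𝐂 → ℂ) ψ ψ' → ∑ χ, D ψ χ * D ψ' χ = (e : ℤ) + 1 := by
    intro ψ ψ' hψ hψ' hR
    have h := hG ψ ψ' hψ hψ'
    rw [if_pos hR] at h
    exact_mod_cast h
  have hG0 : ∀ ψ ψ' : ↥(P : Subgroup G) →* ℂˣ, ψ ≠ 1 → ψ' ≠ 1 →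
      ¬ RelS P (θ : ↥𝐂 → ℂ) ψ ψ' → ∑ χ, D ψ χ * D ψ' χ = (e : ℤ) := by
    intro ψ ψ' hψ hψ' hR
    have h := hG ψ ψ' hψ hψ'
    rw [if_neg hR, add_zero] at h
    exact_mod_cast h
  have hFS := fiber_of_gram D
    (fun χ => Set.indicator X Γ χ + Set.indicator Y (fun _ => γ) χ) δ γ ζ hδ
    {ψ : ↥(P : Subgroup G) →* ℂˣ | ψ ≠ 1} (fun ψ hψ χ => hform ψ hψ χ)
    (fun ψ hψ => by
      show Set.indicator X Γ (ζ ψ) + Set.indicator Y (fun _ => γ) (ζ ψ) = γ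
      rw [Set.indicator_of_notMem (fun h => hXY _ h (hζY ψ hψ)),
        Set.indicator_of_mem (hζY ψ hψ), zero_add])
    (RelS P (θ : ↥𝐂 → ℂ)) (e : ℤ) (fun ψ hψ ψ' hψ' hR => hG1 ψ ψ' hψ hψ' hR)
    (fun ψ hψ ψ' hψ' hR => hG0 ψ ψ' hψ hψ' hR) (relS_refl P (θ : ↥𝐂 → ℂ))
  have hDξ : ∀ ψ : ↥(P : Subgroup G) →* ℂˣ, ψ ≠ 1 →
      D ψ ξ = γ + δ * (if RelS P (θ : ↥𝐂 → ℂ) ψ₀ ψ then 1 else 0) := by
    intro ψ hψ
    rw [hform ψ hψ ξ, Set.indicator_of_notMem (fun h => hXY ξ h hξY), Set.indicator_of_mem hξY,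
      zero_add]
    by_cases hR : RelS P (θ : ↥𝐂 → ℂ) ψ₀ ψ
    · rw [if_pos hR, if_pos (by rw [← hζψ₀]; exact (hFS ψ₀ hψ₀ ψ hψ).mpr hR)]
    · rw [if_neg hR, if_neg (fun h => hR ((hFS ψ₀ hψ₀ ψ hψ).mp (by rw [hζψ₀]; exact h)))]
  have hnotR : ¬ RelS P (θ : ↥𝐂 → ℂ) ψ₀ ψ₁ := fun hR =>
    hζψ₁ (by rw [← hζψ₀]; exact ((hFS ψ₀ hψ₀ ψ₁ hψ₁).mpr hR).symm)
  -- the class of `ψ₀` and its translates
  have hclass : (Finset.univ.filter (fun ψ : ↥(P : Subgroup G) →* ℂˣ =>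
      RelS P (θ : ↥𝐂 → ℂ) ψ₀ ψ)).card = e := by
    rw [← Fintype.card_subtype, ← Nat.card_eq_fintype_card, card_class_T P hP θ.2 T hT ψ₀ hψ₀, he]
  have hZcard : ∀ n : ↥𝐍, (Finset.univ.filter (fun ψ : ↥(P : Subgroup G) →* ℂˣ =>
      RelS P (θ : ↥𝐂 → ℂ) ψ₀ (tau P n ψ))).card = e := by
    intro n
    rw [← hclass, ← Fintype.card_subtype, ← Fintype.card_subtype]
    exact Fintype.card_congr (Equiv.subtypeEquiv (tauEquiv P n) (fun ψ => Iff.rfl))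
  have hZne1 : ∀ (n : ↥𝐍) (ψ : ↥(P : Subgroup G) →* ℂˣ),
      RelS P (θ : ↥𝐂 → ℂ) ψ₀ (tau P n ψ) → ψ ≠ 1 := by
    intro n ψ hR h1
    rw [h1, tau_one] at hR
    exact relS_ne P hψ₀ hR rfl
  have he_pos : 0 < e := by
    rw [← hclass]
    exact Finset.card_pos.mpr ⟨ψ₀, Finset.mem_filter.mpr ⟨Finset.mem_univ _, relS_refl P _ ψ₀⟩⟩
  have he_lt : e + 2 ≤ p := by
    have hsub : (Finset.univ.filter (fun ψ : ↥(P : Subgroup G) →* ℂˣ =>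
        RelS P (θ : ↥𝐂 → ℂ) ψ₀ ψ)) ⊆
        ((Finset.univ.erase (1 : ↥(P : Subgroup G) →* ℂˣ)).erase ψ₁) := by
      intro ψ hψ
      have hR := (Finset.mem_filter.mp hψ).2
      refine Finset.mem_erase.mpr ⟨fun h => hnotR (h ▸ hR),
        Finset.mem_erase.mpr ⟨relS_ne P hψ₀ hR, Finset.mem_univ _⟩⟩
    have h1 := Finset.card_le_card hsub
    rw [hclass, Finset.card_erase_of_mem (Finset.mem_erase.mpr ⟨hψ₁, Finset.mem_univ _⟩),
      Finset.card_erase_of_mem (Finset.mem_univ _), Finset.card_univ, hcardΨ] at h1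
    have := hp.two_le
    omega
  have he2 : 2 * e ≤ p - 1 := by
    obtain ⟨k, hk⟩ := hedvd
    rcases Nat.lt_or_ge k 2 with hk2 | hk2
    · interval_cases k
      · have := hp.two_le
        omega
      · omega
    · rw [hk]
      nlinarith
  -- the multiplicities at the conjugates of `θ`
  have hstep : ∀ n : ↥𝐍, (Mn (thc P θ n) 1 : ℤ) = -γ ∧
      (∀ ψ : ↥(P : Subgroup G) →* ℂˣ, ψ ≠ 1 → ¬ RelS P (θ : ↥𝐂 → ℂ) ψ₀ (tau P n ψ) →
        Mn (thc P θ n) ψ = 0) ∧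
      (∀ ψ : ↥(P : Subgroup G) →* ℂˣ, RelS P (θ : ↥𝐂 → ℂ) ψ₀ (tau P n ψ) →
        (Mn (thc P θ n) ψ : ℤ) = δ) := by
    intro n
    have hoff : ∀ ψ : ↥(P : Subgroup G) →* ℂˣ, ψ ≠ 1 →
        ¬ RelS P (θ : ↥𝐂 → ℂ) ψ₀ (tau P n ψ) →
        (Mn (thc P θ n) ψ : ℤ) = Mn (thc P θ n) 1 + γ := by
      intro ψ hψ hR
      rw [hK4 n ψ, hDξ _ (tau_ne_one P n ψ hψ), if_neg hR]
      ring
    have hon : ∀ ψ : ↥(P : Subgroup G) →* ℂˣ, RelS P (θ : ↥𝐂 → ℂ) ψ₀ (tau P n ψ) →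
        (Mn (thc P θ n) ψ : ℤ) = Mn (thc P θ n) 1 + γ + δ := by
      intro ψ hR
      rw [hK4 n ψ, hDξ _ (relS_ne P hψ₀ hR), if_pos hR]
      ring
    obtain ⟨S, hSdef⟩ : ∃ S : Finset (↥(P : Subgroup G) →* ℂˣ),
        S = Finset.univ.filter (fun ψ : ↥(P : Subgroup G) →* ℂˣ =>
          ψ ≠ 1 ∧ ¬ RelS P (θ : ↥𝐂 → ℂ) ψ₀ (tau P n ψ)) := ⟨_, rfl⟩
    have hScard : p - 1 - e ≤ S.card := by
      have hsub : (Finset.univ.erase (1 : ↥(P : Subgroup G) →* ℂˣ)) \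
          (Finset.univ.filter (fun ψ : ↥(P : Subgroup G) →* ℂˣ =>
            RelS P (θ : ↥𝐂 → ℂ) ψ₀ (tau P n ψ))) ⊆ S := by
        intro ψ hψ
        rw [Finset.mem_sdiff, Finset.mem_erase, Finset.mem_filter] at hψ
        rw [hSdef, Finset.mem_filter]
        exact ⟨Finset.mem_univ _, hψ.1.1, fun h => hψ.2 ⟨Finset.mem_univ _, h⟩⟩
      have h2 := Finset.card_le_card hsub
      have h3 := Finset.le_card_sdiff (Finset.univ.filter (fun ψ : ↥(P : Subgroup G) →* ℂˣ =>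
        RelS P (θ : ↥𝐂 → ℂ) ψ₀ (tau P n ψ))) (Finset.univ.erase (1 : ↥(P : Subgroup G) →* ℂˣ))
      rw [Finset.card_erase_of_mem (Finset.mem_univ _), Finset.card_univ, hcardΨ, hZcard n] at h3
      omega
    have hA0 : (Mn (thc P θ n) 1 : ℤ) + γ = 0 := by
      by_contra hne
      have hpos : ∀ ψ ∈ S, 1 ≤ Mn (thc P θ n) ψ := by
        intro ψ hψ
        rw [hSdef, Finset.mem_filter] at hψ
        have h1 := hoff ψ hψ.2.1 hψ.2.2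
        have h2 : (0 : ℤ) ≤ (Mn (thc P θ n) ψ : ℤ) := Int.natCast_nonneg _
        have h3 : (Mn (thc P θ n) ψ : ℤ) ≠ 0 := by
          rw [h1]
          exact hne
        omega
      have h4 := hBL (thc P θ n) (conjTh_triv P hθP n) S hpos
      omega
    refine ⟨by linarith, fun ψ hψ hR => ?_, fun ψ hR => ?_⟩
    · have h := hoff ψ hψ hR
      rw [hA0] at h
      exact_mod_cast h
    · have h := hon ψ hR
      rw [hA0, zero_add] at h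
      exact h
  have hδ1 : δ = 1 := by
    have h := (hstep 1).2.2 ψ₀ (by rw [tau_id]; exact relS_refl P _ ψ₀)
    have h2 : (0 : ℤ) ≤ δ := by
      rw [← h]
      exact Int.natCast_nonneg _
    rcases hδ with h | h
    · exact h
    · omega
  have hγ0 : γ = 0 := by
    have h1 := (hstep 1).1
    have hγle : γ ≤ 0 := by
      have := Int.natCast_nonneg (Mn (thc P θ 1) 1)
      omega
    by_contra hγne
    have ht2 : 2 ≤ (p - 1) / e := (Nat.le_div_iff_mul_le he_pos).mpr he2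
    have ht2' : (2 : ℤ) ≤ (((p - 1) / e : ℕ) : ℤ) := by exact_mod_cast ht2
    rw [hδ1] at hε
    have hγ1 : γ ≤ -1 := by omega
    have hcases : (((p - 1) / e : ℕ) : ℤ) * γ = -2 := by
      rcases hε with h | h
      · exfalso
        nlinarith
      · linarith
    have hγm : γ = -1 := by nlinarith
    have ht : (((p - 1) / e : ℕ) : ℤ) = 2 := by
      rw [hγm] at hcases
      linarith
    have ht' : (p - 1) / e = 2 := by exact_mod_cast ht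
    have hpe : p - 1 = 2 * e := by
      obtain ⟨k, hk⟩ := hedvd
      rw [hk, Nat.mul_div_cancel_left _ he_pos] at ht'
      rw [hk, ht', mul_comm]
    have hpos : ∀ ψ ∈ insert (1 : ↥(P : Subgroup G) →* ℂˣ)
        (Finset.univ.filter (fun ψ : ↥(P : Subgroup G) →* ℂˣ =>
          RelS P (θ : ↥𝐂 → ℂ) ψ₀ (tau P 1 ψ))), 1 ≤ Mn (thc P θ 1) ψ := by
      intro ψ hψ
      rcases Finset.mem_insert.mp hψ with h | h
      · rw [h]
        omega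
      · have h5 := (hstep 1).2.2 ψ (Finset.mem_filter.mp h).2
        omega
    have h4 := hBL (thc P θ 1) (conjTh_triv P hθP 1) _ hpos
    have hnot : (1 : ↥(P : Subgroup G) →* ℂˣ) ∉
        Finset.univ.filter (fun ψ : ↥(P : Subgroup G) →* ℂˣ =>
          RelS P (θ : ↥𝐂 → ℂ) ψ₀ (tau P 1 ψ)) :=
      fun h => hZne1 1 1 (Finset.mem_filter.mp h).2 rfl
    rw [Finset.card_insert_of_notMem hnot, hZcard 1] at h4
    omega
  have hMorb : ∀ (n : ↥𝐍) (ψ : ↥(P : Subgroup G) →* ℂˣ),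
      Mn (thc P θ n) ψ = if RelS P (θ : ↥𝐂 → ℂ) ψ₀ (tau P n ψ) then 1 else 0 := by
    intro n ψ
    by_cases hR : RelS P (θ : ↥𝐂 → ℂ) ψ₀ (tau P n ψ)
    · rw [if_pos hR]
      have h := (hstep n).2.2 ψ hR
      rw [hδ1] at h
      exact_mod_cast h
    · rw [if_neg hR]
      by_cases hψ : ψ = 1
      · rw [hψ]
        have h := (hstep n).1
        rw [hγ0, neg_zero] at h
        exact_mod_cast h
      · exact (hstep n).2.1 ψ hψ hR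
  have hMoff : ∀ θ' : IrrCharacter ↥𝐂,
      (∀ x : ↥𝐂, (x : G) ∈ (P : Subgroup G) → (θ' : ↥𝐂 → ℂ) x = (θ' : ↥𝐂 → ℂ) 1) →
      (¬ ∃ n : ↥𝐍, conjTh P (θ : ↥𝐂 → ℂ) n = (θ' : ↥𝐂 → ℂ)) →
      ∀ ψ : ↥(P : Subgroup G) →* ℂˣ, Mn θ' ψ = 0 := by
    intro θ' hθ' hno ψ
    rw [hK3 θ' hθ' hno ψ]
    by_contra hne
    have h4 := hBL θ' hθ' Finset.univ (fun ψ' _ => by
      rw [hK3 θ' hθ' hno ψ']
      exact Nat.one_le_iff_ne_zero.mpr hne)
    rw [Finset.card_univ, hcardΨ] at h4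
    omega
  -- counting over the orbit of `θ`
  have hCT : 𝐂 ≤ T := centralizer_le_stab P (Orth.irr_isClassFunction θ) T hT
  have hTN : T ≤ 𝐍 := fun g hg => ((hT g).mp hg).1
  have hef : e ∣ (Subgroup.centralizer ((P : Subgroup G) : Set G)).relIndex
      (Subgroup.normalizer ((P : Subgroup G) : Set G)) := by
    rw [← he, ← Subgroup.relIndex_mul_relIndex _ _ _ hCT hTN]
    exact dvd_mul_right _ _
  have horbcard : (Finset.univ.filter (fun θ' : IrrCharacter ↥𝐂 =>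
      ∃ n : ↥𝐍, conjTh P (θ : ↥𝐂 → ℂ) n = (θ' : ↥𝐂 → ℂ))).card * e =
      (Subgroup.centralizer ((P : Subgroup G) : Set G)).relIndex
        (Subgroup.normalizer ((P : Subgroup G) : Set G)) := by
    rw [← Fintype.card_subtype, ← Nat.card_eq_fintype_card, card_orb_eq P θ T hT, he]
    exact Nat.div_mul_cancel hef
  have hsumorb : ∀ n : ↥𝐍, ∑ ψ : ↥(P : Subgroup G) →* ℂˣ, Mn (thc P θ n) ψ = e := by
    intro n
    rw [Finset.sum_congr rfl (fun ψ _ => hMorb n ψ), Finset.sum_boole, hZcard n]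
    rfl
  have hPt : ∀ (n : ↥𝐍) (x : ↥𝐂), (x : G) ∈ (P : Subgroup G) →
      ((thc P θ n : IrrCharacter ↥𝐂) : ↥𝐂 → ℂ) x =
        ((thc P θ n : IrrCharacter ↥𝐂) : ↥𝐂 → ℂ) 1 := fun n => conjTh_triv P hθP n
  refine ⟨?_, ?_, ψ₀, hψ₀, ?_⟩
  · -- the degree
    rw [degsum P hP π hπP hπreg ξ Mn hMn, Finset.sum_comm]
    have e1 : ∀ θ' : IrrCharacter ↥𝐂, ∑ ψ : ↥(P : Subgroup G) →* ℂˣ,
        (if (∀ x : ↥𝐂, (x : G) ∈ (P : Subgroup G) → (θ' : ↥𝐂 → ℂ) x = (θ' : ↥𝐂 → ℂ) 1)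
         then Mn θ' ψ * charDegree (θ' : ↥𝐂 → ℂ) else 0) =
        if (∃ n : ↥𝐍, conjTh P (θ : ↥𝐂 → ℂ) n = (θ' : ↥𝐂 → ℂ))
          then e * charDegree (θ : ↥𝐂 → ℂ) else 0 := by
      intro θ'
      by_cases horb : ∃ n : ↥𝐍, conjTh P (θ : ↥𝐂 → ℂ) n = (θ' : ↥𝐂 → ℂ)
      · rw [if_pos horb]
        obtain ⟨n, hn⟩ := horb
        have hθ'eq := horb_eq θ' n hn
        subst hθ'eq
        simp only [if_pos (hPt n)]
        rw [← Finset.sum_mul, hsumorb n, thc_degree]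
      · rw [if_neg horb]
        apply Finset.sum_eq_zero
        intro ψ _
        split_ifs with h
        · rw [hMoff θ' h horb ψ, zero_mul]
        · rfl
    rw [Finset.sum_congr rfl (fun θ' _ => e1 θ'), Finset.sum_ite, Finset.sum_const_zero, add_zero,
      Finset.sum_const, smul_eq_mul, ← mul_assoc, horbcard]
    exact Nat.le_mul_of_pos_right _ (irr_charDegree_pos θ.2)
  · -- the norm
    rw [norm_eq P hP π hπP hπreg (ξ : G → ℂ) (Orth.irr_isClassFunction ξ), mul_comm]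
    congr 1
    have e1 : ∀ θ' : IrrCharacter ↥𝐂,
        (if (∀ x : ↥𝐂, (x : G) ∈ (P : Subgroup G) → (θ' : ↥𝐂 → ℂ) x = (θ' : ↥𝐂 → ℂ) 1)
         then ∑ ψ : ↥(P : Subgroup G) →* ℂˣ,
           mm P π (θ' : ↥𝐂 → ℂ) ψ (ξ : G → ℂ) * conj (mm P π (θ' : ↥𝐂 → ℂ) ψ (ξ : G → ℂ))
         else 0) =
        if (∃ n : ↥𝐍, conjTh P (θ : ↥𝐂 → ℂ) n = (θ' : ↥𝐂 → ℂ)) then (e : ℂ) else 0 := by
      intro θ'
      by_cases horb : ∃ n : ↥𝐍, conjTh P (θ : ↥𝐂 → ℂ) n = (θ' : ↥𝐂 → ℂ)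
      · rw [if_pos horb]
        obtain ⟨n, hn⟩ := horb
        have hθ'eq := horb_eq θ' n hn
        subst hθ'eq
        rw [if_pos (hPt n)]
        have e2 : ∀ ψ : ↥(P : Subgroup G) →* ℂˣ,
            mm P π ((thc P θ n : IrrCharacter ↥𝐂) : ↥𝐂 → ℂ) ψ (ξ : G → ℂ) *
              conj (mm P π ((thc P θ n : IrrCharacter ↥𝐂) : ↥𝐂 → ℂ) ψ (ξ : G → ℂ)) =
            ((Mn (thc P θ n) ψ : ℕ) : ℂ) := by
          intro ψ
          rw [hMn, Complex.conj_natCast, hMorb n ψ]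
          split_ifs <;> simp
        rw [Finset.sum_congr rfl (fun ψ _ => e2 ψ), ← Nat.cast_sum, hsumorb n]
      · rw [if_neg horb]
        split_ifs with h
        · apply Finset.sum_eq_zero
          intro ψ _
          rw [hMn, hMoff θ' h horb ψ, Nat.cast_zero, zero_mul]
        · rfl
    rw [Finset.sum_congr rfl (fun θ' _ => e1 θ'), Finset.sum_ite, Finset.sum_const_zero, add_zero,
      Finset.sum_const, nsmul_eq_mul, ← horbcard]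
    push_cast
    ring
  · -- the support
    intro ψ hne
    rw [sumP P hP π hπP hπreg (ξ : G → ℂ) (Orth.irr_isClassFunction ξ) ψ] at hne
    have hne2 : ∑ θ' : IrrCharacter ↥𝐂,
        (if (∀ x : ↥𝐂, (x : G) ∈ (P : Subgroup G) → (θ' : ↥𝐂 → ℂ) x = (θ' : ↥𝐂 → ℂ) 1)
         then mm P π (θ' : ↥𝐂 → ℂ) ψ (ξ : G → ℂ) * (θ' : ↥𝐂 → ℂ) 1 else 0) ≠ 0 :=
      fun h => hne (by rw [h, mul_zero])
    obtain ⟨θ', -, hθ'ne⟩ := Finset.exists_ne_zero_of_sum_ne_zero hne2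
    by_cases hPt' : ∀ x : ↥𝐂, (x : G) ∈ (P : Subgroup G) → (θ' : ↥𝐂 → ℂ) x = (θ' : ↥𝐂 → ℂ) 1
    swap
    · rw [if_neg hPt'] at hθ'ne
      exact absurd rfl hθ'ne
    rw [if_pos hPt', hMn] at hθ'ne
    have hMne : Mn θ' ψ ≠ 0 := fun h => hθ'ne (by rw [h, Nat.cast_zero, zero_mul])
    by_cases horb : ∃ n : ↥𝐍, conjTh P (θ : ↥𝐂 → ℂ) n = (θ' : ↥𝐂 → ℂ)
    swap
    · exact absurd (hMoff θ' hPt' horb ψ) hMne
    obtain ⟨n, hn⟩ := horb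
    rw [horb_eq θ' n hn, hMorb n ψ] at hMne
    have hR : RelS P (θ : ↥𝐂 → ℂ) ψ₀ (tau P n ψ) := by
      by_contra h
      rw [if_neg h] at hMne
      exact hMne rfl
    obtain ⟨t, -, hcomp⟩ := hR
    refine ⟨(t : G)⁻¹ * (n : G), Subgroup.mul_mem _ (Subgroup.inv_mem _ t.2) n.2,
      fun u u' hu' => ?_⟩
    rw [← hcomp]
    show ψ u = ψ (cj (P : Subgroup G) ((n⁻¹ : ↥𝐍) : G) (n⁻¹).2
      (cj (P : Subgroup G) (t : G) t.2 u'))
    congr 1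
    apply Subtype.ext
    simp only [cj_coe, Subgroup.coe_inv]
    rw [hu']
    group

omit [Fintype G] [Fintype ↥(Subgroup.centralizer ((P : Subgroup G) : Set G))]
  [Fintype ↥(P : Subgroup G)]
  [Fintype (IrrCharacter ↥(Subgroup.centralizer ((P : Subgroup G) : Set G)))]
  [Fintype (↥(P : Subgroup G) →* ℂˣ)] in
/-- **Characters of small degree** (`2 ξ(1) + 1 < p`, `P` a Sylow `p`-subgroup of order `p`):
either `P` is in the kernel of `ξ`, or `|N : C| ≤ ξ(1)`, `⟨ξ|_C, ξ|_C⟩ = |N : C|` and the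
constituents of `ξ|_P` lie in a single `N`-orbit of non-principal linear characters of `P`. -/
theorem small_degree_type [Finite G] (p : ℕ) [Fact p.Prime] (P : Sylow p G)
    (hP : Nat.card P = p) (ξ : IrrCharacter G) (hdeg : 2 * charDegree (ξ : G → ℂ) + 1 < p) :
    (∀ x : G, x ∈ (P : Subgroup G) → (ξ : G → ℂ) x = (ξ : G → ℂ) 1) ∨
    ((Subgroup.centralizer ((P : Subgroup G) : Set G)).relIndex
        (Subgroup.normalizer ((P : Subgroup G) : Set G)) ≤ charDegree (ξ : G → ℂ) ∧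
     ∑ᶠ c ∈ ((Subgroup.centralizer ((P : Subgroup G) : Set G) : Subgroup G) : Set G),
        (ξ : G → ℂ) c * conj ((ξ : G → ℂ) c) =
      ((Subgroup.centralizer ((P : Subgroup G) : Set G)).relIndex
        (Subgroup.normalizer ((P : Subgroup G) : Set G)) : ℂ) *
        (Nat.card ↥(Subgroup.centralizer ((P : Subgroup G) : Set G)) : ℂ) ∧
     ∃ ψ₀ : ↥(P : Subgroup G) →* ℂˣ, ψ₀ ≠ 1 ∧ ∀ ψ : ↥(P : Subgroup G) →* ℂˣ,
       ∑ᶠ u : ↥(P : Subgroup G), (ξ : G → ℂ) (u : G) * conj ((ψ u : ℂˣ) : ℂ) ≠ 0 →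
       ∃ n : G, n ∈ Subgroup.normalizer ((P : Subgroup G) : Set G) ∧
         ∀ (u u' : ↥(P : Subgroup G)), (u' : G) = n * (u : G) * n⁻¹ → ψ u = ψ₀ u') := by
  classical
  have hp : p.Prime := Fact.out
  haveI : Fintype G := Fintype.ofFinite G
  have := finite_irrCharacter G
  haveI : Fintype (IrrCharacter G) := Fintype.ofFinite _
  have := finite_irrCharacter ↥(Subgroup.centralizer ((P : Subgroup G) : Set G))
  haveI : Fintype (IrrCharacter ↥(Subgroup.centralizer ((P : Subgroup G) : Set G))) :=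
    Fintype.ofFinite _
  have hPab : ∀ a ∈ (P : Subgroup G), ∀ b ∈ (P : Subgroup G), a * b = b * a :=
    fun a ha b hb => comm_of_mem P hP ha hb
  have := finite_hom (P : Subgroup G) hPab
  haveI : Fintype (↥(P : Subgroup G) →* ℂˣ) := Fintype.ofFinite _
  haveI : Fintype ↥(Subgroup.centralizer ((P : Subgroup G) : Set G)) := Fintype.ofFinite _
  haveI : Fintype ↥(P : Subgroup G) := Fintype.ofFinite _
  haveI : Fintype ↥(Subgroup.normalizer ((P : Subgroup G) : Set G)) := Fintype.ofFinite _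
  obtain ⟨M, hM⟩ := Cfsg.Agent.Lib.CT.Knorr.exists_isPModular p hp
  have hMp := Cfsg.Agent.Lib.Helper77.LocalRing.isPrime_of_isPModular hM
  obtain ⟨π, hπP, hπreg⟩ := exists_proj P hP
  have hd1 : 0 < charDegree (ξ : G → ℂ) := irr_charDegree_pos ξ.2
  have hnd : ¬ p ∣ charDegree (ξ : G → ℂ) := Nat.not_dvd_of_pos_of_lt hd1 (by omega)
  have hBP := Cfsg.Agent.Lib.Helper74.McKayAB.isDefectGroup_of_not_dvd p M hM P hP ξ hnd
  have hB : IsPBlock M (blockOf M (ξ : G → ℂ)) := ⟨ξ, rfl⟩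
  have hξB : ξ ∈ blockOf M (ξ : G → ℂ) :=
    Cfsg.Agent.Lib.Helper77.DefectClass.self_mem_blockOf hMp ξ
  obtain ⟨θ, hθP, hind⟩ := Cfsg.Agent.Lib.Helper79.McKayCD.exists_root p M hM P hP _ hB hBP
  have hθb : θ ∈ blockOf M (θ : ↥(Subgroup.centralizer ((P : Subgroup G) : Set G)) → ℂ) :=
    Cfsg.Agent.Lib.Helper77.DefectClass.self_mem_blockOf hMp θ
  have hT : ∀ g : G, g ∈ Cfsg.Agent.Lib.Helper74.McKayDefs.stab (P : Subgroup G)
      (θ : ↥(Subgroup.centralizer ((P : Subgroup G) : Set G)) → ℂ) ↔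
      (g ∈ Subgroup.normalizer ((P : Subgroup G) : Set G) ∧
        ∀ c c' : Subgroup.centralizer ((P : Subgroup G) : Set G), (c' : G) = g * c * g⁻¹ →
          (θ : Subgroup.centralizer ((P : Subgroup G) : Set G) → ℂ) c' =
            (θ : Subgroup.centralizer ((P : Subgroup G) : Set G) → ℂ) c) := fun g => Iff.rfl
  have hlow := Cfsg.Agent.Lib.Helper17.BqTop2.lower_bound' p M hM P hP _ hB _ hind θ hθb hθP _ hT
    _ rfl
  have hcore := core P hP π hπP hπreg M hM _ hB hBP _ hind θ hθb hθP _ hT _ rfl hlow ξ hξB hdeg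
  rcases hcore with h | ⟨h1, h2, ψ₀, hψ₀, h3⟩
  · exact Or.inl h
  · refine Or.inr ⟨h1, ?_, ψ₀, hψ₀, fun ψ hne => h3 ψ ?_⟩
    · rw [← h2]
      show ∑ᶠ (c : G) (_ : c ∈ Subgroup.centralizer ((P : Subgroup G) : Set G)),
        (ξ : G → ℂ) c * conj ((ξ : G → ℂ) c) = _
      rw [← finsum_subtype_eq_finsum_cond, finsum_eq_sum_of_fintype]
    · rw [finsum_eq_sum_of_fintype] at hne
      exact hne

end Cfsg.Agent.Lib.Helper79.BrT1
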