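import Mathlib
import Cfsg.Agent.Lib.Helper80.S4705Stmt
import Cfsg.Agent.Lib.Helper74.BrauerMain

/-!
# S4705, piece PERFIRR: the restriction of `ζ` to the normal closure of `P` is irreducible
-/

set_option autoImplicit false

namespace Cfsg.Agent.Lib.Helper79.FTPERFIRR

open Cfsg Cfsg.Agent.Lib.CT Cfsg.Agent.Lib.CT.Wedderburn Cfsg.Agent.Lib.CT.Ops
  Cfsg.Agent.Lib.CT.Orth Cfsg.Agent.Lib.CT.Clifford Cfsg.Agent.Lib.Helper80.S4705Stmt
open scoped ComplexConjugate

universe u

/-- If the restriction of an irreducible character `θ` of `G` to a normal subgroup `N` is not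
irreducible, then every irreducible constituent has degree at most half the degree of `θ`. -/
theorem two_mul_degree_le {G : Type u} [Group G] [Fintype G] (N : Subgroup G) [Fintype N]
    (hN : N.Normal) (θ : G → ℂ) (hθ : IsIrrCharacter G θ)
    (hirr : ¬ IsIrrCharacter N (fun n : N => θ n))
    (ξ : IrrCharacter N) (hξ : classInner (fun n : N => θ n) (ξ : N → ℂ) ≠ 0) :
    2 * charDegree (ξ : N → ℂ) ≤ charDegree θ := by
  classical
  have hfin := finite_irrCharacter N
  have hft := Fintype.ofFinite (IrrCharacter N)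
  have hχ : IsCharacter N (fun n : N => θ n) := isCharacter_restrict N (isCharacter_of_irr hθ)
  have hm : ∀ ψ : IrrCharacter N, ∃ m : ℕ, classInner (fun n : N => θ n) (ψ : N → ℂ) = m :=
    fun ψ => classInner_char_nat hχ (isCharacter_of_irr ψ.2)
  choose m hm using hm
  have hexp : ∀ n : N, θ n = ∑ ψ : IrrCharacter N, (m ψ : ℂ) * (ψ : N → ℂ) n := by
    intro n
    have h1 := classFunction_expand_sum (fun n : N => θ n) (char_isClassFunction hχ) n
    rw [Finset.sum_congr rfl (fun ψ _ => by rw [hm ψ])] at h1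
    exact h1
  have hdeg : ∀ ψ : IrrCharacter N, m ψ ≠ 0 →
      charDegree (ψ : N → ℂ) = charDegree (ξ : N → ℂ) := by
    intro ψ hψ
    have h2 : classInner (fun n : N => θ n) (ψ : N → ℂ) ≠ 0 := by
      rw [hm ψ]
      exact Nat.cast_ne_zero.mpr hψ
    obtain ⟨g, hg⟩ := exists_conj_of_constituent N hN hθ ξ.2 ψ.2 hξ h2
    have h3 : (ψ : N → ℂ) 1 = (ξ : N → ℂ) 1 := by
      rw [hg, conjFun_apply]
      have h4 : (⟨g * ((1 : N) : G) * g⁻¹, hN.conj_mem (1 : N) (1 : N).2 g⟩ : N) = 1 := by
        apply Subtype.ext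
        simp
      rw [h4]
    unfold charDegree
    rw [h3]
  have hsum : charDegree θ = ∑ ψ : IrrCharacter N, m ψ * charDegree (ψ : N → ℂ) := by
    have h1 := hexp 1
    have h2 : (charDegree θ : ℂ) = θ 1 := char_natCast_charDegree (isCharacter_of_irr hθ)
    have h3 : ((∑ ψ : IrrCharacter N, m ψ * charDegree (ψ : N → ℂ) : ℕ) : ℂ) = θ 1 := by
      have h4 : θ 1 = ∑ ψ : IrrCharacter N, (m ψ : ℂ) * (ψ : N → ℂ) 1 := h1
      rw [h4]
      push_cast
      refine Finset.sum_congr rfl fun ψ _ => ?_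
      rw [char_natCast_charDegree (isCharacter_of_irr ψ.2)]
    exact_mod_cast h2.trans h3.symm
  by_contra hlt
  rw [not_le] at hlt
  apply hirr
  have hle1 : m ξ * charDegree (ξ : N → ℂ) ≤ charDegree θ := by
    rw [hsum]
    exact Finset.single_le_sum (f := fun ψ : IrrCharacter N => m ψ * charDegree (ψ : N → ℂ))
      (fun _ _ => Nat.zero_le _) (Finset.mem_univ ξ)
  have hmξ : m ξ ≠ 0 := by
    intro h0
    apply hξ
    rw [hm ξ, h0, Nat.cast_zero]
  have hm1 : m ξ = 1 := by
    by_contra h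
    have h2 : 2 ≤ m ξ := by omega
    have h3 : 2 * charDegree (ξ : N → ℂ) ≤ m ξ * charDegree (ξ : N → ℂ) :=
      Nat.mul_le_mul_right _ h2
    omega
  have hother : ∀ ψ : IrrCharacter N, ψ ≠ ξ → m ψ = 0 := by
    intro ψ hψ
    by_contra h
    have hd := hdeg ψ h
    have h2 : m ξ * charDegree (ξ : N → ℂ) + m ψ * charDegree (ψ : N → ℂ) ≤ charDegree θ := by
      rw [hsum, ← Finset.sum_pair (f := fun ψ : IrrCharacter N => m ψ * charDegree (ψ : N → ℂ))
        (Ne.symm hψ)]
      exact Finset.sum_le_sum_of_subset (Finset.subset_univ _)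
    rw [hd, hm1] at h2
    have h3 : 1 ≤ m ψ := Nat.one_le_iff_ne_zero.mpr h
    have h4 : charDegree (ξ : N → ℂ) ≤ m ψ * charDegree (ξ : N → ℂ) :=
      Nat.le_mul_of_pos_left _ h3
    omega
  have heq : (fun n : N => θ n) = (ξ : N → ℂ) := by
    funext n
    rw [hexp n, Finset.sum_eq_single ξ
      (fun ψ _ hψ => by rw [hother ψ hψ, Nat.cast_zero, zero_mul])
      (fun h => absurd (Finset.mem_univ ξ) h), hm1, Nat.cast_one, one_mul]
  rw [heq]
  exact ξ.2

theorem main : PerfIrr.{u} := by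
  intro G _ _ p _ P ζ hyp
  classical
  obtain ⟨hp5, hPc, hnn, hζ, hfaith, hdeg⟩ := hyp
  by_contra hirr
  have hFG : Fintype G := Fintype.ofFinite G
  have hle : (P : Subgroup G) ≤ Subgroup.normalClosure ((P : Subgroup G) : Set G) :=
    Subgroup.le_normalClosure
  have hFL : Fintype ↥(Subgroup.normalClosure ((P : Subgroup G) : Set G)) := Fintype.ofFinite _
  have hLn : (Subgroup.normalClosure ((P : Subgroup G) : Set G)).Normal :=
    Subgroup.normalClosure_normal
  have hQcard : Nat.card (P.subtype hle : Sylow p ↥(Subgroup.normalClosure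
      ((P : Subgroup G) : Set G))) = p := by
    have e : Nat.card ↥((P : Subgroup G).subgroupOf (Subgroup.normalClosure
        ((P : Subgroup G) : Set G))) = Nat.card ↥(P : Subgroup G) :=
      Nat.card_congr (Subgroup.subgroupOfEquivOfLe hle).toEquiv
    exact e.trans hPc
  have hgenQ := Cfsg.Agent.Lib.Helper1.BrR1.normalClosure_subtype_eq_top p P hle
  have hχL : IsCharacter ↥(Subgroup.normalClosure ((P : Subgroup G) : Set G))
      (fun l : ↥(Subgroup.normalClosure ((P : Subgroup G) : Set G)) => ζ (l : G)) :=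
    isCharacter_restrict _ (isCharacter_of_irr hζ)
  have hfaithL : ∀ l : ↥(Subgroup.normalClosure ((P : Subgroup G) : Set G)),
      (fun l : ↥(Subgroup.normalClosure ((P : Subgroup G) : Set G)) => ζ (l : G)) l =
        (fun l : ↥(Subgroup.normalClosure ((P : Subgroup G) : Set G)) => ζ (l : G)) 1 → l = 1 :=
    fun l h => Subtype.ext (hfaith _ h)
  have hcent : ∀ u : G, u ∈ (P : Subgroup G) → ∀ l : G,
      l ∈ Subgroup.normalClosure ((P : Subgroup G) : Set G) → u * l = l * u := by
    intro u hu l hl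
    have hcomm := Cfsg.Agent.Lib.Helper49.BrR3.comm_of_constituents
      (fun l : ↥(Subgroup.normalClosure ((P : Subgroup G) : Set G)) => ζ (l : G)) hχL hfaithL
      ⟨u, hle hu⟩ ?_ ⟨l, hl⟩
    · exact congrArg Subtype.val hcomm
    · intro ξ hξ
      have hd := two_mul_degree_le (Subgroup.normalClosure ((P : Subgroup G) : Set G)) hLn ζ hζ
        hirr ξ hξ
      have hdeg' : 2 * charDegree (ξ : ↥(Subgroup.normalClosure ((P : Subgroup G) : Set G)) → ℂ)
          + 1 < p := by omega
      refine Cfsg.Agent.Lib.Helper74.BrauerMain.core p (P.subtype hle) hQcard hgenQ ξ hdeg'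
        ⟨u, hle hu⟩ ?_
      show (⟨u, hle hu⟩ : ↥(Subgroup.normalClosure ((P : Subgroup G) : Set G))) ∈
        (P : Subgroup G).subgroupOf (Subgroup.normalClosure ((P : Subgroup G) : Set G))
      rw [Subgroup.mem_subgroupOf]
      exact hu
  exact hnn (Cfsg.Agent.Lib.Helper49.BrR5.normal_of_central_in_normalClosure p P hcent)

end Cfsg.Agent.Lib.Helper79.FTPERFIRR
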