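import Mathlib
import Cfsg.Agent.Lib.Helper75.NDStmt
import Cfsg.Agent.Lib.Helper77.BPPairs
import Cfsg.Agent.Lib.Helper16.ZR
import Cfsg.Agent.Lib.Helper81.Expand
import Cfsg.Agent.Lib.Helper81.Mult
import Cfsg.Agent.Lib.CT.Ops
import Cfsg.Agent.S4653

/-!
# S4890, piece NILA1: a Brauer pair `(Q, f)` of `B` with `C_G(D) ≤ C_G(Q)`, `D` a normal
`p`-subgroup, gives a Brauer pair of `B` at `D` through any constituent on `C_G(D)`.
-/

set_option autoImplicit false

namespace Cfsg.Agent.Lib.Helper79.NdNILA1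

open Cfsg Cfsg.Agent.Lib.Helper77.LocalRing Cfsg.Agent.Lib.Helper77.CentralChar
  Cfsg.Agent.Lib.Helper77.ClassSum Cfsg.Agent.Lib.Helper77.BlockIdem
  Cfsg.Agent.Lib.Helper77.BPBasic Cfsg.Agent.Lib.Helper77.BPBrauer
  Cfsg.Agent.Lib.Helper77.BPPairs
  Cfsg.Agent.Lib.CT.Wedderburn Cfsg.Agent.Lib.Helper16.ZR

universe u

section General

variable {X : Type u} [Group X] [Fintype X]

/-- Schur's relation for a class function: `∑ γ(u) χ(y u) = (∑ γ(u) χ(u)) χ(y) / χ(1)`. -/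
theorem schur_class (χ : IrrCharacter X) (γ : X → ℂ) (hγ : ∀ g u : X, γ (g * u * g⁻¹) = γ u)
    (y : X) :
    ∑ u : X, γ u * χ.1 (y * u) = (∑ u : X, γ u * χ.1 u) * χ.1 y / χ.1 1 := by
  have hc : (Nat.card X : ℂ) ≠ 0 := Nat.cast_ne_zero.mpr Nat.card_pos.ne'
  have h1 : ∀ g : X, ∑ u : X, γ u * χ.1 (y * u) = ∑ u : X, γ u * χ.1 (y * (g * u * g⁻¹)) := by
    intro g
    rw [← Fintype.sum_equiv (MulAut.conj g).toEquiv
      (fun u => γ u * χ.1 (y * (g * u * g⁻¹))) (fun u => γ u * χ.1 (y * u))]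
    intro u
    simp only [MulEquiv.toEquiv_eq_coe, EquivLike.coe_coe, MulAut.conj_apply]
    rw [hγ]
  have h2 : (Nat.card X : ℂ) * ∑ u : X, γ u * χ.1 (y * u)
      = ∑ g : X, ∑ u : X, γ u * χ.1 (y * (g * u * g⁻¹)) := by
    rw [← Finset.sum_congr rfl (fun g _ => h1 g), Finset.sum_const, Finset.card_univ,
      nsmul_eq_mul, Nat.card_eq_fintype_card]
  have h3 : ∑ g : X, ∑ u : X, γ u * χ.1 (y * (g * u * g⁻¹))
      = ∑ u : X, γ u * ((Nat.card X : ℂ) * χ.1 y * χ.1 u / χ.1 1) := by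
    rw [Finset.sum_comm]
    refine Finset.sum_congr rfl fun u _ => ?_
    rw [← Finset.mul_sum, Cfsg.Agent.Lib.Helper81.Expand.schur_avg χ y u]
  have h4 : ∑ u : X, γ u * ((Nat.card X : ℂ) * χ.1 y * χ.1 u / χ.1 1)
      = (Nat.card X : ℂ) * ((∑ u : X, γ u * χ.1 u) * χ.1 y / χ.1 1) := by
    rw [Finset.sum_mul, Finset.sum_div, Finset.mul_sum]
    refine Finset.sum_congr rfl fun u _ => ?_
    ring
  have h5 := h2.trans (h3.trans h4)
  exact mul_left_cancel₀ hc h5

theorem multC_lincomb [Fintype (IrrCharacter X)] (c : IrrCharacter X → ℂ) (ξ : IrrCharacter X) :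
    Cfsg.Agent.Lib.Helper81.Mult.multC (fun y => ∑ ξ' : IrrCharacter X, c ξ' * ξ'.1 y) ξ
      = c ξ := by
  classical
  rw [Cfsg.Agent.Lib.Helper81.Mult.multC_sum]
  have h : ∀ ξ' : IrrCharacter X,
      Cfsg.Agent.Lib.Helper81.Mult.multC (fun y => c ξ' * ξ'.1 y) ξ
        = if ξ' = ξ then c ξ' else 0 := by
    intro ξ'
    have h1 : (fun y => c ξ' * ξ'.1 y) = c ξ' • ξ'.1 := by
      funext y
      simp
    rw [h1, Cfsg.Agent.Lib.Helper81.Mult.multC_smul, Cfsg.Agent.Lib.Helper81.Mult.multC_irr]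
    split_ifs <;> simp
  rw [Finset.sum_congr rfl (fun ξ' _ => h ξ')]
  simp

end General

/-- Central character values along an injective homomorphism: for a class function `γ` on `H'`
supported on the image of `C'`, the central characters of `ζ ∈ Irr(H')` and of any constituent
`ξ` of its restriction to `C'` agree on it. -/
theorem omega_constituent {C' H' : Type u} [Group C'] [Group H'] [Fintype C'] [Fintype H']
    (ι : C' →* H') (hι : Function.Injective ι) (γ : H' → ℂ)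
    (hγ : ∀ g u : H', γ (g * u * g⁻¹) = γ u) (hγ0 : ∀ h : H', h ∉ Set.range ι → γ h = 0)
    (ζ : IrrCharacter H') (ξ : IrrCharacter C')
    (hm : Cfsg.Agent.Lib.Helper81.Mult.multC (fun c => ζ.1 (ι c)) ξ ≠ 0) :
    (∑ h : H', γ h * ζ.1 h) / ζ.1 1 = (∑ c : C', γ (ι c) * ξ.1 c) / ξ.1 1 := by
  classical
  have hfin : Finite (IrrCharacter C') := Cfsg.Agent.Lib.Helper81.Expand.finite_irr
  have hft : Fintype (IrrCharacter C') := Fintype.ofFinite _
  have hchar : IsCharacter C' (fun c => ζ.1 (ι c)) :=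
    Cfsg.Agent.Lib.CT.Ops.isCharacter_comp_hom ι (isCharacter_of_irr ζ.2)
  obtain ⟨m, hmdef⟩ : ∃ m : IrrCharacter C' → ℂ,
      m = fun ξ' => Cfsg.Agent.Lib.Helper81.Mult.multC (fun c => ζ.1 (ι c)) ξ' := ⟨_, rfl⟩
  have hexp : ∀ y : C', ζ.1 (ι y) = ∑ ξ' : IrrCharacter C', m ξ' * ξ'.1 y := by
    intro y
    rw [hmdef]
    exact Cfsg.Agent.Lib.Helper81.Mult.classFn_expand (fun c => ζ.1 (ι c))
      (Cfsg.Agent.Lib.Helper81.Mult.char_conj hchar) y
  obtain ⟨a, ha⟩ : ∃ a : ℂ, a = (∑ h : H', γ h * ζ.1 h) / ζ.1 1 := ⟨_, rfl⟩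
  obtain ⟨b, hb⟩ : ∃ b : IrrCharacter C' → ℂ,
      b = fun ξ' => (∑ c : C', γ (ι c) * ξ'.1 c) / ξ'.1 1 := ⟨_, rfl⟩
  have hγ' : ∀ g u : C', γ (ι (g * u * g⁻¹)) = γ (ι u) := by
    intro g u
    rw [map_mul, map_mul, map_inv, hγ]
  -- the function `Φ y = ∑ u, γ (ι u) * ζ (ι (y * u))` computed in two ways
  have e1 : ∀ y : C', ∑ u : C', γ (ι u) * ζ.1 (ι (y * u))
      = ∑ ξ' : IrrCharacter C', (a * m ξ') * ξ'.1 y := by
    intro y
    have s1 : ∑ u : C', γ (ι u) * ζ.1 (ι (y * u)) = ∑ h : H', γ h * ζ.1 (ι y * h) := by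
      apply Fintype.sum_of_injective ι hι
      · intro h hh
        rw [hγ0 h hh, zero_mul]
      · intro u
        rw [map_mul]
    have s2 : (∑ u : H', γ u * ζ.1 u) * ζ.1 (ι y) / ζ.1 1 = a * ζ.1 (ι y) := by
      rw [ha]
      ring
    rw [s1, schur_class ζ γ hγ (ι y), s2, hexp y, Finset.mul_sum]
    refine Finset.sum_congr rfl fun ξ' _ => ?_
    ring
  have e2 : ∀ y : C', ∑ u : C', γ (ι u) * ζ.1 (ι (y * u))
      = ∑ ξ' : IrrCharacter C', (m ξ' * b ξ') * ξ'.1 y := by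
    intro y
    have s1 : ∀ u : C', γ (ι u) * ζ.1 (ι (y * u))
        = ∑ ξ' : IrrCharacter C', m ξ' * (γ (ι u) * ξ'.1 (y * u)) := by
      intro u
      rw [hexp (y * u), Finset.mul_sum]
      refine Finset.sum_congr rfl fun ξ' _ => ?_
      ring
    rw [Finset.sum_congr rfl (fun u _ => s1 u), Finset.sum_comm]
    refine Finset.sum_congr rfl fun ξ' _ => ?_
    rw [← Finset.mul_sum, schur_class ξ' (fun u => γ (ι u)) hγ' y, hb]
    ring
  have e3 : (fun y : C' => ∑ ξ' : IrrCharacter C', (a * m ξ') * ξ'.1 y)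
      = fun y : C' => ∑ ξ' : IrrCharacter C', (m ξ' * b ξ') * ξ'.1 y := by
    funext y
    rw [← e1 y, e2 y]
  have e4 : Cfsg.Agent.Lib.Helper81.Mult.multC
        (fun y : C' => ∑ ξ' : IrrCharacter C', (a * m ξ') * ξ'.1 y) ξ
      = Cfsg.Agent.Lib.Helper81.Mult.multC
        (fun y : C' => ∑ ξ' : IrrCharacter C', (m ξ' * b ξ') * ξ'.1 y) ξ := by
    rw [e3]
  rw [multC_lincomb, multC_lincomb] at e4
  have hmξ : m ξ ≠ 0 := by
    rw [hmdef]
    exact hm
  have e5 : a = b ξ := by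
    have : m ξ * a = m ξ * b ξ := by
      rw [mul_comm, e4]
    exact mul_left_cancel₀ hmξ this
  rw [← ha, e5, hb]

theorem main : Cfsg.Agent.Lib.Helper75.NDStmt.NILA1.{u} := by
  intro G _ _ p _ M hM B D _ hFC hD Q f hQf hle ζ hζ ξ hξ
  classical
  have hMp := isPrime_of_isPModular hM
  have hFG : Fintype G := Fintype.ofFinite G
  have hFH : Fintype ↥(Subgroup.centralizer (Q : Set G)) := Fintype.ofFinite _
  have hB : IsPBlock M B := hQf.2.1
  obtain ⟨heB1, heB2⟩ := Subring.mem_inf.mp (blockIdem_mem_top hMp B hB)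
  refine ⟨⟨hD, ⟨ξ, rfl⟩⟩, hB, ?_⟩
  intro ξ' hξ'
  have hs : SameBlock M (ξ : Subgroup.centralizer (D : Set G) → ℂ)
      (ξ' : Subgroup.centralizer (D : Set G) → ℂ) := hξ'
  rw [brauerOmega_eq]
  have k1 : MemLocalIdeal M
      (om (Subgroup.centralizer (D : Set G)) (ξ' : Subgroup.centralizer (D : Set G) → ℂ)
          (blockIdem B)
        - om (Subgroup.centralizer (D : Set G)) (ξ : Subgroup.centralizer (D : Set G) → ℂ)
          (blockIdem B)) :=
    om_sub_mem_of_sameBlock hMp (Subgroup.centralizer (D : Set G)) ξ'.2 ξ.2 (sameBlock_symm hs)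
      (blockIdem B) (fixedSubring_mono le_top heB1) heB2
  have k2 : MemLocalIdeal M
      (om (Subgroup.centralizer (Q : Set G)) (ζ : Subgroup.centralizer (Q : Set G) → ℂ)
          (blockIdem B) - 1) := by
    have := hQf.2.2 ζ hζ
    rwa [brauerOmega_eq] at this
  have k3 : om (Subgroup.centralizer (D : Set G)) (ξ : Subgroup.centralizer (D : Set G) → ℂ)
        (blockIdem B)
      = om (Subgroup.centralizer (Q : Set G)) (ζ : Subgroup.centralizer (Q : Set G) → ℂ)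
        (blockIdem B) := by
    unfold om omega
    rw [pair_eq_sum, pair_eq_sum]
    have hcon : Cfsg.Agent.Lib.Helper81.Mult.multC
        (fun c : ↥(Subgroup.centralizer (D : Set G)) => ζ.1 (Subgroup.inclusion hle c)) ξ ≠ 0 := by
      rw [Cfsg.Agent.Lib.Helper81.Mult.multC_def]
      unfold classInner at hξ
      convert hξ using 3
      rw [char_apply_inv (isCharacter_of_irr ξ.2)]
      rfl
    have := omega_constituent (Subgroup.inclusion hle) (Subgroup.inclusion_injective hle)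
      (fun h : ↥(Subgroup.centralizer (Q : Set G)) => blockCoeff B (h : G))
      (fun g u => by
        show blockCoeff B (((g * u * g⁻¹ : ↥(Subgroup.centralizer (Q : Set G))) : G)) = _
        rw [Subgroup.coe_mul, Subgroup.coe_mul, Subgroup.coe_inv, blockCoeff_conj])
      (fun h hh => by
        apply Cfsg.Agent.S4653.result p M hM D hD B hB (h : G)
        intro hc
        exact hh ⟨⟨(h : G), hc⟩, Subtype.ext rfl⟩)
      ζ ξ hcon
    exact this.symm
  have k4 := memLocalIdeal_add hMp k1 (k3 ▸ k2)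
  show MemLocalIdeal M
    (om (Subgroup.centralizer (D : Set G)) (ξ' : Subgroup.centralizer (D : Set G) → ℂ)
      (blockIdem B) - 1)
  convert k4 using 1
  ring

end Cfsg.Agent.Lib.Helper79.NdNILA1
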