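import Mathlib
import Cfsg.Agent.Lib.Helper75.OTStmt
import Cfsg.Agent.Lib.Helper77.BPMax2
import Cfsg.Agent.Lib.Helper77.BPCov
import Cfsg.Agent.Lib.Helper16.Normal

/-!
# S4889, piece BRO: the truncated block idempotent is congruent to the orbit sum of a maximal
Brauer pair
-/

set_option autoImplicit false

namespace Cfsg.Agent.Lib.Helper79.OtBRO

open Cfsg Cfsg.Agent.Lib.Helper77.LocalRing Cfsg.Agent.Lib.Helper77.CentralChar
  Cfsg.Agent.Lib.Helper77.ClassSum Cfsg.Agent.Lib.Helper77.BlockIdem
  Cfsg.Agent.Lib.Helper77.BPBasic Cfsg.Agent.Lib.Helper77.BPBrauer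
  Cfsg.Agent.Lib.Helper77.BPPairs Cfsg.Agent.Lib.Helper77.BPConj
  Cfsg.Agent.Lib.Helper77.BPIdem Cfsg.Agent.Lib.Helper77.BPMax Cfsg.Agent.Lib.Helper77.BPMax2
  Cfsg.Agent.Lib.Helper77.BPTransport
  Cfsg.Agent.Lib.CT.Wedderburn Cfsg.Agent.Lib.Helper16.ZR Cfsg.Agent.Lib.Helper75.OTStmt

universe u
variable {G : Type u} [Group G] {M : Ideal AlgInt}

/-- A product with a factor having coefficients in the local ideal and an integral factor has
coefficients in the local ideal. -/
theorem coeff_mul_mem [Finite G] (hMp : M.IsPrime) (n w : MonoidAlgebra ℂ G)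
    (hn : ∀ g : G, MemLocalIdeal M (n.coeff g)) (hw : w ∈ intSubring M hMp) :
    ∀ g : G, MemLocalIdeal M ((n * w).coeff g) := by
  classical
  cases nonempty_fintype G
  intro g
  rw [coeff_mul']
  exact memLocalIdeal_sum hMp _ _ fun h _ => memLocalIdeal_mul_right hMp (hn _) (hw h)

/-- Two central integral elements, `t` idempotent modulo the local ideal, with central character
values congruent modulo the local ideal, those of `o` being `0` or `1`, are congruent
coefficientwise modulo the local ideal. -/
theorem coeff_sub_mem_of_omega [Finite G] (hMp : M.IsPrime) (t o : MonoidAlgebra ℂ G)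
    (htc : t ∈ Zc G) (hoc : o ∈ Zc G) (htR : t ∈ intSubring M hMp) (hoR : o ∈ intSubring M hMp)
    (hidem : ∀ g : G, MemLocalIdeal M ((t * t - t).coeff g))
    (ho01 : ∀ χ : IrrCharacter G, omega (χ : G → ℂ) o = 0 ∨ omega (χ : G → ℂ) o = 1)
    (hω : ∀ χ : IrrCharacter G, MemLocalIdeal M (omega (χ : G → ℂ) t - omega (χ : G → ℂ) o)) :
    ∀ g : G, MemLocalIdeal M ((t - o).coeff g) := by
  classical
  have hoo : o * o = o := by
    apply eq_of_omega_eq _ _ (Subalgebra.mul_mem _ hoc hoc) hoc
    intro χ
    rw [omega_mul χ.2 _ _ hoc]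
    rcases ho01 χ with h | h <;> rw [h] <;> ring
  have hcomm : ∀ b : MonoidAlgebra ℂ G, b * o = o * b := Subalgebra.mem_center_iff.mp hoc
  have J1 : (t * (1 - o)) * (t * (1 - o)) - t * (1 - o) = (t * t - t) * (1 - o) := by
    have hqq : (1 - o) * (1 - o) = 1 - o := by
      have h1 : (1 - o) * (1 - o) = 1 - o - o + o * o := by noncomm_ring
      rw [h1, hoo]
      abel
    have hqt : (1 - o) * t = t * (1 - o) := by
      rw [sub_mul, mul_sub, one_mul, mul_one, hcomm t]
    obtain ⟨q, hq⟩ : ∃ q : MonoidAlgebra ℂ G, q = 1 - o := ⟨_, rfl⟩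
    rw [← hq] at hqq hqt ⊢
    have h2 : t * q * (t * q) = t * t * q := by
      calc t * q * (t * q) = t * (q * t) * q := by simp only [mul_assoc]
        _ = t * (t * q) * q := by rw [hqt]
        _ = t * t * (q * q) := by simp only [mul_assoc]
        _ = t * t * q := by rw [hqq]
    rw [h2, sub_mul]
  have J2 : ((1 - t) * o) * ((1 - t) * o) - (1 - t) * o = (t * t - t) * o := by
    have hrr : (1 - t) * (1 - t) = (1 - t) + (t * t - t) := by
      have h1 : (1 - t) * (1 - t) = 1 - t - t + t * t := by noncomm_ring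
      rw [h1]
      abel
    have hor : o * (1 - t) = (1 - t) * o := (hcomm (1 - t)).symm
    obtain ⟨r, hr⟩ : ∃ r : MonoidAlgebra ℂ G, r = 1 - t := ⟨_, rfl⟩
    rw [← hr] at hrr hor ⊢
    have h2 : r * o * (r * o) = r * o + (t * t - t) * o := by
      calc r * o * (r * o) = r * (o * r) * o := by simp only [mul_assoc]
        _ = r * (r * o) * o := by rw [hor]
        _ = r * r * (o * o) := by simp only [mul_assoc]
        _ = r * r * o := by rw [hoo]
        _ = r * o + (t * t - t) * o := by rw [hrr, add_mul]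
    rw [h2, add_sub_cancel_left]
  have h1c : (1 : MonoidAlgebra ℂ G) ∈ Zc G := Subalgebra.one_mem _
  have h1R : (1 : MonoidAlgebra ℂ G) ∈ intSubring M hMp := Subring.one_mem _
  have hw1 : ∀ g : G, MemLocalIdeal M ((t * (1 - o)).coeff g) := by
    apply coeff_mem_of_omega_mem hMp _ (Subalgebra.mul_mem _ htc (Subalgebra.sub_mem _ h1c hoc))
      (Subring.mul_mem _ htR (Subring.sub_mem _ h1R hoR))
    · intro g
      rw [J1]
      exact coeff_mul_mem hMp _ _ hidem (Subring.sub_mem _ h1R hoR) g
    · intro χ
      rw [omega_mul χ.2 _ _ htc, omega_sub, omega_one_irr χ.2]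
      have h := hω χ
      rcases ho01 χ with h0 | h0
      · rw [h0, sub_zero] at h
        rw [h0, sub_zero, mul_one]
        exact h
      · rw [h0, sub_self, mul_zero]
        exact memLocalIdeal_zero hMp
  have hw2 : ∀ g : G, MemLocalIdeal M (((1 - t) * o).coeff g) := by
    apply coeff_mem_of_omega_mem hMp _ (Subalgebra.mul_mem _ (Subalgebra.sub_mem _ h1c htc) hoc)
      (Subring.mul_mem _ (Subring.sub_mem _ h1R htR) hoR)
    · intro g
      rw [J2]
      exact coeff_mul_mem hMp _ _ hidem hoR g
    · intro χ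
      rw [omega_mul χ.2 _ _ (Subalgebra.sub_mem _ h1c htc), omega_sub, omega_one_irr χ.2]
      have h := hω χ
      rcases ho01 χ with h0 | h0
      · rw [h0, mul_zero]
        exact memLocalIdeal_zero hMp
      · rw [h0] at h
        rw [h0, mul_one]
        have h2 := memLocalIdeal_neg h
        rw [neg_sub] at h2
        exact h2
  intro g
  have hsplit : t - o = t * (1 - o) - (1 - t) * o := by
    rw [mul_sub, sub_mul, mul_one, one_mul]
    abel
  rw [hsplit, MonoidAlgebra.coeff_sub]
  exact memLocalIdeal_sub hMp (hw1 g) (hw2 g)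

/-- The central character of a member of a conjugate of `e` takes the value one on the orbit
sum. -/
theorem om_orbitSum_conjB [Finite G] (hMp : M.IsPrime) {P : Subgroup G}
    {e : Set (IrrCharacter (Subgroup.centralizer (P : Set G)))} (he : IsPBlock M e) (x : G)
    (hx : x ∈ Subgroup.normalizer ((Subgroup.centralizer (P : Set G) : Subgroup G) : Set G))
    (hxN : x ∈ Subgroup.normalizer (P : Set G))
    (ξ : IrrCharacter (Subgroup.centralizer (P : Set G)))
    (hξ : ξ ∈ conjB (Subgroup.centralizer (P : Set G)) x hx e) :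
    om (Subgroup.centralizer (P : Set G)) (ξ : Subgroup.centralizer (P : Set G) → ℂ)
      (orbitSum P e) = 1 := by
  classical
  unfold orbitSum
  rw [om_sum, Finset.sum_eq_single (ext (Subgroup.centralizer (P : Set G))
    (blockIdem (conjB (Subgroup.centralizer (P : Set G)) x hx e)))]
  · rw [om_ext_blockIdem, if_pos hξ]
  · intro s hs hne
    obtain ⟨y, hy, -, rfl⟩ := orbit_block hs
    rw [om_ext_blockIdem]
    refine if_neg fun hin => hne ?_
    rw [isPBlock_eq_blockOf hMp (isPBlock_conjB _ y hy he) hin,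
      isPBlock_eq_blockOf hMp (isPBlock_conjB _ x hx he) hξ]
  · intro hn
    exact absurd (mem_orbit.mpr ⟨x, hxN, conjA_ext_blockIdem _ x hx e⟩) hn

/-- The central characters of `C_G(P)` agree modulo the local ideal on the block idempotent of
`B` and on the orbit sum of a maximal Brauer pair of `B`; on the orbit sum they are `0` or `1`. -/
theorem om_sub_mem [Finite G] {p : ℕ} [Fact p.Prime] (hM : IsPModular p M)
    {B : Set (IrrCharacter G)} {P : Subgroup G}
    {e : Set (IrrCharacter (Subgroup.centralizer (P : Set G)))}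
    (hmax : IsMaximalBrauerPair p M B P e)
    (ξ : IrrCharacter (Subgroup.centralizer (P : Set G))) :
    (om (Subgroup.centralizer (P : Set G)) (ξ : Subgroup.centralizer (P : Set G) → ℂ)
        (orbitSum P e) = 0 ∨
      om (Subgroup.centralizer (P : Set G)) (ξ : Subgroup.centralizer (P : Set G) → ℂ)
        (orbitSum P e) = 1) ∧
    MemLocalIdeal M (om (Subgroup.centralizer (P : Set G))
        (ξ : Subgroup.centralizer (P : Set G) → ℂ) (blockIdem B) -
      om (Subgroup.centralizer (P : Set G)) (ξ : Subgroup.centralizer (P : Set G) → ℂ)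
        (orbitSum P e)) := by
  classical
  have hMp := isPrime_of_isPModular hM
  have hB : IsPBlock M B := hmax.1.2.1
  have he : IsPBlock M e := hmax.1.1.2
  have hP : IsPGroup p P := hmax.1.1.1
  obtain ⟨heB1, heB2⟩ := Subring.mem_inf.mp (blockIdem_mem_top hMp B hB)
  by_cases h0 : om (Subgroup.centralizer (P : Set G))
      (ξ : Subgroup.centralizer (P : Set G) → ℂ) (orbitSum P e) = 0
  · refine ⟨Or.inl h0, ?_⟩
    rw [h0, sub_zero]
    have hmul := om_mul_sub hM P hP ξ.2 (blockIdem B) (blockIdem B)
      (fixedSubring_mono le_top heB1) (fixedSubring_mono le_top heB1)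
      (fixedSubring_mono le_top heB1) (fixedSubring_mono le_top heB1) heB2 heB2
    rw [Cfsg.Agent.Lib.Helper16.Normal.blockIdem_mul_self] at hmul
    have haR : MemLocalRing M (om (Subgroup.centralizer (P : Set G))
        (ξ : Subgroup.centralizer (P : Set G) → ℂ) (blockIdem B)) :=
      om_memLocalRing hMp _ ξ.2 _ (fixedSubring_mono le_top heB1) heB2
    have h1 : MemLocalIdeal M (om (Subgroup.centralizer (P : Set G))
        (ξ : Subgroup.centralizer (P : Set G) → ℂ) (blockIdem B) *
        (1 - om (Subgroup.centralizer (P : Set G))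
          (ξ : Subgroup.centralizer (P : Set G) → ℂ) (blockIdem B))) := by
      convert hmul using 1
      ring
    rcases memLocalIdeal_or_of_mul hMp haR h1 with h | h
    · exact h
    · exfalso
      have hpair : IsBrauerPairOf p M B P
          (blockOf M (ξ : Subgroup.centralizer (P : Set G) → ℂ)) := by
        refine ⟨⟨hP, isPBlock_blockOf ξ⟩, hB, fun ξ' hξ' => ?_⟩
        rw [brauerOmega_eq]
        have a1 := om_sub_mem_of_sameBlock hMp _ ξ'.2 ξ.2
          (sameBlock_of_mem hMp (isPBlock_blockOf ξ) hξ' (mem_blockOf_self hMp ξ)) (blockIdem B)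
          (fixedSubring_mono le_top heB1) heB2
        have a2 := memLocalIdeal_sub hMp a1 h
        convert a2 using 1
        show om _ _ (blockIdem B) - 1 = _
        ring
      obtain ⟨x, hx, hxN, hEq⟩ := exists_conjB_of_maximal hM hmax hpair
      have hin : ξ ∈ conjB (Subgroup.centralizer (P : Set G)) x hx e := by
        rw [← hEq]
        exact mem_blockOf_self hMp ξ
      have := om_orbitSum_conjB hMp he x hx hxN ξ hin
      rw [h0] at this
      exact zero_ne_one this
  · obtain ⟨x, hx, hxN, hin⟩ := exists_conjB_of_om_orbitSum_ne_zero ξ h0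
    have h1 := om_orbitSum_conjB hMp he x hx hxN ξ hin
    refine ⟨Or.inr h1, ?_⟩
    rw [h1]
    obtain ⟨ξ', hξ', rfl⟩ := hin
    have hfix : conjA x (blockIdem B) = blockIdem B :=
      (mem_fixedSubring_iff_conjA.mp heB1) x (Subgroup.mem_top x)
    have h2 := Cfsg.Agent.Lib.Helper77.BPCov.om_conj (Subgroup.centralizer (P : Set G)) x hx
      (ξ' : Subgroup.centralizer (P : Set G) → ℂ) (blockIdem B)
    rw [hfix] at h2
    have h3 := hmax.1.2.2 ξ' hξ'
    rw [brauerOmega_eq] at h3
    have h4 : om (Subgroup.centralizer (P : Set G))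
        ((pull (normConj (Subgroup.centralizer (P : Set G)) x hx) ξ' :
          IrrCharacter (Subgroup.centralizer (P : Set G))) :
            Subgroup.centralizer (P : Set G) → ℂ) (blockIdem B) =
        om (Subgroup.centralizer (P : Set G)) (ξ' : Subgroup.centralizer (P : Set G) → ℂ)
          (blockIdem B) := h2
    rw [h4]
    exact h3

theorem main : Cfsg.Agent.Lib.Helper75.OTStmt.BRO.{u} := by
  intro G _ _ p _ M hM B D c hmax g
  classical
  have hMp := isPrime_of_isPModular hM
  have hB : IsPBlock M B := hmax.1.2.1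
  have hc : IsPBlock M c := hmax.1.1.2
  have hD : IsPGroup p D := hmax.1.1.1
  obtain ⟨heB1, heB2⟩ := Subring.mem_inf.mp (blockIdem_mem_top hMp B hB)
  obtain ⟨ho1, ho2, ho3⟩ := orbitSum_mem hMp hc
  by_cases hg : g ∈ Subgroup.centralizer (D : Set G)
  · have key := coeff_sub_mem_of_omega hMp
      (res (Subgroup.centralizer (D : Set G)) (blockIdem B))
      (res (Subgroup.centralizer (D : Set G)) (orbitSum D c))
      (res_mem_center _ (fixedSubring_mono le_top heB1)) (res_mem_center _ ho2)
      (fun h => heB2 (h : G)) (fun h => ho3 (h : G)) ?_ (fun ξ => (om_sub_mem hM hmax ξ).1)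
      (fun ξ => (om_sub_mem hM hmax ξ).2) ⟨g, hg⟩
    · rw [coeff_trunc_of_mem _ _ hg]
      have : (res (Subgroup.centralizer (D : Set G)) (blockIdem B) -
          res (Subgroup.centralizer (D : Set G)) (orbitSum D c)).coeff ⟨g, hg⟩ =
          (blockIdem B).coeff g - (orbitSum D c).coeff g := by
        rw [MonoidAlgebra.coeff_sub]
        rfl
      rw [← this]
      exact key
    · intro h
      have h1 := coeff_mul_sub_trunc hM D hD (blockIdem B) (blockIdem B)
        (fixedSubring_mono le_top heB1) (fixedSubring_mono le_top heB1) heB2 heB2 (h : G) h.2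
      rw [Cfsg.Agent.Lib.Helper16.Normal.blockIdem_mul_self, ← ext_res, ← ext_mul,
        coeff_ext_of_mem] at h1
      have h2 := memLocalIdeal_neg h1
      rw [neg_sub] at h2
      rw [MonoidAlgebra.coeff_sub]
      exact h2
  · rw [coeff_trunc_of_not_mem _ _ hg, ho1 g hg, sub_zero]
    exact memLocalIdeal_zero hMp

end Cfsg.Agent.Lib.Helper79.OtBRO
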