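import Mathlib
import Cfsg.Agent.Lib.Helper75.OTStmt
import Cfsg.Agent.Lib.Helper16.Defect

/-!
# S4889, piece N1: classes with small centralizers vanish in a block of equal degrees
-/

set_option autoImplicit false

namespace Cfsg.Agent.Lib.Helper79.OtN1

open Cfsg Cfsg.Agent.Lib.Helper77.LocalRing Cfsg.Agent.Lib.Helper77.CentralChar
  Cfsg.Agent.Lib.Helper77.ClassSum Cfsg.Agent.Lib.Helper77.BlockIdem
  Cfsg.Agent.Lib.CT.Wedderburn Cfsg.Agent.Lib.Helper75.OTStmt
open scoped ComplexConjugate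

universe u

open Classical in
/-- The coefficients of `classSum g * blockIdem B`. -/
theorem coeff_classSum_mul_blockIdem {G : Type u} [Group G] [Finite G]
    (B : Set (IrrCharacter G)) (g h : G) :
    (classSum g * blockIdem B).coeff h
      = (Nat.card G : ℂ)⁻¹ * ((Subgroup.centralizer ({g} : Set G)).index : ℂ)
        * ∑ᶠ χ ∈ B, (χ : G → ℂ) g * conj ((χ : G → ℂ) h) := by
  have := Fintype.ofFinite G
  have := finite_irrCharacter G
  have := Fintype.ofFinite (IrrCharacter G)
  have hz : classSum g * blockIdem B ∈ Zc G :=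
    mul_mem (classSum_mem_center g) (blockIdem_mem_center B)
  rw [coeff_eq_sum_omega _ hz h]
  have hom : ∀ χ : IrrCharacter G, omega (χ : G → ℂ) (classSum g * blockIdem B)
      = centralChar (χ : G → ℂ) g * (if χ ∈ B then 1 else 0) := by
    intro χ
    rw [omega_mul χ.2 _ _ (classSum_mem_center g), omega_blockIdem,
      omega_classSum _ (fun x k => char_isClassFunction (isCharacter_of_irr χ.2) k x) g]
  rw [finsum_mem_def B (fun χ : IrrCharacter G => (χ : G → ℂ) g * conj ((χ : G → ℂ) h)),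
    finsum_eq_sum_of_fintype, mul_assoc]
  congr 1
  rw [Finset.mul_sum]
  refine Finset.sum_congr rfl fun χ _ => ?_
  rw [hom χ]
  have h1 : (χ : G → ℂ) 1 ≠ 0 := irr_one_ne_zero χ.2
  by_cases hB : χ ∈ B
  · rw [Set.indicator_of_mem hB, if_pos hB, char_apply_inv (isCharacter_of_irr χ.2)]
    unfold centralChar
    field_simp
  · rw [Set.indicator_of_notMem hB, if_neg hB]
    ring

theorem main : Cfsg.Agent.Lib.Helper75.OTStmt.N1.{u} := by
  intro G _ _ p _ M hM B hB D hD n hn hT g hg h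
  classical
  have hp : p.Prime := Fact.out
  have hMp := isPrime_of_isPModular hM
  rw [coeff_classSum_mul_blockIdem]
  obtain ⟨χ₀, rfl⟩ := hB
  have hχ₀ : χ₀ ∈ blockOf M (χ₀ : G → ℂ) :=
    Cfsg.Agent.Lib.Helper77.DefectClass.self_mem_blockOf hMp χ₀
  have hn0 : 0 < n := by
    rw [← hn χ₀ hχ₀]
    exact irr_charDegree_pos χ₀.2
  have hcard := Cfsg.Agent.Lib.Helper16.Defect.card_defectGroup p hM _ ⟨χ₀, rfl⟩ D hD
  have himg : (fun χ : IrrCharacter G => (charDegree (χ : G → ℂ)).factorization p) ''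
      blockOf M (χ₀ : G → ℂ) = {n.factorization p} := by
    ext k
    constructor
    · rintro ⟨χ, hχ, rfl⟩
      show (charDegree (χ : G → ℂ)).factorization p ∈ _
      rw [hn χ hχ]
      rfl
    · intro hk
      rw [Set.mem_singleton_iff] at hk
      refine ⟨χ₀, hχ₀, ?_⟩
      show (charDegree (χ₀ : G → ℂ)).factorization p = k
      rw [hn χ₀ hχ₀, hk]
  have hdef : blockDefect p (blockOf M (χ₀ : G → ℂ))
      = (Nat.card G).factorization p - n.factorization p := by
    unfold blockDefect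
    rw [himg, csInf_singleton]
  rw [hcard, hdef] at hg
  obtain ⟨C, hCdef⟩ : ∃ C : Subgroup G, C = Subgroup.centralizer ({g} : Set G) := ⟨_, rfl⟩
  rw [← hCdef] at hg ⊢
  have hC0 : Nat.card C ≠ 0 := Nat.card_pos.ne'
  have hi0 : C.index ≠ 0 := Subgroup.index_ne_zero_of_finite
  have hlt : (Nat.card C).factorization p
      < (Nat.card G).factorization p - n.factorization p := by
    by_contra hcon
    push Not at hcon
    exact hg ((hp.pow_dvd_iff_le_factorization hC0).mpr hcon)
  have hmul : (Nat.card C).factorization p + C.index.factorization p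
      = (Nat.card G).factorization p := by
    rw [← C.card_mul_index, Nat.factorization_mul hC0 hi0]
    rfl
  have hdvd : p ^ (n.factorization p + 1) ∣ C.index := by
    rw [hp.pow_dvd_iff_le_factorization hi0]
    omega
  obtain ⟨m, hm⟩ := hdvd
  have hG0 : (Nat.card G : ℂ) ≠ 0 := Nat.cast_ne_zero.mpr Nat.card_pos.ne'
  have hnC : (n : ℂ) ≠ 0 := Nat.cast_ne_zero.mpr hn0.ne'
  have key : (Nat.card G : ℂ)⁻¹ * (C.index : ℂ)
        * ∑ᶠ χ ∈ blockOf M (χ₀ : G → ℂ), (χ : G → ℂ) g * conj ((χ : G → ℂ) h)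
      = ((p : ℂ) * ((p ^ n.factorization p * m : ℕ) : ℂ) / n) * ((n : ℂ) / (Nat.card G : ℂ)
        * ∑ᶠ χ ∈ blockOf M (χ₀ : G → ℂ), (χ : G → ℂ) g * conj ((χ : G → ℂ) h)) := by
    rw [hm]
    push_cast
    field_simp
    ring
  rw [key]
  apply memLocalIdeal_mul_right hMp _ (hT g h)
  rw [mul_div_assoc]
  apply memLocalIdeal_mul_right hMp (memLocalIdeal_natCast_of_dvd hM dvd_rfl)
  exact Cfsg.Agent.Lib.Helper16.Defect.natCast_div_memLocalRing hM _ n hn0.ne' (Dvd.intro _ rfl)

end Cfsg.Agent.Lib.Helper79.OtN1
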