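import Mathlib
import Cfsg.Agent.Lib.Helper75.OTStmt
import Cfsg.Agent.Lib.Helper16.MinMax
import Cfsg.Agent.Lib.Helper16.Normal

/-!
# S4889, piece N2: classes not meeting the centralizer of the defect group vanish in the block
-/

set_option autoImplicit false

namespace Cfsg.Agent.Lib.Helper79.OtN2

open Cfsg Cfsg.Agent.Lib.Helper77.LocalRing Cfsg.Agent.Lib.Helper77.CentralChar
  Cfsg.Agent.Lib.Helper77.ClassSum Cfsg.Agent.Lib.Helper77.BlockIdem
  Cfsg.Agent.Lib.CT.Wedderburn Cfsg.Agent.Lib.Helper75.OTStmt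
open Cfsg.Agent.Lib.Helper16.CentralChar (conjFinset mem_conjFinset conj_mem_conjFinset)
open Cfsg.Agent.Lib.Helper16.MinMax (mem_centralizer_singleton)

universe u
variable {G : Type u} [Group G]

/-- Coefficients of a class sum times an arbitrary element. -/
theorem coeff_classSum_mul [Finite G] (c : G) (w : MonoidAlgebra ℂ G) (z : G) :
    (classSum c * w).coeff z = ∑ x ∈ conjFinset c, w.coeff (x⁻¹ * z) := by
  classical
  cases nonempty_fintype G
  rw [MonoidAlgebra.coeff_mul_apply_left, Finsupp.sum_fintype _ _ (fun _ => by simp)]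
  unfold classSum
  simp only [coeff_ofFun, ite_mul, one_mul, zero_mul]
  rw [← Finset.sum_filter]
  apply Finset.sum_congr _ (fun _ _ => rfl)
  ext x
  simp [mem_conjFinset]

theorem coeff_mul_eq [Fintype G] (z w : MonoidAlgebra ℂ G) (h : G) :
    (z * w).coeff h = ∑ y : G, z.coeff y * w.coeff (y⁻¹ * h) := by
  rw [MonoidAlgebra.coeff_mul_apply_left, Finsupp.sum_fintype _ _ (fun _ => by simp)]

/-- Part (A): on elements whose centralizer order is divisible by `|D|`. -/
theorem partA [Finite G] (p : ℕ) [Fact p.Prime] (M : Ideal AlgInt) (hM : IsPModular p M)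
    (B : Set (IrrCharacter G)) (hB : IsPBlock M B) (D : Subgroup G)
    (hD : IsDefectGroup p M B D) (g : G)
    (hg : ∀ x : G, x * g * x⁻¹ ∉ Subgroup.centralizer (D : Set G)) (y : G)
    (hy : Nat.card D ∣ Nat.card (Subgroup.centralizer ({y} : Set G))) :
    MemLocalIdeal M ((classSum g * blockIdem B).coeff y) := by
  classical
  have hp : p.Prime := Fact.out
  have hMp := isPrime_of_isPModular hM
  rw [coeff_classSum_mul]
  obtain ⟨g₀, hg₀, hS⟩ := Cfsg.Agent.Lib.Helper16.MinMax.isDefectGroup_iff.mp hD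
  obtain ⟨d, hd⟩ : ∃ d, Nat.card D = p ^ d := IsPGroup.iff_card.mp hS.2.1
  rw [hd] at hy
  obtain ⟨Q₀, hQ₀⟩ := Sylow.exists_subgroup_card_pow_prime p hy
  obtain ⟨Q, hQdef⟩ : ∃ Q : Subgroup G,
      Q = Q₀.map (Subgroup.centralizer ({y} : Set G)).subtype := ⟨_, rfl⟩
  have hQcard : Nat.card Q = p ^ d := by
    rw [hQdef, Subgroup.card_map_of_injective (Subgroup.subtype_injective _)]
    exact hQ₀
  have hQp : IsPGroup p Q := IsPGroup.of_card hQcard
  have hQy : Q ≤ Subgroup.centralizer ({y} : Set G) := by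
    rw [hQdef]
    exact Subgroup.map_subtype_le _
  rw [← Finset.sum_filter_add_sum_filter_not (conjFinset g) (fun x => ∀ u ∈ Q, u * x * u⁻¹ = x)]
  apply memLocalIdeal_add hMp
  · apply memLocalIdeal_sum hMp
    intro x hx
    rw [Finset.mem_filter] at hx
    by_contra hnot
    have hQx : Q ≤ Subgroup.centralizer ({x⁻¹ * y} : Set G) := by
      intro u hu
      rw [mem_centralizer_singleton]
      have h1 : y * u = u * y := mem_centralizer_singleton.mp (hQy hu)
      have h2 : u * x * u⁻¹ = x := hx.2 u hu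
      have h3 : u * x = x * u := by
        calc u * x = (u * x * u⁻¹) * u := by group
          _ = x * u := by rw [h2]
      have h4 : x⁻¹ * u = u * x⁻¹ := by
        calc x⁻¹ * u = x⁻¹ * (u * x) * x⁻¹ := by group
          _ = x⁻¹ * (x * u) * x⁻¹ := by rw [h3]
          _ = u * x⁻¹ := by group
      calc x⁻¹ * y * u = x⁻¹ * (y * u) := by group
        _ = x⁻¹ * (u * y) := by rw [h1]
        _ = (x⁻¹ * u) * y := by group
        _ = (u * x⁻¹) * y := by rw [h4]
        _ = u * (x⁻¹ * y) := by group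
    obtain ⟨t, ht⟩ := Cfsg.Agent.Lib.Helper16.MinMax.minmax_a hM B hB g₀ hg₀ D hS (x⁻¹ * y)
      hnot Q hQp hQx
    have hcardDt : Nat.card (D.map (MulAut.conj t).toMonoidHom) = p ^ d := by
      rw [Subgroup.card_map_of_injective (MulAut.conj t).injective]
      exact hd
    have hEq : Q = D.map (MulAut.conj t).toMonoidHom :=
      Subgroup.eq_of_le_of_card_ge ht (by rw [hcardDt, hQcard])
    obtain ⟨s, hs⟩ := isConj_iff.mp (mem_conjFinset.mp hx.1)
    apply hg (t⁻¹ * s)
    rw [Subgroup.mem_centralizer_iff]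
    intro a ha
    have ha' : t * a * t⁻¹ ∈ Q := by
      rw [hEq]
      exact ⟨a, ha, rfl⟩
    have h2 := hx.2 _ ha'
    rw [← hs] at h2
    calc a * (t⁻¹ * s * g * (t⁻¹ * s)⁻¹)
        = t⁻¹ * ((t * a * t⁻¹) * (s * g * s⁻¹) * (t * a * t⁻¹)⁻¹) * t * a := by group
      _ = t⁻¹ * (s * g * s⁻¹) * t * a := by rw [h2]
      _ = (t⁻¹ * s * g * (t⁻¹ * s)⁻¹) * a := by group
  · apply Cfsg.Agent.Lib.Helper16.ZR.sum_mem_of_invariant p hM Q hQp
    · intro x hx u hu
      rw [Finset.mem_filter] at hx ⊢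
      refine ⟨conj_mem_conjFinset u hx.1, fun hfix => hx.2 ?_⟩
      intro v hv
      have := hfix (u * v * u⁻¹) (Q.mul_mem (Q.mul_mem hu hv) (Q.inv_mem hu))
      calc v * x * v⁻¹
          = u⁻¹ * ((u * v * u⁻¹) * (u * x * u⁻¹) * (u * v * u⁻¹)⁻¹) * u := by group
        _ = u⁻¹ * (u * x * u⁻¹) * u := by rw [this]
        _ = x := by group
    · intro x hx
      rw [Finset.mem_filter] at hx
      have := hx.2
      push Not at this
      exact this
    · intro x _ u hu
      have huy : y * u = u * y := mem_centralizer_singleton.mp (hQy hu)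
      have h1 : u⁻¹ * y = y * u⁻¹ := by
        calc u⁻¹ * y = u⁻¹ * (y * u) * u⁻¹ := by group
          _ = u⁻¹ * (u * y) * u⁻¹ := by rw [huy]
          _ = y * u⁻¹ := by group
      have h2 : (u * x * u⁻¹)⁻¹ * y = u * (x⁻¹ * y) * u⁻¹ := by
        calc (u * x * u⁻¹)⁻¹ * y = u * x⁻¹ * (u⁻¹ * y) := by group
          _ = u * x⁻¹ * (y * u⁻¹) := by rw [h1]
          _ = u * (x⁻¹ * y) * u⁻¹ := by group
      rw [h2]
      exact (mem_center_iff _).mp (blockIdem_mem_center B) u (x⁻¹ * y)
    · intro x _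
      exact blockCoeff_memLocalRing p M hM B hB _

theorem main : Cfsg.Agent.Lib.Helper75.OTStmt.N2.{u} := by
  intro G _ _ p _ M hM B hB D hD H g hg h
  classical
  cases nonempty_fintype G
  have hMp := isPrime_of_isPModular hM
  obtain ⟨z, hzdef⟩ : ∃ z, z = classSum g * blockIdem B := ⟨_, rfl⟩
  have hzc : z ∈ Zc G := by
    rw [hzdef]
    exact mul_mem (classSum_mem_center g) (blockIdem_mem_center B)
  have hze : z * blockIdem B = z := by
    rw [hzdef, mul_assoc, Cfsg.Agent.Lib.Helper16.Normal.blockIdem_mul_self]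
  have hR : ∀ r y : G, MemLocalRing M ((classSum r * blockIdem B).coeff y) := by
    intro r y
    rw [coeff_classSum_mul]
    exact memLocalRing_sum hMp _ _ fun x _ => blockCoeff_memLocalRing p M hM B hB _
  show MemLocalIdeal M ((classSum g * blockIdem B).coeff h)
  rw [← hzdef, ← hze, coeff_mul_eq]
  obtain ⟨R, hRep⟩ := Cfsg.Agent.Lib.Helper16.ZR.exists_reps (G := G)
  rw [hRep]
  apply memLocalIdeal_sum hMp
  intro r _
  have h1 : ∑ x ∈ conjFinset r, z.coeff x * (blockIdem B).coeff (x⁻¹ * h)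
      = z.coeff r * (classSum r * blockIdem B).coeff h := by
    rw [coeff_classSum_mul, Finset.mul_sum]
    refine Finset.sum_congr rfl fun x hx => ?_
    obtain ⟨s, hs⟩ := isConj_iff.mp (mem_conjFinset.mp hx)
    rw [← hs, (mem_center_iff z).mp hzc s r]
  rw [h1]
  by_cases hdvd : Nat.card D ∣ Nat.card (Subgroup.centralizer ({r} : Set G))
  · apply memLocalIdeal_mul_right hMp _ (hR r h)
    rw [hzdef]
    exact partA p M hM B hB D hD g hg r hdvd
  · apply memLocalIdeal_mul_left hMp _ (H r hdvd h)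
    rw [hzdef]
    exact hR g r

end Cfsg.Agent.Lib.Helper79.OtN2
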