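import Mathlib
import Cfsg.Agent.Lib.Helper81.RMStmt
import Cfsg.Agent.Lib.Helper81.Expand
import Cfsg.Agent.Lib.Helper81.OddIndex
import Cfsg.Agent.Lib.Helper80.Integrality
import Cfsg.Agent.Lib.CT.Wedderburn
import Cfsg.Agent.Lib.CT.Kernel

set_option autoImplicit false

/-! S4581 piece [ODDKER]: real odd-degree irreducible characters are trivial on normal
subgroups of odd order, hence correspond to those of the quotient. -/

namespace Cfsg.Agent.Lib.Helper79.RMODDKER

open Cfsg
open scoped ComplexConjugate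
open Cfsg.Agent.Lib.CT.Wedderburn Cfsg.Agent.Lib.Helper80.Integrality

universe u

/-- pairing: the sum of an invariant function with integral values over a finite set closed
under a fixed-point-free involution is twice an algebraic integer -/
theorem sum_pair {α : Type*} [DecidableEq α] (σ : α → α) (hσ : ∀ a, σ (σ a) = a) (f : α → ℂ)
    (hf : ∀ a, f (σ a) = f a) (hint : ∀ a, IsIntegral ℤ (f a)) :
    ∀ (n : ℕ) (s : Finset α), s.card = n → (∀ a ∈ s, σ a ∈ s) → (∀ a ∈ s, σ a ≠ a) →
      ∃ w : ℂ, IsIntegral ℤ w ∧ ∑ a ∈ s, f a = 2 * w := by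
  intro n
  induction n using Nat.strong_induction_on with
  | _ n ih =>
    intro s hs hcl hfp
    rcases s.eq_empty_or_nonempty with rfl | ⟨a, ha⟩
    · exact ⟨0, isIntegral_zero, by simp⟩
    · have hσa : σ a ∈ s.erase a := Finset.mem_erase.mpr ⟨hfp a ha, hcl a ha⟩
      obtain ⟨w, hw, hws⟩ := ih ((s.erase a).erase (σ a)).card (by
          rw [Finset.card_erase_of_mem hσa, Finset.card_erase_of_mem ha]
          have : 0 < s.card := Finset.card_pos.mpr ⟨a, ha⟩
          omega) ((s.erase a).erase (σ a)) rfl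
        (by
          intro b hb
          rw [Finset.mem_erase, Finset.mem_erase] at hb ⊢
          obtain ⟨h1, h2, h3⟩ := hb
          refine ⟨fun h => h2 ?_, fun h => h1 ?_, hcl b h3⟩
          · rw [← hσ b, h, hσ]
          · rw [← hσ b, h])
        (by
          intro b hb
          exact hfp b (Finset.mem_of_mem_erase (Finset.mem_of_mem_erase hb)))
      refine ⟨f a + w, IsIntegral.add (hint a) hw, ?_⟩
      rw [← Finset.add_sum_erase s f ha, ← Finset.add_sum_erase (s.erase a) f hσa, hws, hf]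
      ring

/-- a real-valued irreducible character of odd degree has every normal subgroup of odd order
in its kernel -/
theorem ker_of_real_odd {K : Type u} [Group K] [Finite K] (N : Subgroup K) [hN : N.Normal]
    (hodd : Odd (Nat.card ↥N)) (χ : IrrCharacter K)
    (hreal : ∀ g : K, ((χ : K → ℂ) g).im = 0) (hdeg : Odd (charDegree (χ : K → ℂ))) :
    ∀ n ∈ N, (χ : K → ℂ) n = (χ : K → ℂ) 1 := by
  classical
  have := Fintype.ofFinite K
  have := Fintype.ofFinite ↥N
  have hc := isCharacter_of_irr χ.2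
  have hinv : ∀ g : K, (χ : K → ℂ) g⁻¹ = (χ : K → ℂ) g := by
    intro g
    rw [char_apply_inv hc]
    exact Complex.conj_eq_iff_im.mpr (hreal g)
  obtain ⟨S, hS⟩ : ∃ S : ℂ, S = ∑ y : ↥N, (χ : K → ℂ) (y : K) := ⟨_, rfl⟩
  have hS0 : S ≠ 0 := by
    intro h0
    obtain ⟨w, hw, hws⟩ := sum_pair (fun y : ↥N => y⁻¹) (fun a => inv_inv a)
      (fun y : ↥N => (χ : K → ℂ) (y : K)) (fun a => by simpa using hinv (a : K))
      (fun a => isIntegral_irrCharacter χ _) _ (Finset.univ.erase (1 : ↥N)) rfl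
      (by
        intro a ha
        rw [Finset.mem_erase] at ha ⊢
        exact ⟨inv_ne_one.mpr ha.1, Finset.mem_univ _⟩)
      (by
        intro a ha h
        rw [Finset.mem_erase] at ha
        apply ha.1
        have h2 : a * a = 1 * 1 := by
          rw [one_mul]
          nth_rewrite 1 [← h]
          exact inv_mul_cancel a
        exact Cfsg.Agent.Lib.Helper81.OddIndex.sq_injective_of_odd hodd h2)
    have hsum : S = (χ : K → ℂ) 1 + 2 * w := by
      rw [hS, ← Finset.add_sum_erase Finset.univ _ (Finset.mem_univ (1 : ↥N)), hws]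
      simp
    have h4 : IsIntegral ℤ ((charDegree (χ : K → ℂ) : ℂ) / ((2 : ℕ) : ℂ)) := by
      have h : (charDegree (χ : K → ℂ) : ℂ) / ((2 : ℕ) : ℂ) = -w := by
        rw [char_natCast_charDegree hc]
        push_cast
        linear_combination (-1 / 2 : ℂ) * hsum + (1 / 2 : ℂ) * h0
      rw [h]
      exact IsIntegral.neg hw
    have h5 := dvd_of_isIntegral_div (by norm_num) h4
    obtain ⟨c, hc'⟩ := hdeg
    omega
  intro n hn
  have hχ1 : (χ : K → ℂ) 1 ≠ 0 := by
    rw [← char_natCast_charDegree hc]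
    exact_mod_cast (irr_charDegree_pos χ.2).ne'
  have hK : (Nat.card K : ℂ) ≠ 0 := by exact_mod_cast Nat.card_pos.ne'
  have h1 : ∑ y : ↥N, ∑ g : K, (χ : K → ℂ) (n * (g * (y : K) * g⁻¹)) =
      (Nat.card K : ℂ) * (χ : K → ℂ) n * S / (χ : K → ℂ) 1 := by
    rw [hS, Finset.mul_sum, Finset.sum_div]
    refine Finset.sum_congr rfl fun y _ => ?_
    exact Cfsg.Agent.Lib.Helper81.Expand.schur_avg χ n (y : K)
  have h2 : ∑ y : ↥N, ∑ g : K, (χ : K → ℂ) (n * (g * (y : K) * g⁻¹)) =
      (Nat.card K : ℂ) * S := by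
    rw [Finset.sum_comm]
    have hg : ∀ g : K, ∑ y : ↥N, (χ : K → ℂ) (n * (g * (y : K) * g⁻¹)) = S := by
      intro g
      rw [hS]
      exact Fintype.sum_equiv ((MulAut.conjNormal g : ↥N ≃* ↥N).toEquiv.trans
        (Equiv.mulLeft (⟨n, hn⟩ : ↥N))) _ _ (fun y => by
          simp [MulAut.conjNormal_apply])
    rw [Finset.sum_congr rfl (fun g _ => hg g)]
    simp [Finset.sum_const, Finset.card_univ, Nat.card_eq_fintype_card]
  have h3 : (Nat.card K : ℂ) * (χ : K → ℂ) n * S / (χ : K → ℂ) 1 = (Nat.card K : ℂ) * S := by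
    rw [← h1, h2]
  rw [div_eq_iff hχ1] at h3
  have h4 : (Nat.card K : ℂ) * S * ((χ : K → ℂ) n - (χ : K → ℂ) 1) = 0 := by
    linear_combination h3
  rcases mul_eq_zero.mp h4 with h | h
  · rcases mul_eq_zero.mp h with h | h
    · exact absurd h hK
    · exact absurd h hS0
  · exact sub_eq_zero.mp h

/-- the count of real odd-degree irreducible characters does not change on factoring out a
normal subgroup of odd order -/
theorem card_RO_quot {K : Type u} [Group K] [Finite K] (N : Subgroup K) [N.Normal]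
    (hodd : Odd (Nat.card ↥N)) :
    Nat.card (Cfsg.Agent.Lib.Helper81.RMStmt.RO K) =
      Nat.card (Cfsg.Agent.Lib.Helper81.RMStmt.RO (K ⧸ N)) := by
  symm
  have e1 : Cfsg.Agent.Lib.Helper81.RMStmt.RO (K ⧸ N) ≃
      {x : {χ : IrrCharacter K // ∀ n ∈ N, (χ : K → ℂ) n = (χ : K → ℂ) 1} //
        (∀ g : K, (((x : IrrCharacter K) : K → ℂ) g).im = 0) ∧
          Odd (charDegree ((x : IrrCharacter K) : K → ℂ))} :=
    Equiv.subtypeEquiv (Cfsg.Agent.Lib.CT.Kernel.irrQuotientEquiv N) (fun χbar => by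
      have hval : ∀ g : K, ((Cfsg.Agent.Lib.CT.Kernel.irrQuotientEquiv N χbar : IrrCharacter K)
          : K → ℂ) g = (χbar : K ⧸ N → ℂ) (g : K ⧸ N) :=
        fun g => Cfsg.Agent.Lib.CT.Kernel.irrQuotientEquiv_apply N χbar g
      have hdeg : charDegree ((Cfsg.Agent.Lib.CT.Kernel.irrQuotientEquiv N χbar : IrrCharacter K)
          : K → ℂ) = charDegree (χbar : K ⧸ N → ℂ) := by
        unfold charDegree
        rw [hval 1]
        rfl
      rw [hdeg]
      constructor
      · rintro ⟨h1, h2⟩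
        exact ⟨fun g => by rw [hval g]; exact h1 _, h2⟩
      · rintro ⟨h1, h2⟩
        refine ⟨fun q => ?_, h2⟩
        obtain ⟨g, rfl⟩ := QuotientGroup.mk_surjective q
        rw [← hval g]
        exact h1 g)
  have e2 := Equiv.subtypeSubtypeEquivSubtypeInter
    (fun χ : IrrCharacter K => ∀ n ∈ N, (χ : K → ℂ) n = (χ : K → ℂ) 1)
    (fun χ : IrrCharacter K => (∀ g : K, ((χ : K → ℂ) g).im = 0) ∧
      Odd (charDegree (χ : K → ℂ)))
  have e3 : {χ : IrrCharacter K // (∀ n ∈ N, (χ : K → ℂ) n = (χ : K → ℂ) 1) ∧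
      ((∀ g : K, ((χ : K → ℂ) g).im = 0) ∧ Odd (charDegree (χ : K → ℂ)))} ≃
      Cfsg.Agent.Lib.Helper81.RMStmt.RO K :=
    Equiv.subtypeEquivRight (fun χ =>
      ⟨fun h => h.2, fun h => ⟨ker_of_real_odd N hodd χ h.1 h.2, h⟩⟩)
  exact Nat.card_congr (e1.trans (e2.trans e3))

theorem main : Cfsg.Agent.Lib.Helper81.RMStmt.ODDKER.{u} := by
  intro G _ _ U _ H hodd
  have hN : Odd (Nat.card ↥(U.subgroupOf H)) := by
    have hdvd : Nat.card ↥(U.subgroupOf H) ∣ Nat.card ↥U :=
      Subgroup.card_comap_dvd_of_injective U H.subtype Subtype.coe_injective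
    exact hodd.of_dvd_nat hdvd
  exact card_RO_quot (U.subgroupOf H) hN

end Cfsg.Agent.Lib.Helper79.RMODDKER
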