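import Mathlib
import Cfsg.Agent.Lib.Helper79.SNStmt

set_option autoImplicit false

/-! S4931: assembly of the pieces of `SNStmt` (LEMB and the forward direction). -/

namespace Cfsg.Agent.Lib.Helper79.SNAsm

open Cfsg Cfsg.Agent.Lib.Helper79.SNStmt
open scoped commutatorElement

universe u

theorem lemB (h1 : NormQ.{u}) (h2 : Burn.{u}) (h3 : TateK.{u}) : LemB.{u} := by
  intro G _ _ p _ P M R hM hR hRM hPM hMN hPR hRP
  classical
  haveI := hM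
  haveI := hR
  obtain ⟨π, hπdef⟩ : ∃ π : G →* G ⧸ R, π = QuotientGroup.mk' R := ⟨_, rfl⟩
  have hπ : Function.Surjective π := by rw [hπdef]; exact QuotientGroup.mk'_surjective R
  have hker : π.ker = R := by rw [hπdef]; exact QuotientGroup.ker_mk' R
  have hπR : ∀ x, π x = 1 ↔ x ∈ R := fun x => by rw [← MonoidHom.mem_ker, hker]
  obtain ⟨Pb, hPb⟩ : ∃ Pb : Sylow p (G ⧸ R), (Pb : Subgroup (G ⧸ R)) = (P : Subgroup G).map π :=
    ⟨P.mapSurjective hπ, rfl⟩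
  have hMb : (M.map π).Normal := Subgroup.Normal.map hM π hπ
  have hPbM : (Pb : Subgroup (G ⧸ R)) ≤ M.map π := by rw [hPb]; exact Subgroup.map_mono hPM
  have hab : ∀ a ∈ (Pb : Subgroup (G ⧸ R)), ∀ b ∈ (Pb : Subgroup (G ⧸ R)), a * b = b * a := by
    intro a ha b hb
    rw [hPb] at ha hb
    obtain ⟨x, hx, rfl⟩ := ha
    obtain ⟨y, hy, rfl⟩ := hb
    have h : x * y * x⁻¹ * y⁻¹ ∈ R := hPR (Subgroup.commutator_mem_commutator hx hy)
    have h' := (hπR _).2 h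
    simp only [map_mul, map_inv] at h'
    calc π x * π y = (π x * π y * (π x)⁻¹ * (π y)⁻¹) * (π y * π x) := by group
      _ = π y * π x := by rw [h', one_mul]
  have hnorm : M.map π ⊓ Subgroup.normalizer ((Pb : Subgroup (G ⧸ R)) : Set (G ⧸ R)) ≤
      (Pb : Subgroup (G ⧸ R)) := by
    intro xb hxb
    obtain ⟨hxM, hxN⟩ := hxb
    obtain ⟨m, hm, rfl⟩ := hxM
    have hcond : ∀ x ∈ (P : Subgroup G), m * x * m⁻¹ ∈ (P : Subgroup G) ⊔ R := by
      intro x hx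
      have h1' : π m * π x * (π m)⁻¹ ∈ (Pb : Subgroup (G ⧸ R)) :=
        (Subgroup.mem_normalizer_iff.1 hxN (π x)).1 (by
          rw [hPb]; exact Subgroup.mem_map_of_mem π hx)
      rw [hPb] at h1'
      obtain ⟨y, hy, hyx⟩ := h1'
      have h5 : π (y⁻¹ * (m * x * m⁻¹)) = 1 := by
        simp only [map_mul, map_inv, hyx]
        group
      have hR' := (hπR _).1 h5
      have h6 : m * x * m⁻¹ = y * (y⁻¹ * (m * x * m⁻¹)) := by group
      rw [h6]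
      exact Subgroup.mul_mem_sup hy hR'
    have hmem := h1 G p P R hR m hcond
    have hmem' : m ∈ ((Subgroup.normalizer ((P : Subgroup G) : Set G) ⊔ R : Subgroup G) :
        Set G) := hmem
    rw [Subgroup.mul_normal, Set.mem_mul] at hmem'
    obtain ⟨n, hn, r, hr, rfl⟩ := hmem'
    have hnM : n ∈ M := by
      have h7 : n = (n * r) * r⁻¹ := by group
      rw [h7]
      exact M.mul_mem hm (M.inv_mem (hRM hr))
    have hnP : n ∈ (P : Subgroup G) := hMN ⟨hnM, hn⟩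
    rw [hPb]
    refine ⟨n, hnP, ?_⟩
    rw [map_mul, (hπR r).2 hr, mul_one]
  obtain ⟨Qb, hQbn, hQbM, hQbP, hQbsup⟩ := h2 (G ⧸ R) p Pb (M.map π) hMb hPbM hab hnorm
  obtain ⟨Q, hQdef⟩ : ∃ Q : Subgroup G, Q = Qb.comap π := ⟨_, rfl⟩
  have hQn : Q.Normal := by rw [hQdef]; exact hQbn.comap π
  have hQM : Q ≤ M := by
    intro x hx
    rw [hQdef, Subgroup.mem_comap] at hx
    obtain ⟨m, hm, hmx⟩ := hQbM hx
    have h5 : π (m⁻¹ * x) = 1 := by simp [map_mul, hmx]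
    have hR' := hRM ((hπR _).1 h5)
    have h6 : x = m * (m⁻¹ * x) := by group
    rw [h6]
    exact M.mul_mem hm hR'
  have hQP : Q ⊓ (P : Subgroup G) ≤ ⁅(P : Subgroup G), (P : Subgroup G)⁆ := by
    intro x hx
    obtain ⟨hxQ, hxP⟩ := hx
    apply hRP
    have h5 : π x ∈ Qb ⊓ (Pb : Subgroup (G ⧸ R)) :=
      ⟨by rw [hQdef] at hxQ; exact hxQ, by rw [hPb]; exact Subgroup.mem_map_of_mem π hxP⟩
    rw [hQbP] at h5
    exact ⟨(hπR x).1 (Subgroup.mem_bot.1 h5), hxP⟩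
  obtain ⟨K, hKn, hKQ, hKP, hQK⟩ := h3 G p P Q hQn hQP
  have hMQP : M ≤ Q ⊔ (P : Subgroup G) := by
    intro m hm
    have h5 : π m ∈ Qb ⊔ (Pb : Subgroup (G ⧸ R)) := by
      rw [hQbsup]; exact Subgroup.mem_map_of_mem π hm
    haveI := hQbn
    have h5' : π m ∈ ((Qb ⊔ (Pb : Subgroup (G ⧸ R)) : Subgroup (G ⧸ R)) : Set (G ⧸ R)) := h5
    rw [Subgroup.normal_mul, Set.mem_mul] at h5'
    obtain ⟨q, hq, y, hy, hqy⟩ := h5'
    rw [hPb] at hy
    obtain ⟨a, ha, rfl⟩ := hy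
    have h6 : m * a⁻¹ ∈ Q := by
      rw [hQdef, Subgroup.mem_comap, map_mul, map_inv, ← hqy]
      simpa using hq
    have h7 : m = (m * a⁻¹) * a := by group
    rw [h7]
    exact Subgroup.mul_mem_sup h6 ha
  have hfr : Subgroup.normalizer ((P : Subgroup G) : Set G) ⊔ M = ⊤ :=
    Sylow.normalizer_sup_eq_top' P hPM
  have hPN : (P : Subgroup G) ≤ Subgroup.normalizer ((P : Subgroup G) : Set G) :=
    Subgroup.le_normalizer
  refine ⟨K, hKn, ?_, ?_⟩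
  · apply top_le_iff.1
    rw [← hfr]
    apply sup_le le_sup_right
    calc M ≤ Q ⊔ (P : Subgroup G) := hMQP
      _ ≤ (K ⊔ (P : Subgroup G)) ⊔ (P : Subgroup G) := sup_le_sup_right hQK _
      _ ≤ K ⊔ Subgroup.normalizer ((P : Subgroup G) : Set G) :=
        sup_le (sup_le le_sup_left (hPN.trans le_sup_right)) (hPN.trans le_sup_right)
  · apply le_bot_iff.1
    intro x hx
    obtain ⟨hxK, hxN⟩ := hx
    have hxP : x ∈ (P : Subgroup G) := hMN ⟨hQM (hKQ hxK), hxN⟩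
    have h5 : x ∈ K ⊓ (P : Subgroup G) := ⟨hxK, hxP⟩
    rw [hKP] at h5
    exact h5

theorem fwd (hK : Kern.{u}) (hS : Sep.{u}) (hD : DegP.{u}) (hB : LemB.{u}) : Fwd.{u} := by
  intro G _ _ p _ P hyp
  classical
  obtain ⟨N, hN⟩ : ∃ N : Subgroup G, N = Subgroup.normalizer ((P : Subgroup G) : Set G) :=
    ⟨_, rfl⟩
  rw [← hN] at hyp ⊢
  have hPN : (P : Subgroup G) ≤ N := by rw [hN]; exact Subgroup.le_normalizer
  obtain ⟨A, hA⟩ : ∃ A : Subgroup ↥N, A = (P : Subgroup G).subgroupOf N := ⟨_, rfl⟩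
  have hAn : A.Normal := by
    rw [hA]
    subst hN
    exact Subgroup.normal_in_normalizer
  have hAmem : ∀ x : ↥N, x ∈ A ↔ (x : G) ∈ (P : Subgroup G) := fun x => by
    rw [hA]; exact Subgroup.mem_subgroupOf
  have hAidx : ¬ p ∣ A.index := by
    rw [hA]
    intro hdvd
    exact P.not_dvd_index (hdvd.trans (Subgroup.relIndex_dvd_index_of_le hPN))
  haveI := hAn
  have hA2n : (⁅A, A⁆ : Subgroup ↥N).Normal := inferInstance
  obtain ⟨Θ, hΘ⟩ : ∃ Θ : Subgroup ↥N → Set (IrrCharacter G), ∀ (D : Subgroup ↥N)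
      (χ : IrrCharacter G), χ ∈ Θ D ↔
        ∃ θ : IrrCharacter ↥N, (∀ d ∈ D, (θ : ↥N → ℂ) d = (θ : ↥N → ℂ) 1) ∧
          ∀ x : ↥N, (χ : G → ℂ) x = (θ : ↥N → ℂ) x :=
    ⟨fun D => {χ | ∃ θ : IrrCharacter ↥N, (∀ d ∈ D, (θ : ↥N → ℂ) d = (θ : ↥N → ℂ) 1) ∧
        ∀ x : ↥N, (χ : G → ℂ) x = (θ : ↥N → ℂ) x}, fun D χ => Iff.rfl⟩
  have key : ∀ D : Subgroup ↥N, D.Normal → ⁅A, A⁆ ≤ D → ∀ S : Subgroup G,
      (∀ g : G, g ∈ S ↔ ∀ χ ∈ Θ D, (χ : G → ℂ) g = (χ : G → ℂ) 1) →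
      ∀ x : ↥N, (x : G) ∈ S ↔ x ∈ D := by
    intro D hDn hAD S hSmem x
    constructor
    · intro hx
      by_contra hxD
      obtain ⟨θ, hθD, hθx⟩ := hS ↥N D hDn x hxD
      have hdeg : ¬ p ∣ charDegree (θ : ↥N → ℂ) :=
        hD ↥N p Fact.out A hAn hAidx θ (fun a ha b hb => hθD _ (hAD (by
          have h5 : a * b * a⁻¹ * b⁻¹ = ⁅a, b⁆ := rfl
          rw [h5]
          exact Subgroup.commutator_mem_commutator ha hb)))
      obtain ⟨χ, hχ⟩ := hyp θ hdeg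
      have hχΘ : χ ∈ Θ D := by rw [hΘ]; exact ⟨θ, hθD, hχ⟩
      have h1 := (hSmem (x : G)).1 hx χ hχΘ
      rw [hχ x] at h1
      have h2 := hχ 1
      rw [Subgroup.coe_one] at h2
      rw [h2] at h1
      exact hθx h1
    · intro hxD
      rw [hSmem]
      intro χ hχ
      rw [hΘ] at hχ
      obtain ⟨θ, hθD, hχθ⟩ := hχ
      rw [hχθ x, hθD x hxD]
      have h2 := hχθ 1
      rw [Subgroup.coe_one] at h2
      exact h2.symm
  obtain ⟨M, hMn, hMmem⟩ := hK G (Θ A)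
  obtain ⟨R, hRn, hRmem⟩ := hK G (Θ ⁅A, A⁆)
  have hM := key A hAn (Subgroup.commutator_le_left A A) M hMmem
  have hR := key ⁅A, A⁆ hA2n le_rfl R hRmem
  have hRM : R ≤ M := by
    intro g hg
    rw [hMmem]
    intro χ hχ
    apply (hRmem g).1 hg χ
    rw [hΘ] at hχ ⊢
    obtain ⟨θ, hθ, hχθ⟩ := hχ
    exact ⟨θ, fun d hd => hθ d (Subgroup.commutator_le_left A A hd), hχθ⟩
  have hPM : (P : Subgroup G) ≤ M := fun x hx => (hM ⟨x, hPN hx⟩).2 ((hAmem _).2 hx)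
  have hMN : M ⊓ N ≤ (P : Subgroup G) := by
    rintro x ⟨hxM, hxN⟩
    exact (hAmem ⟨x, hxN⟩).1 ((hM ⟨x, hxN⟩).1 hxM)
  have hmap : (⁅A, A⁆ : Subgroup ↥N).map N.subtype =
      ⁅(P : Subgroup G), (P : Subgroup G)⁆ := by
    rw [Subgroup.map_commutator, hA, Subgroup.subgroupOf_map_subtype, inf_of_le_left hPN]
  have hPR : ⁅(P : Subgroup G), (P : Subgroup G)⁆ ≤ R := by
    rw [← hmap]
    rintro _ ⟨y, hy, rfl⟩
    exact (hR y).2 hy
  have hRP : R ⊓ (P : Subgroup G) ≤ ⁅(P : Subgroup G), (P : Subgroup G)⁆ := by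
    rintro x ⟨hxR, hxP⟩
    rw [← hmap]
    exact ⟨⟨x, hPN hxP⟩, (hR ⟨x, hPN hxP⟩).1 hxR, rfl⟩
  subst hN
  exact hB G p P M R hMn hRn hRM hPM hMN hPR hRP

end Cfsg.Agent.Lib.Helper79.SNAsm
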