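import Mathlib
import Cfsg.Agent.Lib.Helper79.SNStmt
import Cfsg.Agent.Lib.CT.Ops

set_option autoImplicit false

/-! S4931 piece [CONV]: a subgroup with a normal complement: every irreducible character
extends (inflation through `G ⧸ K ≅ H`). -/

namespace Cfsg.Agent.Lib.Helper79.SNCONV

open Cfsg Cfsg.Agent.Lib.Helper79.SNStmt

universe u

theorem main : Conv.{u} := by
  intro G _ _ H K hK hsup hinf θ
  classical
  haveI := hK
  obtain ⟨f, hf⟩ : ∃ f : ↥H →* G ⧸ K, f = (QuotientGroup.mk' K).comp H.subtype := ⟨_, rfl⟩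
  have hfx : ∀ x : ↥H, f x = ((x : G) : G ⧸ K) := fun x => by rw [hf]; rfl
  have hinj : Function.Injective f := by
    rw [injective_iff_map_eq_one]
    intro x hx
    rw [hfx, QuotientGroup.eq_one_iff] at hx
    have h1 : (x : G) ∈ K ⊓ H := ⟨hx, x.2⟩
    rw [hinf, Subgroup.mem_bot] at h1
    exact Subtype.ext h1
  have hsurj : Function.Surjective f := by
    intro y
    obtain ⟨g, rfl⟩ := QuotientGroup.mk_surjective y
    have hg : g ∈ ((K ⊔ H : Subgroup G) : Set G) := by rw [hsup]; trivial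
    rw [Subgroup.normal_mul, Set.mem_mul] at hg
    obtain ⟨k, hk, h, hh, rfl⟩ := hg
    refine ⟨⟨h, hh⟩, ?_⟩
    rw [hfx]
    symm
    rw [QuotientGroup.mk_mul, (QuotientGroup.eq_one_iff k).2 hk, one_mul]
  obtain ⟨e, he⟩ : ∃ e : ↥H ≃* G ⧸ K, ∀ x, e x = f x :=
    ⟨MulEquiv.ofBijective f ⟨hinj, hsurj⟩, fun x => rfl⟩
  obtain ⟨φ, hφ⟩ : ∃ φ : G →* ↥H, ∀ g, φ g = e.symm (g : G ⧸ K) :=
    ⟨e.symm.toMonoidHom.comp (QuotientGroup.mk' K), fun g => rfl⟩
  have hφsurj : Function.Surjective φ := by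
    intro x
    refine ⟨(x : G), ?_⟩
    rw [hφ, ← hfx, ← he, MulEquiv.symm_apply_apply]
  refine ⟨⟨fun g => (θ : ↥H → ℂ) (φ g),
    Cfsg.Agent.Lib.CT.Ops.isIrrCharacter_comp_surjective φ hφsurj θ.2⟩, ?_⟩
  intro x
  show (θ : ↥H → ℂ) (φ (x : G)) = (θ : ↥H → ℂ) x
  rw [hφ, ← hfx, ← he, MulEquiv.symm_apply_apply]
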