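import Mathlib
import Cfsg.Agent.Lib.Helper61.T2Stmt

set_option autoImplicit false

/-! S2197 piece [P65]: degree 65 is impossible. -/

namespace Cfsg.Agent.Lib.Helper79.T2P65

open Cfsg.Agent.Lib.Helper61.T2Stmt

universe u v

theorem fact2 : (10240 : ℕ).factorization 2 = 11 := by
  have h : (10240 : ℕ) = 2 ^ 11 * 5 := by norm_num
  rw [h, Nat.factorization_mul (by norm_num) (by norm_num),
    Nat.Prime.factorization_pow Nat.prime_two]
  simp
  exact Nat.factorization_eq_zero_of_not_dvd (by norm_num)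

theorem main : P65.{u, v} := by
  intro hT G _ _ Ω _ _ hAct M hM hMcard z hzM hzc hz1 hz2 h65
  classical
  have hp2 : Fact (Nat.Prime 2) := ⟨Nat.prime_two⟩
  obtain ⟨hT1, hT2, hT3, hT4⟩ := hT G Ω hAct.two (by rw [h65]; norm_num)
  have hfaith := hAct.faith
  have hcardG := hAct.card
  -- a Sylow 2-subgroup of `M` containing `z`
  have ho : orderOf (⟨z, hzM⟩ : ↥M) = 2 :=
    orderOf_eq_prime (by apply Subtype.ext; simp [pow_two, hz2])
      (by intro h; exact hz1 (congrArg Subtype.val h))
  have hzp : IsPGroup 2 ↥(Subgroup.zpowers (⟨z, hzM⟩ : ↥M)) :=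
    IsPGroup.of_card (n := 1) (by rw [Nat.card_zpowers, ho, pow_one])
  obtain ⟨S, hS⟩ := hzp.exists_le_sylow
  have hScard : Nat.card ↥(S : Subgroup ↥M) = 2048 := by
    rw [Sylow.card_eq_multiplicity, hMcard, fact2]
    norm_num
  obtain ⟨SG, hSG⟩ : ∃ SG : Subgroup G, SG = (S : Subgroup ↥M).map M.subtype := ⟨_, rfl⟩
  have hSGcard : Nat.card ↥SG = 2048 := by
    rw [hSG, Subgroup.card_map_of_injective M.subtype_injective, hScard]
  have hSGp : IsPGroup 2 ↥SG := by
    rw [hSG]
    exact S.isPGroup'.map M.subtype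
  have hSGM : SG ≤ M := by
    rw [hSG]
    exact Subgroup.map_subtype_le _
  have hzSG : z ∈ SG := by
    rw [hSG]
    exact ⟨⟨z, hzM⟩, hS (Subgroup.mem_zpowers _), rfl⟩
  -- a fixed point
  have hnd : ¬ 2 ∣ Nat.card Ω := by
    rw [Nat.card_eq_fintype_card, h65]
    norm_num
  obtain ⟨α, hα⟩ := hSGp.nonempty_fixed_point_of_prime_not_dvd_card Ω hnd
  have hαfix : ∀ s ∈ SG, s • α = α := fun s hs => hα ⟨s, hs⟩
  -- stabilizer orders
  have hGα : Nat.card (MulAction.stabilizer G α) = 276480 := by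
    have := hT3 α
    rw [hcardG, h65] at this
    omega
  have hGαβ : ∀ β, β ≠ α →
      Nat.card ↥(MulAction.stabilizer G α ⊓ MulAction.stabilizer G β) = 4320 := by
    intro β hβ
    have := hT4 α β (Ne.symm hβ)
    rw [hGα, h65] at this
    omega
  -- `SG` is transitive on `Ω \ {α}`
  have htrans : ∀ β γ : Ω, β ≠ α → γ ≠ α → ∃ s ∈ SG, s • β = γ := by
    intro β γ hβ hγ
    have hst_dvd : Nat.card (MulAction.stabilizer ↥SG β) ∣ 4320 := by
      rw [← hGαβ β hβ]
      let f : ↥(MulAction.stabilizer ↥SG β) →*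
          ↥(MulAction.stabilizer G α ⊓ MulAction.stabilizer G β) :=
        { toFun := fun s => ⟨((s : ↥SG) : G),
            Subgroup.mem_inf.mpr ⟨hαfix _ (s : ↥SG).2, s.2⟩⟩
          map_one' := rfl
          map_mul' := fun _ _ => rfl }
      apply Subgroup.card_dvd_of_injective f
      intro a b hab
      apply Subtype.ext
      apply Subtype.ext
      exact congrArg
        (fun t : ↥(MulAction.stabilizer G α ⊓ MulAction.stabilizer G β) => (t : G)) hab
    obtain ⟨j, hj⟩ := IsPGroup.iff_card.mp (hSGp.to_subgroup (MulAction.stabilizer ↥SG β))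
    have hj5 : Nat.card (MulAction.stabilizer ↥SG β) ≤ 32 := by
      rw [hj] at hst_dvd ⊢
      have hj' : j ≤ 5 := by
        by_contra hcon
        push Not at hcon
        have h6 : 2 ^ 6 ∣ 4320 := (pow_dvd_pow 2 hcon).trans hst_dvd
        norm_num at h6
      calc 2 ^ j ≤ 2 ^ 5 := Nat.pow_le_pow_right (by norm_num) hj'
        _ = 32 := by norm_num
    have hidx : Nat.card (MulAction.stabilizer ↥SG β) *
        (MulAction.stabilizer ↥SG β).index = 2048 := by
      rw [Subgroup.card_mul_index, hSGcard]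
    have horb : (MulAction.orbit ↥SG β).ncard = (MulAction.stabilizer ↥SG β).index :=
      (MulAction.index_stabilizer ↥SG β).symm
    have h64 : 64 ≤ (MulAction.orbit ↥SG β).ncard := by
      rw [horb]
      by_contra hcon
      push Not at hcon
      have : Nat.card (MulAction.stabilizer ↥SG β) * (MulAction.stabilizer ↥SG β).index ≤
          32 * 63 := Nat.mul_le_mul hj5 (by omega)
      omega
    have hsub : MulAction.orbit ↥SG β ⊆ {γ : Ω | γ ≠ α} := by
      rintro _ ⟨s, rfl⟩ h
      apply hβ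
      have h1 : (s : G)⁻¹ • ((s : G) • β) = (s : G)⁻¹ • α := congrArg _ h
      rw [inv_smul_smul] at h1
      rw [h1]
      exact hαfix _ (SG.inv_mem s.2)
    have hcardc : ({γ : Ω | γ ≠ α} : Set Ω).ncard = 64 := by
      have h1 : ({γ : Ω | γ ≠ α} : Set Ω) = Set.univ \ {α} := by
        ext γ
        simp
      rw [h1, Set.ncard_sdiff_singleton_of_mem (Set.mem_univ α), Set.ncard_univ,
        Nat.card_eq_fintype_card, h65]
    have heq := Set.eq_of_subset_of_ncard_le hsub (by rw [hcardc]; exact h64) (Set.toFinite _)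
    have hγmem : γ ∈ MulAction.orbit ↥SG β := by
      rw [heq]
      exact hγ
    obtain ⟨s, hs⟩ := hγmem
    exact ⟨(s : G), s.2, hs⟩
  -- `z` moves some point
  obtain ⟨β, hβz⟩ : ∃ β : Ω, z • β ≠ β := by
    by_contra hcon
    push Not at hcon
    apply hz1
    exact hfaith.eq_of_smul_eq_smul (fun ω => by rw [hcon ω, one_smul])
  have hβα : β ≠ α := by
    rintro rfl
    exact hβz (hαfix z hzSG)
  have hzfix : ∀ γ : Ω, z • γ = γ → γ = α := by
    intro γ hγz
    by_contra hγα
    obtain ⟨s, hs, rfl⟩ := htrans β γ hβα hγα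
    apply hβz
    have hcomm : s * z = z * s := hzc s (hSGM hs)
    rw [← mul_smul, ← hcomm, mul_smul] at hγz
    exact smul_left_cancel s hγz
  -- `M` fixes `α`
  have hMα : M ≤ MulAction.stabilizer G α := by
    intro m hm
    rw [MulAction.mem_stabilizer_iff]
    apply hzfix
    rw [← mul_smul, ← hzc m hm, mul_smul, hαfix z hzSG]
  rcases hM.le_iff.mp hMα with h | h
  · have h1 : Nat.card (MulAction.stabilizer G α) = Nat.card G := by
      rw [h, Subgroup.card_top]
    rw [hGα, hcardG] at h1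
    norm_num at h1
  · have h1 : Nat.card (MulAction.stabilizer G α) = Nat.card M := by rw [h]
    rw [hGα, hMcard] at h1
    norm_num at h1

end Cfsg.Agent.Lib.Helper79.T2P65
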